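import Cfsg.Agent.E82.Mach.Ops

/-!
# The pressure machine: vectors and operators as natural numbers (helper38)

* `bv n v` : the vector of the bits of `v`; `lin n T` : the operator whose rows are packed in `T`;
* `ops n G` : the family `1 + N` given by lists of entries; `evW`, `okT` : evaluation of words;
* `rk` : the rank of a list of numbers.
-/

set_option autoImplicit false

namespace Cfsg.Agent.E82.Mach

open Module

/-- evaluate the number first -/
noncomputable def force {α : Type} (n : ℕ) (f : ℕ → α) : α := Nat.rec (f 0) (fun k _ => f (Nat.succ k)) n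

theorem force_eq {α : Type} (n : ℕ) (f : ℕ → α) : force n f = f n := by cases n <;> rfl

/-- a bit as an element of the field -/
def bt (v i : ℕ) : F2 := if v.testBit i then 1 else 0

theorem bt_xor (a b i : ℕ) : bt (a ^^^ b) i = bt a i + bt b i := by
  unfold bt
  rw [Nat.testBit_xor]
  cases a.testBit i <;> cases b.testBit i <;> decide

theorem bt_and (a b i : ℕ) : bt (a &&& b) i = bt a i * bt b i := by
  unfold bt
  rw [Nat.testBit_and]
  cases a.testBit i <;> cases b.testBit i <;> decide

theorem bt_zero (i : ℕ) : bt 0 i = 0 := by unfold bt; rw [Nat.zero_testBit]; rfl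

theorem bt_two_pow (j i : ℕ) : bt (2 ^ j) i = if j = i then 1 else 0 := by
  unfold bt
  rw [Nat.testBit_two_pow]
  by_cases h : j = i
  · rw [if_pos h, if_pos (decide_eq_true h)]
  · rw [if_neg h, if_neg (by rw [decide_eq_false h]; decide)]

theorem bt_shiftRight (a k i : ℕ) : bt (a >>> k) i = bt a (k + i) := by unfold bt; rw [Nat.testBit_shiftRight]

theorem bt_shiftLeft (a k i : ℕ) : bt (a <<< k) i = if k ≤ i then bt a (i - k) else 0 := by
  unfold bt
  rw [Nat.testBit_shiftLeft]
  by_cases h : k ≤ i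
  · rw [if_pos h, decide_eq_true (ge_iff_le.2 h), Bool.true_and]
  · rw [if_neg h, decide_eq_false (fun e => h (ge_iff_le.1 e)), Bool.false_and]; rfl

theorem bt_mask (n i : ℕ) : bt (2 ^ n - 1) i = if i < n then 1 else 0 := by
  unfold bt
  rw [Nat.testBit_two_pow_sub_one]
  by_cases h : i < n
  · rw [if_pos h, if_pos (decide_eq_true h)]
  · rw [if_neg h, if_neg (by rw [decide_eq_false h]; decide)]

theorem bt_true {v i : ℕ} (h : v.testBit i = true) : bt v i = 1 := by unfold bt; rw [if_pos h]

theorem bt_false {v i : ℕ} (h : v.testBit i = false) : bt v i = 0 := by unfold bt; rw [h]; rfl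

/-- the test of a bit, for the kernel -/
def tb (v i : ℕ) : Bool := Nat.beq (Nat.land (Nat.shiftRight v i) 1) 1

theorem tb_eq (v i : ℕ) : tb v i = v.testBit i := by
  have h : Nat.land (Nat.shiftRight v i) 1 = (v >>> i) % 2 := Nat.and_one_is_mod _
  rw [tb, h, Nat.testBit_eq_decide_div_mod_eq, Nat.shiftRight_eq_div_pow]
  by_cases e : v / 2 ^ i % 2 = 1
  · rw [e, decide_eq_true rfl]; rfl
  · rw [decide_eq_false e]
    exact Bool.eq_false_iff.2 fun h => e (Nat.eq_of_beq_eq_true h)

/-- the space of dimension `n` -/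
abbrev X (n : ℕ) : Type := Fin n → F2

/-- the vector of the first `n` bits -/
def bv (n v : ℕ) : X n := fun i => bt v i

/-- the sequence of all bits -/
def bw (v : ℕ) : ℕ → F2 := fun i => bt v i

theorem bv_xor (n a b : ℕ) : bv n (a ^^^ b) = bv n a + bv n b := funext fun i => bt_xor a b i

theorem bv_zero (n : ℕ) : bv n 0 = 0 := funext fun i => bt_zero i

theorem bw_xor (a b : ℕ) : bw (a ^^^ b) = bw a + bw b := funext fun i => bt_xor a b i

theorem bw_zero : bw 0 = 0 := funext fun i => bt_zero i

theorem bv_two_pow {n : ℕ} (j : Fin n) : bv n (2 ^ (j : ℕ)) = Pi.single j 1 := by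
  funext i
  rw [bv, bt_two_pow, Pi.single_apply]
  by_cases h : i = j
  · rw [if_pos h, if_pos (congrArg Fin.val h).symm]
  · rw [if_neg h, if_neg fun e => h (Fin.ext e).symm]

/-- the `i`-th row of a table -/
def row (n T i : ℕ) : ℕ := Nat.land (Nat.shiftRight T (Nat.mul n i)) (Nat.sub (Nat.pow 2 n) 1)

theorem bt_row (n T i t : ℕ) : bt (row n T i) t = if t < n then bt T (n * i + t) else 0 := by
  have h : row n T i = (T >>> (n * i)) &&& (2 ^ n - 1) := rfl
  rw [h, bt_and, bt_shiftRight, bt_mask]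
  split_ifs
  · rw [mul_one]
  · rw [mul_zero]

theorem bv_row_xor (n A B i : ℕ) : bv n (row n (A ^^^ B) i) = bv n (row n A i) + bv n (row n B i) := by
  funext t
  rw [Pi.add_apply, bv, bv, bv, bt_row, bt_row, bt_row, if_pos t.2, if_pos t.2, if_pos t.2, bt_xor]

theorem bv_row_zero (n i : ℕ) : bv n (row n 0 i) = 0 := by
  funext t
  rw [bv, bt_row, if_pos t.2, bt_zero]; rfl

/-- the number has at most `n` bits -/
def Sm (n r : ℕ) : Prop := ∀ t, n ≤ t → bt r t = 0

theorem sm_row (n T i : ℕ) : Sm n (row n T i) := fun t ht => by rw [bt_row, if_neg (not_lt.2 ht)]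

theorem sm_two_pow {n j : ℕ} (h : j < n) : Sm n (2 ^ j) := fun t ht => by rw [bt_two_pow, if_neg (by omega)]

theorem Sm.xor {n a b : ℕ} (ha : Sm n a) (hb : Sm n b) : Sm n (a ^^^ b) := fun t ht => by
  rw [bt_xor, ha t ht, hb t ht, add_zero]

theorem sm_zero (n : ℕ) : Sm n 0 := fun t _ => bt_zero t

theorem bv_row_shift {n r : ℕ} (hr : Sm n r) (k i : ℕ) :
    bv n (row n (r <<< (n * k)) i) = if i = k then bv n r else 0 := by
  funext t
  rw [bv, bt_row, if_pos t.2, bt_shiftLeft]
  rcases lt_trichotomy i k with h | h | h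
  · have : n * (i + 1) ≤ n * k := Nat.mul_le_mul_left n h
    have h2 := t.2
    rw [if_neg (by rw [mul_add, mul_one] at this; omega), if_neg h.ne]; rfl
  · rw [h, if_pos (Nat.le_add_right _ _), if_pos rfl, Nat.add_sub_cancel_left]; rfl
  · have : n * (k + 1) ≤ n * i := Nat.mul_le_mul_left n h
    rw [mul_add, mul_one] at this
    rw [if_pos (by omega), if_neg h.ne', hr _ (by omega)]; rfl

/-- the operator of a table -/
noncomputable def lin (n T : ℕ) : End F2 (X n) := (Pi.basisFun F2 (Fin n)).constr F2 fun i => bv n (row n T i)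

theorem lin_single (n T : ℕ) (i : Fin n) : lin n T (Pi.single i 1) = bv n (row n T i) := by
  rw [← Pi.basisFun_apply]; exact Basis.constr_basis _ _ _ _

theorem x_ext {n : ℕ} {V : Type*} [AddCommGroup V] [Module F2 V] {f g : X n →ₗ[F2] V}
    (h : ∀ i : Fin n, f (Pi.single i 1) = g (Pi.single i 1)) : f = g :=
  (Pi.basisFun F2 (Fin n)).ext fun i => by rw [Pi.basisFun_apply]; exact h i

theorem lin_xor (n A B : ℕ) : lin n (A ^^^ B) = lin n A + lin n B :=
  x_ext fun i => by rw [LinearMap.add_apply, lin_single, lin_single, lin_single, bv_row_xor]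

theorem lin_zero (n : ℕ) : lin n 0 = 0 := x_ext fun i => by rw [lin_single, bv_row_zero]; rfl

/-- the `i`-th coordinate -/
def co (n i : ℕ) : X n →ₗ[F2] F2 := if h : i < n then LinearMap.proj ⟨i, h⟩ else 0

theorem co_single {n : ℕ} (k : ℕ) (i : Fin n) : co n k (Pi.single i 1) = if (i : ℕ) = k then 1 else 0 := by
  unfold co
  by_cases h : k < n
  · rw [dif_pos h, LinearMap.proj_apply, Pi.single_apply]
    by_cases e : (i : ℕ) = k
    · rw [if_pos e, if_pos (Fin.ext e.symm)]
    · rw [if_neg e, if_neg fun e' => e (congrArg Fin.val e').symm]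
  · rw [dif_neg h, if_neg fun e : (i : ℕ) = k => h (e ▸ i.2)]; rfl

theorem co_bv {n k : ℕ} (h : k < n) (v : ℕ) : co n k (bv n v) = bt v k := by
  unfold co; rw [dif_pos h]; rfl

theorem lin_shift {n r : ℕ} (hr : Sm n r) (k : ℕ) : lin n (r <<< (n * k)) = (co n k).smulRight (bv n r) :=
  x_ext fun i => by
    rw [lin_single, bv_row_shift hr, LinearMap.smulRight_apply, co_single]
    split_ifs
    · rw [one_smul]
    · rw [zero_smul]

/-- the entry `e_i ↦ e_j` -/
noncomputable def ent (n : ℕ) (p : ℕ × ℕ) : End F2 (X n) := (co n p.1).smulRight (bv n (2 ^ p.2))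

/-- the operator `1 + N` -/
noncomputable def opL (n : ℕ) (L : List (ℕ × ℕ)) : End F2 (X n) := 1 + (L.map (ent n)).sum

/-- the family of operators -/
noncomputable def ops (n : ℕ) (G : List (List (ℕ × ℕ))) : ℕ → End F2 (X n) :=
  fun j => Option.rec 0 (opL n) G[j]?

/-- the entries are in range -/
def wfL (n : ℕ) (L : List (ℕ × ℕ)) : Bool := L.all fun p => Nat.blt p.1 n && Nat.blt p.2 n

/-- the entries are in range -/
def wfG (n : ℕ) (G : List (List (ℕ × ℕ))) : Bool := G.all (wfL n)

theorem wfL_cons {n : ℕ} {p : ℕ × ℕ} {L : List (ℕ × ℕ)} (h : wfL n (p :: L) = true) :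
    p.1 < n ∧ p.2 < n ∧ wfL n L = true := by
  rw [wfL, List.all_cons, Bool.and_eq_true, Bool.and_eq_true, Nat.blt_eq, Nat.blt_eq] at h
  exact ⟨h.1.1, h.1.2, h.2⟩

theorem wfG_get {n : ℕ} {G : List (List (ℕ × ℕ))} (h : wfG n G = true) {j : ℕ} {L : List (ℕ × ℕ)} (e : G[j]? = some L) :
    wfL n L = true := List.all_eq_true.1 h L (List.mem_of_getElem? e)

theorem lin_mul_ent {n : ℕ} (P : ℕ) {p : ℕ × ℕ} (h : p.2 < n) :
    lin n P * ent n p = lin n (row n P p.2 <<< (n * p.1)) := by
  rw [lin_shift (sm_row n P p.2)]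
  refine LinearMap.ext fun v => ?_
  rw [End.mul_apply, ent, LinearMap.smulRight_apply, LinearMap.smulRight_apply, map_smul,
    bv_two_pow (⟨p.2, h⟩ : Fin n), lin_single]

/-- a copy of a number whose low bits depend on all bits (this is good for the hash tables of the kernel) -/
def slt (P : ℕ) : ℕ := Nat.xor (Nat.shiftLeft P 64) (Nat.mod P 2305843009213693951)

theorem slt_shift (P k : ℕ) : slt P >>> (64 + k) = P >>> k := by
  have h : slt P = (P <<< 64) ^^^ (P % 2305843009213693951) := rfl
  have h1 : P % 2305843009213693951 < 2 ^ (64 + k) :=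
    lt_of_lt_of_le (Nat.mod_lt _ (by norm_num)) (le_trans (by norm_num) (Nat.pow_le_pow_right two_pos (Nat.le_add_right 64 k)))
  rw [h, Nat.shiftRight_xor_distrib, Nat.shiftRight_eq_zero _ _ h1, Nat.xor_zero, Nat.shiftRight_add, Nat.shiftLeft_shiftRight]

/-- the table of the product with `1 + N` -/
noncomputable def mulR (n P : ℕ) (L : List (ℕ × ℕ)) : ℕ :=
  force (slt P) fun Q => Nat.xor P (List.rec (motive := fun _ => ℕ) 0
    (fun p _ ih => Nat.xor (Nat.shiftLeft (Nat.land (Nat.shiftRight Q (Nat.add 64 (Nat.mul n p.2))) (Nat.sub (Nat.pow 2 n) 1))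
      (Nat.mul n p.1)) ih) L)

theorem lin_mulR {n : ℕ} (P : ℕ) {L : List (ℕ × ℕ)} (h : wfL n L = true) : lin n (mulR n P L) = lin n P * opL n L := by
  have key : ∀ (L : List (ℕ × ℕ)), wfL n L = true → lin n (List.rec (motive := fun _ => ℕ) 0
      (fun p _ ih => Nat.xor (Nat.shiftLeft (Nat.land (Nat.shiftRight (slt P) (Nat.add 64 (Nat.mul n p.2)))
        (Nat.sub (Nat.pow 2 n) 1)) (Nat.mul n p.1)) ih) L) = lin n P * (L.map (ent n)).sum := by
    intro L
    induction L with
    | nil => intro _; rw [List.map_nil, List.sum_nil, mul_zero]; exact lin_zero n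
    | cons p L ih =>
      intro h
      obtain ⟨-, h2, h3⟩ := wfL_cons h
      have e : row n P p.2 = Nat.land (Nat.shiftRight (slt P) (Nat.add 64 (Nat.mul n p.2))) (Nat.sub (Nat.pow 2 n) 1) :=
        congrArg (Nat.land · _) (slt_shift P _).symm
      rw [List.map_cons, List.sum_cons, mul_add, lin_mul_ent P h2, ← ih h3, ← lin_xor, e]
      rfl
  rw [opL, mul_add, mul_one, ← key L h, ← lin_xor, mulR, force_eq]
  rfl

/-- the table of the product with a letter -/
noncomputable def mulJ (n : ℕ) (G : List (List (ℕ × ℕ))) (P j : ℕ) : ℕ := Option.rec 0 (mulR n P) G[j]?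

theorem lin_mulJ {n : ℕ} {G : List (List (ℕ × ℕ))} (h : wfG n G = true) (P j : ℕ) :
    lin n (mulJ n G P j) = lin n P * ops n G j := by
  unfold mulJ ops
  cases e : G[j]? with
  | none => exact (lin_zero n).trans (mul_zero _).symm
  | some L => exact lin_mulR P (wfG_get h e)

/-- the table of the product with a word -/
noncomputable def mulW (n : ℕ) (G : List (List (ℕ × ℕ))) (w : List ℕ) : ℕ → ℕ :=
  List.rec (motive := fun _ => ℕ → ℕ) (fun P => P) (fun j _ ih P => force (mulJ n G P j) ih) w

theorem lin_mulW {n : ℕ} {G : List (List (ℕ × ℕ))} (h : wfG n G = true) (w : List ℕ) (P : ℕ) :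
    lin n (mulW n G w P) = lin n P * wd (ops n G) w := by
  induction w generalizing P with
  | nil => exact (mul_one _).symm
  | cons j w ih =>
    rw [wd_cons, ← mul_assoc, ← lin_mulJ h, ← ih]
    exact congrArg _ (force_eq _ _)

/-- the table of the identity on the first coordinates -/
noncomputable def idK (n k : ℕ) : ℕ :=
  Nat.rec (motive := fun _ => ℕ → ℕ) (fun acc => acc)
    (fun i ih acc => force (Nat.xor acc (Nat.shiftLeft (Nat.pow 2 i) (Nat.mul n i))) ih) k 0

theorem lin_idK (n : ℕ) : lin n (idK n n) = 1 := by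
  have key : ∀ k, k ≤ n → ∀ acc (i : Fin n), bv n (row n (Nat.rec (motive := fun _ => ℕ → ℕ) (fun acc => acc)
      (fun i ih acc => force (Nat.xor acc (Nat.shiftLeft (Nat.pow 2 i) (Nat.mul n i))) ih) k acc) i) =
        bv n (row n acc i) + if (i : ℕ) < k then Pi.single i 1 else 0 := by
    intro k
    induction k with
    | zero => intro _ acc i; rw [if_neg (Nat.not_lt_zero _), add_zero]; rfl
    | succ k ih =>
      intro hk acc i
      have e := ih (by omega) (acc ^^^ (2 ^ k <<< (n * k))) i
      rw [bv_row_xor, bv_row_shift (sm_two_pow (by omega : k < n)), add_assoc] at e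
      refine Eq.trans (congrArg (fun t => bv n (row n t i)) (force_eq _ _)) (e.trans (congrArg _ ?_))
      rcases lt_trichotomy (i : ℕ) k with h | h | h
      · rw [if_neg h.ne, if_pos h, if_pos (by omega), zero_add]
      · rw [if_pos h, if_neg (by omega), if_pos (by omega), add_zero, ← h, bv_two_pow]
      · rw [if_neg h.ne', if_neg (by omega), if_neg (by omega), add_zero]
  refine x_ext fun i => ?_
  rw [lin_single, idK, key n le_rfl, bv_row_zero, zero_add, if_pos i.2]; rfl

/-- the table of a word -/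
noncomputable def evW (n : ℕ) (G : List (List (ℕ × ℕ))) (w : List ℕ) : ℕ := force (idK n n) (mulW n G w)

theorem lin_evW {n : ℕ} {G : List (List (ℕ × ℕ))} (h : wfG n G = true) (w : List ℕ) :
    lin n (evW n G w) = wd (ops n G) w := by
  rw [evW, force_eq, lin_mulW h, lin_idK, one_mul]

/-- two words have the same table -/
noncomputable def okT (n : ℕ) (G : List (List (ℕ × ℕ))) (w w' : List ℕ) : Bool := Nat.beq (evW n G w) (evW n G w')

theorem okT_sound {n : ℕ} {G : List (List (ℕ × ℕ))} (h : wfG n G = true) {w w' : List ℕ} (e : okT n G w w' = true) :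
    wd (ops n G) w = wd (ops n G) w' := by
  rw [← lin_evW h, ← lin_evW h, Nat.eq_of_beq_eq_true e]

theorem ops_out (n : ℕ) (G : List (List (ℕ × ℕ))) {j : ℕ} (hj : G.length ≤ j) : ops n G j = 0 := by
  rw [ops, List.getElem?_eq_none hj]

theorem good_okT {n : ℕ} {G : List (List (ℕ × ℕ))} (h : wfG n G = true) : Good (okT n G) G.length (ops n G) :=
  ⟨fun _ _ e => okT_sound h e, fun _ hj => ops_out n G hj⟩

theorem tb_slt (v i : ℕ) : tb (slt v) (64 + i) = v.testBit i := by
  rw [← tb_eq]
  exact congrArg (fun t => Nat.beq (Nat.land t 1) 1) (slt_shift v i)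

/-- the image of a vector under `1 + N` -/
noncomputable def actL (L : List (ℕ × ℕ)) (v : ℕ) : ℕ :=
  force (slt v) fun u => List.rec (motive := fun _ => ℕ) v
    (fun p _ ih => Bool.rec ih (Nat.xor (Nat.pow 2 p.2) ih) (tb u (Nat.add 64 p.1))) L

theorem actL_spec {n : ℕ} {L : List (ℕ × ℕ)} (h : wfL n L = true) {v : ℕ} (hv : Sm n v) :
    Sm n (actL L v) ∧ bv n (actL L v) = opL n L (bv n v) := by
  have key : ∀ (L : List (ℕ × ℕ)), wfL n L = true → ∀ r, List.rec (motive := fun _ => ℕ) v
      (fun p _ ih => Bool.rec ih (Nat.xor (Nat.pow 2 p.2) ih) (tb (slt v) (Nat.add 64 p.1))) L = r →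
        Sm n r ∧ bv n r = bv n v + (L.map (ent n)).sum (bv n v) := by
    intro L
    induction L with
    | nil =>
      rintro _ r rfl
      exact ⟨hv, (add_zero _).symm⟩
    | cons p L ih =>
      intro h r hr
      obtain ⟨h1, h2, h3⟩ := wfL_cons h
      obtain ⟨h4, h5⟩ := ih h3 _ rfl
      rw [List.map_cons, List.sum_cons, LinearMap.add_apply, ent, LinearMap.smulRight_apply, co_bv h1]
      have hr' : Bool.rec (motive := fun _ => ℕ) _ _ (tb (slt v) (64 + p.1)) = r := hr
      rw [tb_slt] at hr'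
      cases e : v.testBit p.1 with
      | false =>
        rw [e] at hr'
        rw [bt_false e, zero_smul, zero_add, ← hr']
        exact ⟨h4, h5⟩
      | true =>
        rw [e] at hr'
        rw [bt_true e, one_smul, add_left_comm, ← h5, ← bv_xor, ← hr']
        exact ⟨(sm_two_pow h2).xor h4, rfl⟩
  rw [actL, force_eq]
  exact key L h _ rfl

/-- the image of a vector under a letter -/
noncomputable def actJ (G : List (List (ℕ × ℕ))) (j v : ℕ) : ℕ := Option.rec 0 (fun L => actL L v) G[j]?

theorem actJ_spec {n : ℕ} {G : List (List (ℕ × ℕ))} (h : wfG n G = true) (j : ℕ) {v : ℕ} (hv : Sm n v) :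
    Sm n (actJ G j v) ∧ bv n (actJ G j v) = ops n G j (bv n v) := by
  unfold actJ ops
  cases e : G[j]? with
  | none => exact ⟨sm_zero n, bv_zero n⟩
  | some L => exact actL_spec (wfG_get h e) hv

/-- the transposed family -/
def trG (G : List (List (ℕ × ℕ))) : List (List (ℕ × ℕ)) := G.map fun L => L.map Prod.swap

theorem wfG_tr {n : ℕ} {G : List (List (ℕ × ℕ))} (h : wfG n G = true) : wfG n (trG G) = true := by
  rw [wfG, List.all_eq_true]
  intro L hL
  obtain ⟨L', hL', rfl⟩ := List.mem_map.1 hL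
  rw [wfL, List.all_eq_true]
  intro p hp
  obtain ⟨p', hp', rfl⟩ := List.mem_map.1 hp
  have := List.all_eq_true.1 (List.all_eq_true.1 h L' hL') p' hp'
  rw [Bool.and_comm] at this
  exact this

theorem co_eq_dot {n k : ℕ} (v : X n) : co n k v = bv n (2 ^ k) ⬝ᵥ v := by
  unfold co
  by_cases h : k < n
  · rw [dif_pos h, bv_two_pow (⟨k, h⟩ : Fin n), single_one_dotProduct]; rfl
  · have : bv n (2 ^ k) = 0 := funext fun i => by
      rw [bv, bt_two_pow, if_neg fun e : k = i => h (e ▸ i.2)]; rfl
    rw [dif_neg h, this, zero_dotProduct]; rfl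

theorem ops_tr (n : ℕ) (G : List (List (ℕ × ℕ))) (j : ℕ) (c v : X n) : ops n (trG G) j c ⬝ᵥ v = c ⬝ᵥ ops n G j v := by
  unfold ops trG
  rw [List.getElem?_map]
  cases G[j]? with
  | none => exact (zero_dotProduct v).trans (dotProduct_zero c).symm
  | some L =>
    show opL n (L.map Prod.swap) c ⬝ᵥ v = c ⬝ᵥ opL n L v
    rw [opL, opL, LinearMap.add_apply, LinearMap.add_apply, add_dotProduct, dotProduct_add]
    refine congrArg _ ?_
    induction L with
    | nil => exact (zero_dotProduct v).trans (dotProduct_zero c).symm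
    | cons p L ih =>
      rw [List.map_cons, List.map_cons, List.map_cons, List.sum_cons, List.sum_cons, LinearMap.add_apply,
        LinearMap.add_apply, add_dotProduct, dotProduct_add, ih, ent, ent, LinearMap.smulRight_apply,
        LinearMap.smulRight_apply, smul_dotProduct, dotProduct_smul, co_eq_dot, co_eq_dot, Prod.fst_swap, Prod.snd_swap,
        smul_eq_mul, smul_eq_mul, mul_comm, dotProduct_comm c (bv n _)]

theorem wd_tr (n : ℕ) (G : List (List (ℕ × ℕ))) (w : List ℕ) (c v : X n) :
    wd (ops n (trG G)) w c ⬝ᵥ v = c ⬝ᵥ wd (ops n G) w.reverse v := by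
  induction w generalizing v with
  | nil => rfl
  | cons j w ih => rw [wd_cons_apply, ops_tr, ih, List.reverse_cons, wd_append_apply, wd_single]

end Cfsg.Agent.E82.Mach
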