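import Cfsg.Agent.E82.Mach.C3Data

/-!
# The pressure machine: the checks for `Sp₆(2)` (helper38)
-/

set_option autoImplicit false
set_option maxRecDepth 100000

namespace Cfsg.Agent.E82.Mach.C3

theorem ex_ok : exOk (okG 6 G1) ty ex = true := by decide +kernel

theorem gen_ok : genOk (okG 6 G1) 12 C ws = true := by decide +kernel

theorem chk_ok : C.chk (okG 6 G1) = true := by decide +kernel

theorem ent0 : Ent ty C 248 0 (rows.getD 0 []) (zs.getD 0 0) :=
  ent_small (exOk_syn ex_ok) 248 (n := 1) (G := G0) (by decide +kernel) (p1 := p0) (p2 := q0) (by decide +kernel)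
    (by decide +kernel) (by decide +kernel) (by decide +kernel)

theorem ent1 : Ent ty C 248 1 (rows.getD 1 []) (zs.getD 1 0) :=
  ent_small (exOk_syn ex_ok) 248 (n := 6) (G := G1) (by decide +kernel) (p1 := p1) (p2 := q1) (by decide +kernel)
    (by decide +kernel) (by decide +kernel) (by decide +kernel)

theorem ent2 : Ent ty C 248 2 (rows.getD 2 []) (zs.getD 2 0) :=
  ent_small (exOk_syn ex_ok) 248 (n := 14) (G := G2) (by decide +kernel) (p1 := p2) (p2 := q2) (by decide +kernel)
    (by decide +kernel) (by decide +kernel) (by decide +kernel)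

theorem ent3 : Ent ty C 248 3 (rows.getD 3 []) (zs.getD 3 0) :=
  ent_small (exOk_syn ex_ok) 248 (n := 64) (G := G3) (by decide +kernel) (p1 := p3) (p2 := q3) (by decide +kernel)
    (by decide +kernel) (by decide +kernel) (by decide +kernel)

theorem ent4 : Ent ty C 248 4 (rows.getD 4 []) (zs.getD 4 0) :=
  ent_small (exOk_syn ex_ok) 248 (n := 8) (G := G4) (by decide +kernel) (p1 := p4) (p2 := q4) (by decide +kernel)
    (by decide +kernel) (by decide +kernel) (by decide +kernel)

theorem ent5 : Ent ty C 248 5 (rows.getD 5 []) (zs.getD 5 0) :=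
  ent_small (exOk_syn ex_ok) 248 (n := 48) (G := G5) (by decide +kernel) (p1 := p5) (p2 := q5) (by decide +kernel)
    (by decide +kernel) (by decide +kernel) (by decide +kernel)

theorem ent6 : Ent ty C 248 6 (rows.getD 6 []) (zs.getD 6 0) :=
  ent_small (exOk_syn ex_ok) 248 (n := 112) (G := G6) (by decide +kernel) (p1 := p6) (p2 := q6) (by decide +kernel)
    (by decide +kernel) (by decide +kernel) (by decide +kernel)

theorem ent7 : Ent ty C 248 7 (rows.getD 7 []) (zs.getD 7 0) :=
  ent_big (exOk_syn ex_ok) C (s := 14) (1, G1) [(2, G2), (4, G4)] (by decide +kernel) (by decide) (by decide) (pc := pc) (pv := pv)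
    (by decide +kernel) _ _

theorem tab_ok : Tab (okG 6 G1) 12 248 C 8 (fun J k => (rows.getD J []).getD (min k C.cl.length) 0) fun J => zs.getD J 0 := by
  refine tab_of ex_ok fun J hJ => ?_
  have h : J < 8 := hJ
  interval_cases J
  exacts [ent0, ent1, ent2, ent3, ent4, ent5, ent6, ent7]

end Cfsg.Agent.E82.Mach.C3
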