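import Cfsg.Agent.E82.Mach.C4Big

/-!
# The pressure machine: the large modules of `Sp₈(2)` are simple (helper38)
-/

set_option autoImplicit false
set_option maxRecDepth 100000

namespace Cfsg.Agent.E82.Mach.C4

theorem pm3 : pmOk ty 3 160 G3 = true := by decide +kernel

theorem sp3 : spinOk 160 G3 p3 = true := by decide +kernel

theorem ds3 : spinOk 160 (trG G3) q3 = true := by decide +kernel

theorem pm5 : pmOk ty 5 246 G5 = true := by decide +kernel

theorem sp5 : spinOk 246 G5 p5 = true := by decide +kernel

theorem ds5 : spinOk 246 (trG G5) q5 = true := by decide +kernel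

theorem pm9 : pmOk ty 9 128 G9 = true := by decide +kernel

theorem sp9 : spinOk 128 G9 p9 = true := by decide +kernel

theorem ds9 : spinOk 128 (trG G9) q9 = true := by decide +kernel

end Cfsg.Agent.E82.Mach.C4
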