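import Cfsg.Agent.E82.Mach.C4Cls
import Cfsg.Agent.E82.Mach.C4BigChk
import Cfsg.Agent.E82.Mach.C4Huge

/-!
# The pressure machine: the table for `Sp₈(2)` (helper38)
-/

set_option autoImplicit false
set_option maxRecDepth 100000

namespace Cfsg.Agent.E82.Mach.C4

theorem ent3 : Ent ty C 248 3 (rows.getD 3 []) (zs.getD 3 0) :=
  ent_small syn 248 pm3 sp3 ds3 (by decide +kernel) (by decide +kernel)

theorem ent5 : Ent ty C 248 5 (rows.getD 5 []) (zs.getD 5 0) :=
  ent_small syn 248 pm5 sp5 ds5 (by decide +kernel) (by decide +kernel)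

theorem ent9 : Ent ty C 248 9 (rows.getD 9 []) (zs.getD 9 0) :=
  ent_small syn 248 pm9 sp9 ds9 (by decide +kernel) (by decide +kernel)

theorem ent_all (J : ℕ) (hJ : J < 2 ^ ty.r) : Ent ty C 248 J (rows.getD J []) (zs.getD J 0) := by
  have h : J < 16 := hJ
  interval_cases J
  exacts [ent0, ent1, ent2, ent3, ent4, ent5, ent6 _ _ _, ent7 _ _ _, ent8, ent9, ent10 _ _ _, ent11 _ _ _, ent12 _ _ _, ent13 _ _ _, ent14 _ _ _, ent15 _ _ _]

end Cfsg.Agent.E82.Mach.C4
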