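import Cfsg.Agent.E82.Mach.Main
import Cfsg.Agent.E82.Cls
import Cfsg.Agent.E82.Par

/-!
# The pressure machine on the adjoint module of `E₈(2)` (helper38)

* `opE f σ k` : the letters on `L2`; `cf_wd` : fixed spaces; `mach` : multiplicities and the pressure inequality;
* `soc` : every non-zero invariant subspace contains a simple one, which has a weight.
-/

set_option autoImplicit false
set_option maxRecDepth 100000

namespace Cfsg.Agent.E82.Mach

open Module
open Cfsg.Agent.H939.L64 (E2 L2)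
open Cfsg.Agent.E8A (act)

variable {S : Type} [Group S]

/-- the representation on the adjoint module -/
noncomputable def tauE (f : S →* E2) : S →* End F2 L2 := (Cfsg.Agent.E8A.LK (ZMod 2)).comp f

theorem tauE_apply (f : S →* E2) (s : S) (v : L2) : tauE f s v = act (f s) v := rfl

/-- the letters on the adjoint module -/
noncomputable def opE (f : S →* E2) (σ : ℕ → S) (k : ℕ) : ℕ → End F2 L2 := opR (tauE f) σ k

theorem opE_apply (f : S →* E2) (σ : ℕ → S) {k j : ℕ} (h : j < k) (v : L2) : opE f σ k j v = act (f (σ j)) v := by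
  rw [opE, opR, if_pos h]; rfl

theorem wd_opE (f : S →* E2) (σ : ℕ → S) {k : ℕ} {w : List ℕ} (hw : ∀ j ∈ w, j < k) (v : L2) :
    wd (opE f σ k) w v = act (f (pw σ w)) v := by
  rw [opE, wd_opR _ _ hw]; rfl

theorem cf_wd (f : S →* E2) (σ : ℕ → S) {k : ℕ} {w : List ℕ} (hw : ∀ j ∈ w, j < k) :
    finrank F2 (Fx (wd (opE f σ k) w)) = cf (f (pw σ w)) := by
  rw [← fd_two (f (pw σ w)) (wd (opE f σ k) w) (wd_opE f σ hw), Fx, LinearMap.eqLocus_eq_ker_sub]

theorem finrank_L2 : finrank F2 L2 = 248 := by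
  have h := cf_wd (1 : Unit →* E2) (fun _ => ()) (k := 0) (w := []) fun _ h => absurd h List.not_mem_nil
  rw [wd_nil, Fx_one, finrank_top, MonoidHom.one_apply, fd_one] at h
  exact h

theorem fixd_of_letters {f : S →* E2} {σ : ℕ → S} {k : ℕ} (hgen : ∀ K : Subgroup S, (∀ j < k, σ j ∈ K) → K = ⊤) {v : L2}
    (hv : v ≠ 0) (h : ∀ j < k, opE f σ k j v = v) : Fixd f := by
  refine fixd_of_L2 hv fun s => ?_
  let K : Subgroup S :=
    { carrier := {s | tauE f s v = v}
      one_mem' := by show tauE f 1 v = v; rw [map_one]; rfl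
      mul_mem' := fun {a b} ha hb => by
        show tauE f (a * b) v = v
        rw [map_mul, End.mul_apply, show tauE f b v = v from hb, show tauE f a v = v from ha]
      inv_mem' := fun {a} ha => by
        show tauE f a⁻¹ v = v
        conv_lhs => rw [← show tauE f a v = v from ha]
        rw [← End.mul_apply, ← map_mul, inv_mul_cancel, map_one]; rfl }
  have h1 : K = ⊤ := hgen K fun j hj => (opE_apply f σ hj v).symm.trans (h j hj)
  exact (h1 ▸ Subgroup.mem_top s : s ∈ K)

/-- the words are in range -/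
def Cls.inR (C : Cls) (k : ℕ) : Bool := (C.cl.all fun p => Mach.inR k p.1) && Mach.inR k C.g

theorem Cls.cl_lt {C : Cls} {k : ℕ} (h : C.inR k = true) (t : ℕ) : ∀ j ∈ (C.cl.getD t ([], 1)).1, j < k := by
  rw [Cls.inR, Bool.and_eq_true] at h
  by_cases ht : t < C.cl.length
  · rw [List.getD_eq_getElem _ _ ht]
    exact inR_lt (List.all_eq_true.1 h.1 _ (List.getElem_mem ht))
  · rw [List.getD_eq_default _ _ (not_lt.1 ht)]
    exact fun _ h => absurd h List.not_mem_nil

/-- **the machine** -/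
theorem mach {n : ℕ} {G : List (List (ℕ × ℕ))} {σ : ℕ → S} {ρ : S →* End F2 (X n)} (h : Nat0 n G σ ρ)
    (hgen : ∀ K : Subgroup S, (∀ j < G.length, σ j ∈ K) → K = ⊤) {C : Cls} (hC : C.chk (okG n G) = true)
    (hR : C.inR G.length = true) {ws : List (List Bool)} (hg : genOk (okG n G) G.length C ws = true) {r : ℕ}
    {F : ℕ → ℕ → ℕ} {Z : ℕ → ℕ} (hT : Tab (okG n G) G.length 248 C r F Z) (f : S →* E2) :
    ∃ m : ℕ → ℕ, (∀ k, cf (f (pw σ (C.cl.getD k ([], 1)).1)) = ∑ J ∈ Finset.range r, m J * F J k) ∧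
      (Fixd f ∨ cf (f (pw σ C.g)) ≤ ∑ J ∈ Finset.range r, m J * Z J) := by
  have ha : Good (okG n G) G.length (opE f σ G.length) := h.good (tauE f)
  obtain ⟨m, h1, h2⟩ := sol hC hT 248 L2 _ finrank_L2 le_rfl ha
  refine ⟨m, fun k => (cf_wd f σ (C.cl_lt hR k)).symm.trans (h1 k), ?_⟩
  rcases press hg ha with ⟨v, hv, h3⟩ | h3
  · exact Or.inl (fixd_of_letters hgen hv h3)
  · rw [Cls.inR, Bool.and_eq_true] at hR
    rw [cf_wd f σ (inR_lt hR.2)] at h3
    exact Or.inr (h3.trans h2)

end Cfsg.Agent.E82.Mach
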