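import Cfsg.Agent.E82.Mach.Bits

/-!
# The pressure machine: fixed vectors and common eigenvectors of idempotents (helper38)

* `chain` : a nonzero vector fixed by a chain of involutions, `dchain` : the same for functionals;
* `zeroOk` : a sum of words kills the fixed vectors;
* `eigen` : a common eigenvector of operators that satisfy rewriting rules.
-/

set_option autoImplicit false

namespace Cfsg.Agent.E82.Mach

open Module

variable {V : Type*} [AddCommGroup V] [Module F2 V]

/-- the relations accepted by `ok` hold -/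
def Snd (ok : List ℕ → List ℕ → Bool) (a : ℕ → End F2 V) : Prop := ∀ w w', ok w w' = true → wd a w = wd a w'

/-- the vectors fixed by a list of words -/
def FixL (a : ℕ → End F2 V) (ys : List (List ℕ)) : Submodule F2 V where
  carrier := {v | ∀ y ∈ ys, wd a y v = v}
  zero_mem' := fun _ _ => map_zero _
  add_mem' := fun {x y} hx hy w hw => by rw [map_add, hx w hw, hy w hw]
  smul_mem' := fun c x hx w hw => by rw [map_smul, hx w hw]

theorem mem_FixL {a : ℕ → End F2 V} {ys : List (List ℕ)} {v : V} : v ∈ FixL a ys ↔ ∀ y ∈ ys, wd a y v = v := Iff.rfl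

/-- a product of words of the list -/
def flat (ys : List (List ℕ)) (c : List ℕ) : List ℕ := c.flatMap fun i => ys.getD i []

theorem wd_flat {a : ℕ → End F2 V} {ys : List (List ℕ)} {v : V} (hv : v ∈ FixL a ys) (c : List ℕ) :
    wd a (flat ys c) v = v := by
  induction c with
  | nil => rfl
  | cons i c ih =>
    rw [flat, List.flatMap_cons, wd_append_apply]
    rw [flat] at ih
    rw [ih]
    by_cases hi : i < ys.length
    · rw [List.getD_eq_getElem _ _ hi]; exact hv _ (List.getElem_mem hi)
    · rw [List.getD_eq_default _ _ (not_lt.1 hi)]; rfl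

/-- every word is an involution modulo, and normalises, the words after it -/
noncomputable def chainOk (ok : List ℕ → List ℕ → Bool) (l : List (List ℕ × List ℕ × List (List ℕ))) : Bool :=
  List.rec (motive := fun _ => Bool) true
    (fun p l ih => ih && ok (p.1 ++ p.1) (flat (l.map Prod.fst) p.2.1) &&
      (List.range l.length).all fun t =>
        ok ((l.map Prod.fst).getD t [] ++ p.1) (p.1 ++ flat (l.map Prod.fst) (p.2.2.getD t []))) l

theorem chain {ok : List ℕ → List ℕ → Bool} {a : ℕ → End F2 V} (ha : Snd ok a) (h0 : ∃ v : V, v ≠ 0)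
    {l : List (List ℕ × List ℕ × List (List ℕ))} (h : chainOk ok l = true) : ∃ v ∈ FixL a (l.map Prod.fst), v ≠ 0 := by
  induction l with
  | nil =>
    obtain ⟨v, hv⟩ := h0
    exact ⟨v, fun _ hy => absurd hy List.not_mem_nil, hv⟩
  | cons p l ih =>
    have h' : (chainOk ok l && ok (p.1 ++ p.1) (flat (l.map Prod.fst) p.2.1) &&
      (List.range l.length).all fun t =>
        ok ((l.map Prod.fst).getD t [] ++ p.1) (p.1 ++ flat (l.map Prod.fst) (p.2.2.getD t []))) = true := h
    rw [Bool.and_eq_true, Bool.and_eq_true, List.all_eq_true] at h'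
    obtain ⟨⟨h1, h2⟩, h3⟩ := h'
    obtain ⟨v, hv, hv0⟩ := ih h1
    by_cases e : wd a p.1 v = v
    · refine ⟨v, fun y hy => ?_, hv0⟩
      rcases List.mem_cons.1 hy with rfl | hy
      · exact e
      · exact hv y hy
    · refine ⟨wd a p.1 v + v, fun y hy => ?_, fun e' => e (eq_of_add_eq_zero' e')⟩
      rcases List.mem_cons.1 hy with rfl | hy
      · rw [map_add, ← wd_append_apply, ha _ _ h2, wd_flat hv, add_comm]
      · obtain ⟨t, ht, rfl⟩ := List.getElem_of_mem hy
        have e1 := ha _ _ (h3 t (List.mem_range.2 (by rwa [List.length_map] at ht)))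
        rw [List.getD_eq_getElem _ _ ht] at e1
        rw [map_add, ← wd_append_apply, e1, wd_append_apply, wd_flat hv, hv _ hy]

/-- the transposed operators -/
def dop (a : ℕ → End F2 V) : ℕ → End F2 (Dual F2 V) := fun j => (a j).dualMap

theorem wd_dop (a : ℕ → End F2 V) (w : List ℕ) (φ : Dual F2 V) (v : V) : wd (dop a) w φ v = φ (wd a w.reverse v) := by
  induction w generalizing v with
  | nil => rfl
  | cons j w ih =>
    rw [wd_cons_apply, List.reverse_cons, wd_append_apply, wd_single, ← ih]; rfl

theorem Snd.dop {ok : List ℕ → List ℕ → Bool} {a : ℕ → End F2 V} (ha : Snd ok a) :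
    Snd (fun w w' => ok w.reverse w'.reverse) (dop a) := fun w w' h =>
  LinearMap.ext fun φ => LinearMap.ext fun v => by rw [wd_dop, wd_dop, ha _ _ h]

theorem dchain {ok : List ℕ → List ℕ → Bool} {a : ℕ → End F2 V} (ha : Snd ok a) (h0 : ∃ v : V, v ≠ 0)
    {l : List (List ℕ × List ℕ × List (List ℕ))} (h : chainOk (fun w w' => ok w.reverse w'.reverse) l = true) :
    ∃ φ : Dual F2 V, φ ≠ 0 ∧ ∀ y ∈ l.map Prod.fst, ∀ v, φ (wd a y.reverse v) = φ v := by
  have h1 : ∃ φ : Dual F2 V, φ ≠ 0 := by
    obtain ⟨v, hv⟩ := h0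
    by_contra hc
    refine hv ((Module.forall_dual_apply_eq_zero_iff F2 v).1 fun φ => ?_)
    by_contra hφ
    exact hc ⟨φ, fun e => hφ (by rw [e]; rfl)⟩
  obtain ⟨φ, h2, h3⟩ := chain ha.dop h1 h
  exact ⟨φ, h3, fun y hy v => by rw [← wd_dop, h2 y hy]⟩

/-- the sum of the values of a list of words -/
def sumW (a : ℕ → End F2 V) (L : List (List ℕ)) (v : V) : V := (L.map fun w => wd a w v).sum

theorem sumW_nil (a : ℕ → End F2 V) (v : V) : sumW a [] v = 0 := rfl

theorem sumW_cons (a : ℕ → End F2 V) (w : List ℕ) (L : List (List ℕ)) (v : V) :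
    sumW a (w :: L) v = wd a w v + sumW a L v := by rw [sumW, List.map_cons, List.sum_cons]; rfl

theorem sumW_append (a : ℕ → End F2 V) (L L' : List (List ℕ)) (v : V) : sumW a (L ++ L') v = sumW a L v + sumW a L' v := by
  rw [sumW, List.map_append, List.sum_append]; rfl

theorem sumW_map (a : ℕ → End F2 V) (y : List ℕ) (L : List (List ℕ)) (v : V) :
    sumW a (L.map (y ++ ·)) v = wd a y (sumW a L v) := by
  induction L with
  | nil => exact (map_zero _).symm
  | cons w L ih => rw [List.map_cons, sumW_cons, sumW_cons, map_add, ih, wd_append_apply]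

/-- the words cancel in pairs modulo the words of `ys` on the right -/
def zeroOk (ok : List ℕ → List ℕ → Bool) (ys L : List (List ℕ)) (c : List (List ℕ × List ℕ × List ℕ)) : Bool :=
  (c.flatMap fun p => [p.1, p.2.1]).isPerm L && c.all fun p => ok p.1 (p.2.1 ++ flat ys p.2.2)

theorem zero_sound {ok : List ℕ → List ℕ → Bool} {a : ℕ → End F2 V} (ha : Snd ok a) {ys L : List (List ℕ)}
    {c : List (List ℕ × List ℕ × List ℕ)} (h : zeroOk ok ys L c = true) {v : V} (hv : v ∈ FixL a ys) : sumW a L v = 0 := by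
  rw [zeroOk, Bool.and_eq_true, List.isPerm_iff, List.all_eq_true] at h
  rw [sumW, ← (h.1.map _).sum_eq]
  have h2 := h.2
  clear h
  induction c with
  | nil => rfl
  | cons p c ih =>
    rw [List.flatMap_cons, List.map_append, List.sum_append, ih fun q hq => h2 q (List.mem_cons_of_mem _ hq), add_zero]
    show wd a p.1 v + (wd a p.2.1 v + 0) = 0
    rw [ha _ _ (h2 p List.mem_cons_self), wd_append_apply, wd_flat hv, add_zero, add_self']

/-- evaluate a list first -/
noncomputable def forceL {α : Type} (l : List ℕ) : (List ℕ → α) → α :=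
  List.rec (motive := fun _ => (List ℕ → α) → α) (fun k => k []) (fun x _ ih k => force x fun y => ih fun l' => k (y :: l')) l

theorem forceL_eq {α : Type} (l : List ℕ) (k : List ℕ → α) : forceL l k = k l := by
  induction l generalizing k with
  | nil => rfl
  | cons x l ih => exact (force_eq x fun y => forceL l fun l' => k (y :: l')).trans (ih _)

/-- one rewriting step: position `d / 32`, rule `d % 32` -/
def mv (rules : List (List ℕ × List ℕ)) (w : List ℕ) (d : ℕ) : List ℕ :=
  cond ((rules.getD (d % 32) ([], [])).1.isPrefixOf (w.drop (d / 32)))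
    (w.take (d / 32) ++ ((rules.getD (d % 32) ([], [])).2 ++ (w.drop (d / 32)).drop (rules.getD (d % 32) ([], [])).1.length)) w

theorem wd_mem {T : ℕ → End F2 V} {Q : V → Prop} (hQ : ∀ i v, Q v → Q (T i v)) (w : List ℕ) {v : V} (hv : Q v) :
    Q (wd T w v) := by
  induction w with
  | nil => exact hv
  | cons j w ih => rw [wd_cons_apply]; exact hQ j _ ih

theorem wd_mv {T : ℕ → End F2 V} {Q : V → Prop} (hQ : ∀ i v, Q v → Q (T i v)) {rules : List (List ℕ × List ℕ)}
    (hr : ∀ p ∈ rules, ∀ v, Q v → wd T p.1 v = wd T p.2 v ∨ wd T p.1 v = 0) (w : List ℕ) (d : ℕ) {v : V} (hv : Q v) :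
    wd T w v = wd T (mv rules w d) v ∨ wd T w v = 0 := by
  have h1 : ∀ v, Q v → wd T (rules.getD (d % 32) ([], [])).1 v = wd T (rules.getD (d % 32) ([], [])).2 v ∨
      wd T (rules.getD (d % 32) ([], [])).1 v = 0 := by
    by_cases hi : d % 32 < rules.length
    · rw [List.getD_eq_getElem _ _ hi]; exact hr _ (List.getElem_mem hi)
    · rw [List.getD_eq_default _ _ (not_lt.1 hi)]; exact fun _ _ => Or.inl rfl
  unfold mv
  cases e : (rules.getD (d % 32) ([], [])).1.isPrefixOf (w.drop (d / 32)) with
  | false => exact Or.inl rfl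
  | true =>
    have e1 := List.prefix_iff_eq_append.1 (List.isPrefixOf_iff_prefix.1 e)
    have e2 : wd T w v = wd T (w.take (d / 32)) (wd T (rules.getD (d % 32) ([], [])).1
        (wd T ((w.drop (d / 32)).drop (rules.getD (d % 32) ([], [])).1.length) v)) := by
      rw [← wd_append_apply T (rules.getD _ _).1, e1, ← wd_append_apply, List.take_append_drop]
    rw [cond_true, wd_append_apply, wd_append_apply, e2]
    rcases h1 _ (wd_mem hQ ((w.drop (d / 32)).drop (rules.getD (d % 32) ([], [])).1.length) hv) with h | h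
    · exact Or.inl (congrArg _ h)
    · exact Or.inr ((congrArg _ h).trans (map_zero _))

/-- the rewriting steps are the digits of a number -/
noncomputable def mvs (rules : List (List ℕ × List ℕ)) (w' : List ℕ) (f : ℕ) : ℕ → List ℕ → Bool :=
  Nat.rec (motive := fun _ => ℕ → List ℕ → Bool) (fun _ _ => false)
    (fun _ ih x w => Nat.rec (motive := fun _ => Bool) (w == w')
      (fun _ _ => force (Nat.mod x 1024) fun d => force (Nat.div x 1024) fun x' => forceL (mv rules w d) (ih x')) x) f

theorem wd_mvs {T : ℕ → End F2 V} {Q : V → Prop} (hQ : ∀ i v, Q v → Q (T i v)) {rules : List (List ℕ × List ℕ)}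
    (hr : ∀ p ∈ rules, ∀ v, Q v → wd T p.1 v = wd T p.2 v ∨ wd T p.1 v = 0) {w' : List ℕ} {f x : ℕ} {w : List ℕ}
    (h : mvs rules w' f x w = true) {v : V} (hv : Q v) : wd T w v = wd T w' v ∨ wd T w v = 0 := by
  induction f generalizing x w with
  | zero => exact absurd h Bool.false_ne_true
  | succ f ih =>
    cases x with
    | zero => rw [beq_iff_eq.1 (show (w == w') = true from h)]; exact Or.inl rfl
    | succ x =>
      have h' : (force ((x + 1) % 1024) fun d => force ((x + 1) / 1024) fun x' => forceL (mv rules w d) (mvs rules w' f x')) =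
        true := h
      rw [force_eq, force_eq, forceL_eq] at h'
      rcases wd_mv hQ hr w ((x + 1) % 1024) hv with e | e
      · rw [e]; exact ih h'
      · exact Or.inr e

/-- the table of normal forms: the product of a letter with a normal form is the same or a later normal form -/
noncomputable def tabOk (r : ℕ) (rules : List (List ℕ × List ℕ)) (tab : List (List ℕ × List (ℕ × ℕ))) : Bool :=
  ((tab.getD 0 ([0], [])).1 == []) && (List.range tab.length).all fun k => (List.range r).all fun i =>
    force ((tab.getD k ([], [])).2.getD i (0, 0)).1 fun k' => Nat.ble k k' && Nat.blt k' tab.length &&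
      mvs rules (tab.getD k' ([], [])).1 200 ((tab.getD k ([], [])).2.getD i (0, 0)).2 (i :: (tab.getD k ([], [])).1)

theorem eigen {T : ℕ → End F2 V} {Q : V → Prop} (hQ : ∀ i v, Q v → Q (T i v)) {rules : List (List ℕ × List ℕ)}
    (hr : ∀ p ∈ rules, ∀ v, Q v → wd T p.1 v = wd T p.2 v ∨ wd T p.1 v = 0) {r : ℕ} {tab : List (List ℕ × List (ℕ × ℕ))}
    (h : tabOk r rules tab = true) {v : V} (hv : Q v) (h0 : v ≠ 0) :
    ∃ m, Q m ∧ m ≠ 0 ∧ ∀ i < r, T i m = 0 ∨ T i m = m := by
  classical
  rw [tabOk, Bool.and_eq_true, beq_iff_eq, List.all_eq_true] at h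
  obtain ⟨h1, h2⟩ := h
  have hl : 0 < tab.length := by
    by_contra hc
    rw [List.getD_eq_default _ _ (not_lt.1 hc)] at h1
    exact List.cons_ne_nil _ _ h1
  obtain ⟨K, hK, hm⟩ := Finset.exists_max_image ((Finset.range tab.length).filter fun k => wd T (tab.getD k ([], [])).1 v ≠ 0)
    id ⟨0, Finset.mem_filter.2 ⟨Finset.mem_range.2 hl, by
      rw [List.getD_eq_getElem _ _ hl] at h1 ⊢
      rw [h1]; exact h0⟩⟩
  obtain ⟨hK1, hK2⟩ := Finset.mem_filter.1 hK
  refine ⟨_, wd_mem hQ _ hv, hK2, fun i hi => ?_⟩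
  have h3 := List.all_eq_true.1 (h2 K (List.mem_range.2 (Finset.mem_range.1 hK1))) i (List.mem_range.2 hi)
  rw [force_eq, Bool.and_eq_true, Bool.and_eq_true, Nat.ble_eq, Nat.blt_eq] at h3
  have h4 := wd_mvs hQ hr h3.2 hv
  rw [wd_cons_apply] at h4
  rcases h4 with h4 | h4
  · rw [h4]
    by_cases e : wd T (tab.getD ((tab.getD K ([], [])).2.getD i (0, 0)).1 ([], [])).1 v = 0
    · exact Or.inl e
    · have h5 : ((tab.getD K ([], [])).2.getD i (0, 0)).1 ≤ K := hm _ (Finset.mem_filter.2 ⟨Finset.mem_range.2 h3.1.2, e⟩)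
      rw [le_antisymm h5 h3.1.1]
      exact Or.inr rfl
  · exact Or.inl h4

end Cfsg.Agent.E82.Mach
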