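import Cfsg.Agent.E82.Mach.Weight

/-!
# The pressure machine: the table of the simple families, the pressure inequality (helper38)
-/

set_option autoImplicit false

namespace Cfsg.Agent.E82.Mach

open Module

/-- the first basis vector has weight `J`, the first coordinate is invariant -/
noncomputable def pmOk (ty : Ty) (J n : ℕ) (G : List (List (ℕ × ℕ))) : Bool :=
  wfG n G && Nat.blt 0 n && Nat.beq G.length (ty.nb + ty.r) && (ty.rels.all fun p => okT n G p.1 p.2) &&
    ((List.range ty.r).all fun i => Nat.beq (actJ G (ty.nb + i) 1) 1 &&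
      cond (tb J i) (Nat.beq (actJ G (ty.nb + i) (actJ G i 1)) (Nat.xor 1 (actJ G i 1))) (Nat.beq (actJ G i 1) 1)) &&
    (List.range ty.nb).all fun j => Nat.beq (actJ (trG G) j 1) 1

theorem pm_sound {ty : Ty} {J n : ℕ} {G : List (List (ℕ × ℕ))} (h : pmOk ty J n G = true) :
    wfG n G = true ∧ 0 < n ∧ PM ty J (ops n G) (bv n 1) (co n 0) := by
  simp only [pmOk, Bool.and_eq_true, List.all_eq_true, List.mem_range, Nat.blt_eq, Nat.beq_eq] at h
  obtain ⟨⟨⟨⟨⟨h1, h2⟩, h3⟩, h4⟩, h5⟩, h6⟩ := h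
  have s1 := sm_one h2
  refine ⟨h1, h2, ⟨fun p hp => okT_sound h1 (h4 p hp), fun j hj => ops_out n G (h3 ▸ hj), fun i hi => ?_, fun i hi e => ?_,
    fun i hi e => ?_⟩, fun j hj v => ?_, ?_⟩
  · rw [← (actJ_spec h1 _ s1).2, (h5 i hi).1]
  · have := (h5 i hi).2
    rw [tb_eq, e, cond_true] at this
    rw [← (actJ_spec h1 i s1).2, ← (actJ_spec h1 _ (actJ_spec h1 i s1).1).2, Nat.eq_of_beq_eq_true this, ← bv_xor]; rfl
  · have := (h5 i hi).2
    rw [tb_eq, e, cond_false] at this
    rw [← (actJ_spec h1 i s1).2, Nat.eq_of_beq_eq_true this]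
  · rw [co_eq_dot, co_eq_dot, ← ops_tr, pow_zero, ← (actJ_spec (wfG_tr h1) j s1).2, h6 j hj]
  · rw [co_bv h2]; rfl

/-- the invariants of a simple family of weight `J` and dimension at most `d` -/
def Ent (ty : Ty) (C : Cls) (d J : ℕ) (row : List ℕ) (z : ℕ) : Prop :=
  ∀ (M : Type) [AddCommGroup M] [Module F2 M] [FiniteDimensional F2 M] (a : ℕ → End F2 M) (x : M) (l : M →ₗ[F2] F2),
    PM ty J a x l → Simple a → finrank F2 M ≤ d → (∀ k, C.f a k = row.getD (min k C.cl.length) 0) ∧ C.z a ≤ z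

/-- the dimensions of the fixed spaces -/
noncomputable def fixOk (C : Cls) (n : ℕ) (G : List (List (ℕ × ℕ))) (row : List ℕ) : Bool :=
  (List.range (C.cl.length + 1)).all fun k => Nat.beq (fxRk n G (C.cl.getD k ([], 1)).1 + row.getD k 0) n

theorem ent_small {ty : Ty} (hs : ty.syn = true) {C : Cls} (d : ℕ) {J n : ℕ} {G : List (List (ℕ × ℕ))}
    (h1 : pmOk ty J n G = true) {p1 p2 : List (ℕ × ℕ)} (h2 : spinOk n G p1 = true) (h3 : spinOk n (trG G) p2 = true)
    {row : List ℕ} (h4 : fixOk C n G row = true) {z : ℕ} (h5 : Nat.ble n (zRk n G C.g C.h C.R + z) = true) :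
    Ent ty C d J row z := by
  intro M _ _ _ a x l hM hS _
  obtain ⟨hG, -, hX⟩ := pm_sound h1
  obtain ⟨e, he⟩ := hM.iso hs hX (hS.irr hM.one) ⟨fun W hW hx => spin_sound hG h2 hW hx, fun W hW hx => dspin_sound hG h3 hW hx⟩
  refine ⟨fun k => ?_, ?_⟩
  · have e1 : C.cl.getD k ([], 1) = C.cl.getD (min k C.cl.length) ([], 1) := by
      rcases le_total k C.cl.length with h | h
      · rw [min_eq_left h]
      · rw [min_eq_right h, List.getD_eq_default _ _ h, List.getD_eq_default _ _ le_rfl]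
    have e2 := Nat.eq_of_beq_eq_true (List.all_eq_true.1 h4 (min k C.cl.length) (List.mem_range.2 (by omega)))
    have e3 := fxRk_eq hG (C.cl.getD (min k C.cl.length) ([], 1)).1
    rw [Cls.f, e1, finrank_Fx_equiv e (he.wd _)]
    omega
  · have e2 := zRk_le hG C.g C.h C.R
    have e3 := Nat.ble_eq.mp h5
    rw [Cls.z, finrank_Z0_equiv e (he.wd _) (he.wd _)]
    omega

theorem exists_ten {ty : Ty} {s : ℕ} (p : ℕ × List (List (ℕ × ℕ))) (l : List (ℕ × List (List (ℕ × ℕ))))
    (h : ∀ q ∈ p :: l, pmOk ty q.1 s q.2 = true) (hd : ((p :: l).map Prod.fst).Pairwise fun a b => a &&& b = 0) :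
    ∃ (Y : Type) (_ : AddCommGroup Y) (_ : Module F2 Y) (b : ℕ → End F2 Y) (y : Y) (l' : Y →ₗ[F2] F2),
      PM ty (((p :: l).map Prod.fst).foldr (· ||| ·) 0) b y l' ∧
        ∀ w, l' (wd b w y) = (((p :: l).map Prod.snd).map fun G => co s 0 (wd (ops s G) w (bv s 1))).prod := by
  induction l generalizing p with
  | nil =>
    refine ⟨X s, inferInstance, inferInstance, ops s p.2, bv s 1, co s 0, ?_, fun w => (mul_one _).symm⟩
    have e : (([p].map Prod.fst).foldr (· ||| ·) 0) = p.1 := Nat.or_zero _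
    rw [e]
    exact (pm_sound (h p List.mem_cons_self)).2.2
  | cons q l ih =>
    rw [List.map_cons, List.pairwise_cons] at hd
    obtain ⟨Y, _, _, b, y, l', h1, h2⟩ := ih q (fun t ht => h t (List.mem_cons_of_mem _ ht)) hd.2
    have e : ∀ L : List ℕ, (∀ t ∈ L, p.1 &&& t = 0) → p.1 &&& L.foldr (· ||| ·) 0 = 0 := by
      intro L hL
      induction L with
      | nil => exact Nat.and_zero _
      | cons t L ih2 =>
        rw [List.foldr_cons, Nat.and_or_distrib_left, hL t List.mem_cons_self, ih2 fun u hu => hL u (List.mem_cons_of_mem _ hu)]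
        rfl
    refine ⟨_, inferInstance, inferInstance, _, _, _, PM.ten (e _ hd.1) (pm_sound (h p List.mem_cons_self)).2.2 h1, fun w => ?_⟩
    rw [wd_tenOp, TensorProduct.map_tmul, tenL_tmul, h2]
    rfl

theorem ent_big {ty : Ty} (hs : ty.syn = true) (C : Cls) {d J s : ℕ} (p : ℕ × List (List (ℕ × ℕ)))
    (l : List (ℕ × List (List (ℕ × ℕ)))) (h : ((p :: l).all fun q => pmOk ty q.1 s q.2) = true)
    (hd : ((p :: l).map Prod.fst).Pairwise fun a b => a &&& b = 0) (hJ : ((p :: l).map Prod.fst).foldr (· ||| ·) 0 = J)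
    {pc pv : List (ℕ × ℕ)} (hr : Nat.blt d (bigRk s ((p :: l).map Prod.snd) pc pv) = true) (row : List ℕ) (z : ℕ) :
    Ent ty C d J row z := by
  intro M _ _ _ a x l0 hM _ hd'
  rw [List.all_eq_true] at h
  obtain ⟨Y, _, _, b, y, l', h1, h2⟩ := exists_ten p l h hd
  rw [hJ] at h1
  have e := bigRk_le (pm_sound (h p List.mem_cons_self)).2.1 (Gs := (p :: l).map Prod.snd) (fun G hG => by
    obtain ⟨q, hq, rfl⟩ := List.mem_map.1 hG
    exact (pm_sound (h q hq)).1) pc pv a x l0 fun w => (hM.coef hs h1 w).trans (h2 w)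
  have e1 := Nat.blt_eq.mp hr
  omega

theorem exOk_syn {ok : List ℕ → List ℕ → Bool} {ty : Ty} {ex : Ex} (h : exOk ok ty ex = true) : ty.syn = true := by
  simp only [exOk, Bool.and_eq_true] at h
  exact h.1.1.1.1.1.1.1

theorem tab_of {ok : List ℕ → List ℕ → Bool} {ty : Ty} {ex : Ex} (h : exOk ok ty ex = true) {C : Cls} {d : ℕ}
    {rows : List (List ℕ)} {zs : List ℕ} (hE : ∀ J < 2 ^ ty.r, Ent ty C d J (rows.getD J []) (zs.getD J 0)) :
    Tab ok (ty.nb + ty.r) d C (2 ^ ty.r) (fun J k => (rows.getD J []).getD (min k C.cl.length) 0) fun J => zs.getD J 0 := by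
  intro M _ _ _ a ha hs hd
  obtain ⟨J, hJ, x, l, hM⟩ := exists_pm h ha hs
  exact ⟨J, hJ, hE J hJ M a x l hM hs hd⟩

/-- a word in the two generators as a word in the letters -/
def expW (g h : List ℕ) (w : List Bool) : List ℕ := w.flatMap fun b => cond b h g

section

variable {V : Type} [AddCommGroup V] [Module F2 V]

theorem wd_expW (a : ℕ → End F2 V) (g h : List ℕ) (w : List Bool) : wd a (expW g h w) = ev2 (wd a g) (wd a h) w := by
  induction w with
  | nil => rfl
  | cons b w ih =>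
    rw [expW, List.flatMap_cons, wd_append]
    rw [expW] at ih
    rw [ih]
    cases b <;> rfl

theorem ev2_fix {g h : End F2 V} {v : V} (hg : g v = v) (hh : h v = v) (w : List Bool) : ev2 g h w v = v := by
  induction w with
  | nil => rfl
  | cons b w ih =>
    cases b with
    | false => rw [ev2_false, End.mul_apply, ih, hg]
    | true => rw [ev2_true, End.mul_apply, ih, hh]

/-- the relators hold, the letters are words in the two generators -/
def genOk (ok : List ℕ → List ℕ → Bool) (k0 : ℕ) (C : Cls) (ws : List (List Bool)) : Bool :=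
  (C.R.all fun w => ok (expW C.g C.h w) []) && (List.range k0).all fun j => ok [j] (expW C.g C.h (ws.getD j []))

/-- **the pressure inequality** -/
theorem press [FiniteDimensional F2 V] {ok : List ℕ → List ℕ → Bool} {k0 : ℕ} {C : Cls} {ws : List (List Bool)}
    (h : genOk ok k0 C ws = true) {a : ℕ → End F2 V} (ha : Good ok k0 a) :
    (∃ v : V, v ≠ 0 ∧ ∀ j < k0, a j v = v) ∨ finrank F2 (Fx (wd a C.g)) ≤ C.z a := by
  rw [genOk, Bool.and_eq_true, List.all_eq_true, List.all_eq_true] at h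
  have e := finrank_Fx_le (g := wd a C.g) (h := wd a C.h) (R := C.R) fun w hw => by
    rw [← wd_expW, ha.rel _ _ (h.1 w hw), wd_nil]
  by_cases h0 : (Fx (wd a C.g) ⊓ Fx (wd a C.h) : Submodule F2 V) = ⊥
  · rw [h0, finrank_bot, zero_add] at e
    exact Or.inr e
  · obtain ⟨v, hv, hv0⟩ := (Submodule.ne_bot_iff _).1 h0
    refine Or.inl ⟨v, hv0, fun j hj => ?_⟩
    rw [← wd_single a j, ha.rel _ _ (h.2 j (List.mem_range.2 hj)), wd_expW]
    exact ev2_fix hv.1 hv.2 _

end

section Grp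

variable {S : Type} [Group S]

/-- the element of a word -/
def pw (σ : ℕ → S) (w : List ℕ) : S := (w.map σ).prod

theorem pw_nil (σ : ℕ → S) : pw σ [] = 1 := rfl

theorem pw_cons (σ : ℕ → S) (j : ℕ) (w : List ℕ) : pw σ (j :: w) = σ j * pw σ w := by
  rw [pw, List.map_cons, List.prod_cons]; rfl

theorem pw_append (σ : ℕ → S) (w w' : List ℕ) : pw σ (w ++ w') = pw σ w * pw σ w' := by
  rw [pw, List.map_append, List.prod_append]; rfl

theorem pw_single (σ : ℕ → S) (j : ℕ) : pw σ [j] = σ j := by rw [pw_cons, pw_nil, mul_one]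

theorem pw_mem {σ : ℕ → S} {K : Subgroup S} {k : ℕ} (h : ∀ j < k, σ j ∈ K) {w : List ℕ} (hw : ∀ j ∈ w, j < k) : pw σ w ∈ K := by
  induction w with
  | nil => exact K.one_mem
  | cons j w ih =>
    rw [pw_cons]
    exact K.mul_mem (h j (hw j List.mem_cons_self)) (ih fun i hi => hw i (List.mem_cons_of_mem _ hi))

/-- the operators of a representation -/
def opR {V : Type} [AddCommGroup V] [Module F2 V] (ρ : S →* End F2 V) (σ : ℕ → S) (k : ℕ) : ℕ → End F2 V :=
  fun j => if j < k then ρ (σ j) else 0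

theorem wd_opR {V : Type} [AddCommGroup V] [Module F2 V] (ρ : S →* End F2 V) (σ : ℕ → S) {k : ℕ} {w : List ℕ}
    (hw : ∀ j ∈ w, j < k) : wd (opR ρ σ k) w = ρ (pw σ w) := by
  induction w with
  | nil => exact (map_one ρ).symm
  | cons j w ih =>
    rw [wd_cons, pw_cons, map_mul, ih fun i hi => hw i (List.mem_cons_of_mem _ hi), opR, if_pos (hw j List.mem_cons_self)]

/-- the letters are in range -/
def inR (k : ℕ) (w : List ℕ) : Bool := w.all fun j => Nat.blt j k

theorem inR_lt {k : ℕ} {w : List ℕ} (h : inR k w = true) : ∀ j ∈ w, j < k := fun j hj =>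
  Nat.blt_eq.mp (List.all_eq_true.1 h j hj)

/-- two words have the same value in the natural module -/
noncomputable def okG (n : ℕ) (G : List (List (ℕ × ℕ))) (w w' : List ℕ) : Bool :=
  inR G.length w && inR G.length w' && okT n G w w'

/-- a faithful module given by a table -/
structure Nat0 (n : ℕ) (G : List (List (ℕ × ℕ))) (σ : ℕ → S) (ρ : S →* End F2 (X n)) : Prop where
  wf : wfG n G = true
  inj : Function.Injective ρ
  eq : ∀ j < G.length, ρ (σ j) = ops n G j

theorem Nat0.wd {n : ℕ} {G : List (List (ℕ × ℕ))} {σ : ℕ → S} {ρ : S →* End F2 (X n)} (h : Nat0 n G σ ρ) {w : List ℕ}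
    (hw : ∀ j ∈ w, j < G.length) : ρ (pw σ w) = wd (ops n G) w := by
  induction w with
  | nil => exact map_one ρ
  | cons j w ih =>
    rw [wd_cons, pw_cons, map_mul, ih fun i hi => hw i (List.mem_cons_of_mem _ hi), h.eq j (hw j List.mem_cons_self)]

theorem Nat0.pw_eq {n : ℕ} {G : List (List (ℕ × ℕ))} {σ : ℕ → S} {ρ : S →* End F2 (X n)} (h : Nat0 n G σ ρ) {w w' : List ℕ}
    (e : okG n G w w' = true) : pw σ w = pw σ w' := by
  rw [okG, Bool.and_eq_true, Bool.and_eq_true] at e
  apply h.inj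
  rw [h.wd (inR_lt e.1.1), h.wd (inR_lt e.1.2), okT_sound h.wf e.2]

theorem Nat0.good {n : ℕ} {G : List (List (ℕ × ℕ))} {σ : ℕ → S} {ρ : S →* End F2 (X n)} (h : Nat0 n G σ ρ)
    {V : Type} [AddCommGroup V] [Module F2 V] (τ : S →* End F2 V) : Good (okG n G) G.length (opR τ σ G.length) := by
  refine ⟨fun w w' e => ?_, fun j hj => if_neg (not_lt.2 hj)⟩
  have e1 := h.pw_eq e
  rw [okG, Bool.and_eq_true, Bool.and_eq_true] at e
  rw [wd_opR τ σ (inR_lt e.1.1), wd_opR τ σ (inR_lt e.1.2), e1]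

end Grp

end Cfsg.Agent.E82.Mach
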