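import Mathlib

/-!
# The pressure machine: families of operators on spaces over the field with two elements (helper38)

* `wd a w` : the operator of a word; `Inv`, `Simple`, `Hom`; `subOp`, `quoOp`;
* `Fx g` : fixed vectors, additive on short exact sequences for `g` of odd order;
* `Z0` : the solutions of the Fox equations, left exact;
* `sol` : the induction on the composition factors.
-/

set_option autoImplicit false

namespace Cfsg.Agent.E82.Mach

open Module

/-- the field with two elements -/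
abbrev F2 : Type := ZMod 2

section Basic

variable {V V' : Type*} [AddCommGroup V] [Module F2 V] [AddCommGroup V'] [Module F2 V']

theorem add_self' (v : V) : v + v = 0 := by
  have h : (1 + 1 : F2) = 0 := by decide
  calc v + v = (1 + 1 : F2) • v := by rw [add_smul, one_smul]
    _ = 0 := by rw [h, zero_smul]

theorem neg_self' (v : V) : -v = v := neg_eq_of_add_eq_zero_left (add_self' v)

theorem sub_eq_add' (v w : V) : v - w = v + w := by rw [sub_eq_add_neg, neg_self']

theorem eq_of_add_eq_zero' {v w : V} (h : v + w = 0) : v = w := by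
  rw [← sub_eq_add'] at h; exact sub_eq_zero.1 h

theorem f2_cases (c : F2) : c = 0 ∨ c = 1 := by revert c; decide

/-- the operator of a word -/
def wd (a : ℕ → End F2 V) (w : List ℕ) : End F2 V := (w.map a).prod

theorem wd_nil (a : ℕ → End F2 V) : wd a [] = 1 := rfl

theorem wd_cons (a : ℕ → End F2 V) (j : ℕ) (w : List ℕ) : wd a (j :: w) = a j * wd a w := by
  rw [wd, List.map_cons, List.prod_cons]; rfl

theorem wd_append (a : ℕ → End F2 V) (w w' : List ℕ) : wd a (w ++ w') = wd a w * wd a w' := by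
  rw [wd, List.map_append, List.prod_append]; rfl

theorem wd_single (a : ℕ → End F2 V) (j : ℕ) : wd a [j] = a j := by rw [wd_cons, wd_nil, mul_one]

theorem wd_nil_apply (a : ℕ → End F2 V) (v : V) : wd a [] v = v := rfl

theorem wd_cons_apply (a : ℕ → End F2 V) (j : ℕ) (w : List ℕ) (v : V) : wd a (j :: w) v = a j (wd a w v) := by
  rw [wd_cons]; rfl

theorem wd_append_apply (a : ℕ → End F2 V) (w w' : List ℕ) (v : V) : wd a (w ++ w') v = wd a w (wd a w' v) := by
  rw [wd_append]; rfl

/-- invariant subspaces -/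
def Inv (a : ℕ → End F2 V) (W : Submodule F2 V) : Prop := ∀ j, ∀ v ∈ W, a j v ∈ W

theorem Inv.wd {a : ℕ → End F2 V} {W : Submodule F2 V} (h : Inv a W) (w : List ℕ) {v : V} (hv : v ∈ W) :
    wd a w v ∈ W := by
  induction w with
  | nil => exact hv
  | cons j w ih => rw [wd_cons_apply]; exact h j _ ih

/-- simple families -/
def Simple (a : ℕ → End F2 V) : Prop := (∃ v : V, v ≠ 0) ∧ ∀ W, Inv a W → W = ⊥ ∨ W = ⊤

/-- intertwining maps -/
def Hom (a : ℕ → End F2 V) (b : ℕ → End F2 V') (f : V →ₗ[F2] V') : Prop := ∀ j v, f (a j v) = b j (f v)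

theorem Hom.wd {a : ℕ → End F2 V} {b : ℕ → End F2 V'} {f : V →ₗ[F2] V'} (h : Hom a b f) (w : List ℕ) (v : V) :
    f (wd a w v) = wd b w (f v) := by
  induction w with
  | nil => rfl
  | cons j w ih => rw [wd_cons_apply, wd_cons_apply, h, ih]

/-- the relations accepted by `ok` hold, the letters from `k` on act as zero -/
structure Good (ok : List ℕ → List ℕ → Bool) (k : ℕ) (a : ℕ → End F2 V) : Prop where
  rel : ∀ w w', ok w w' = true → wd a w = wd a w'
  out : ∀ j, k ≤ j → a j = 0

theorem Good.of_inj {ok : List ℕ → List ℕ → Bool} {k : ℕ} {a : ℕ → End F2 V} {b : ℕ → End F2 V'} {f : V →ₗ[F2] V'}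
    (h : Hom a b f) (hf : Function.Injective f) (hb : Good ok k b) : Good ok k a := by
  refine ⟨fun w w' hw => LinearMap.ext fun v => hf ?_, fun j hj => LinearMap.ext fun v => hf ?_⟩
  · rw [h.wd, h.wd, hb.rel w w' hw]
  · rw [h, hb.out j hj, LinearMap.zero_apply, LinearMap.zero_apply, map_zero]

theorem Good.of_surj {ok : List ℕ → List ℕ → Bool} {k : ℕ} {a : ℕ → End F2 V} {b : ℕ → End F2 V'} {f : V →ₗ[F2] V'}
    (h : Hom a b f) (hf : Function.Surjective f) (ha : Good ok k a) : Good ok k b := by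
  refine ⟨fun w w' hw => LinearMap.ext fun v => ?_, fun j hj => LinearMap.ext fun v => ?_⟩
  · obtain ⟨v, rfl⟩ := hf v
    rw [← h.wd, ← h.wd, ha.rel w w' hw]
  · obtain ⟨v, rfl⟩ := hf v
    rw [← h, ha.out j hj, LinearMap.zero_apply, LinearMap.zero_apply, map_zero]

/-- the operators on an invariant subspace -/
def subOp (a : ℕ → End F2 V) (W : Submodule F2 V) (h : Inv a W) : ℕ → End F2 W :=
  fun j => (a j).restrict (h j)

/-- the operators on the quotient -/
def quoOp (a : ℕ → End F2 V) (W : Submodule F2 V) (h : Inv a W) : ℕ → End F2 (V ⧸ W) :=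
  fun j => W.mapQ W (a j) (h j)

theorem hom_sub (a : ℕ → End F2 V) (W : Submodule F2 V) (h : Inv a W) : Hom (subOp a W h) a W.subtype :=
  fun _ _ => rfl

theorem hom_quo (a : ℕ → End F2 V) (W : Submodule F2 V) (h : Inv a W) : Hom a (quoOp a W h) W.mkQ :=
  fun _ _ => rfl

theorem Inv.map {a : ℕ → End F2 V} {b : ℕ → End F2 V'} {f : V →ₗ[F2] V'} (h : Hom a b f) {W : Submodule F2 V}
    (hW : Inv a W) : Inv b (W.map f) := by
  rintro j _ ⟨v, hv, rfl⟩
  exact ⟨a j v, hW j v hv, h j v⟩

theorem Inv.comap {a : ℕ → End F2 V} {b : ℕ → End F2 V'} {f : V →ₗ[F2] V'} (h : Hom a b f) {W : Submodule F2 V'}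
    (hW : Inv b W) : Inv a (W.comap f) := by
  intro j v hv
  rw [Submodule.mem_comap, h]
  exact hW j _ hv

theorem inv_top (a : ℕ → End F2 V) : Inv a ⊤ := fun _ _ _ => trivial

theorem inv_bot (a : ℕ → End F2 V) : Inv a ⊥ := fun j v hv => by
  rw [Submodule.mem_bot] at hv ⊢; rw [hv, map_zero]

/-- a nonzero invariant subspace contains a simple one -/
theorem exists_simple [FiniteDimensional F2 V] (a : ℕ → End F2 V) {U : Submodule F2 V} (hU : Inv a U) (h0 : U ≠ ⊥) :
    ∃ (W : Submodule F2 V) (h : Inv a W), W ≤ U ∧ Simple (subOp a W h) := by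
  obtain ⟨n, hn⟩ : ∃ n, finrank F2 U = n := ⟨_, rfl⟩
  induction n using Nat.strong_induction_on generalizing U with
  | _ n ih =>
    by_cases hs : Simple (subOp a U hU)
    · exact ⟨U, hU, le_rfl, hs⟩
    · have h1 : ∃ v : U, v ≠ 0 := by
        obtain ⟨v, hv, hv0⟩ := (Submodule.ne_bot_iff U).1 h0
        exact ⟨⟨v, hv⟩, fun e => hv0 (congrArg Subtype.val e)⟩
      have h2 : ∃ W, Inv (subOp a U hU) W ∧ W ≠ ⊥ ∧ W ≠ ⊤ := by
        by_contra hc
        refine hs ⟨h1, fun W hW => ?_⟩
        by_contra hd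
        rw [not_or] at hd
        exact hc ⟨W, hW, hd.1, hd.2⟩
      obtain ⟨W, hW, hb, ht⟩ := h2
      have h3 : finrank F2 (W.map U.subtype) < n := by
        rw [Submodule.finrank_map_subtype_eq, ← hn]
        exact Submodule.finrank_lt ht
      have h4 : W.map U.subtype ≠ ⊥ := by
        intro e
        apply hb
        rw [eq_bot_iff]
        intro v hv
        have : (v : V) ∈ W.map U.subtype := ⟨v, hv, rfl⟩
        rw [e, Submodule.mem_bot] at this
        exact (Submodule.mem_bot _).2 (Subtype.ext this)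
      obtain ⟨W', h', hle, hs'⟩ := ih _ h3 (hW.map (hom_sub a U hU)) h4 rfl
      exact ⟨W', h', hle.trans (Submodule.map_subtype_le U W), hs'⟩

end Basic

section Exact

variable {A V B : Type*} [AddCommGroup A] [Module F2 A] [AddCommGroup V] [Module F2 V] [AddCommGroup B] [Module F2 B]

/-- fixed vectors -/
def Fx (g : End F2 V) : Submodule F2 V := LinearMap.eqLocus g LinearMap.id

theorem mem_Fx {g : End F2 V} {v : V} : v ∈ Fx g ↔ g v = v := Iff.rfl

theorem Fx_one : Fx (1 : End F2 V) = ⊤ := by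
  rw [eq_top_iff]; intro v _; rfl

/-- a left exact triple of subspaces -/
theorem finrank_le_of_exact [FiniteDimensional F2 A] [FiniteDimensional F2 V] [FiniteDimensional F2 B]
    (ι : A →ₗ[F2] V) (π : V →ₗ[F2] B) (SA : Submodule F2 A) (SV : Submodule F2 V) (SB : Submodule F2 B)
    (h1 : ∀ v ∈ SV, π v ∈ SB) (h2 : ∀ v ∈ SV, π v = 0 → ∃ x ∈ SA, ι x = v) :
    finrank F2 SV ≤ finrank F2 SA + finrank F2 SB := by
  have e := LinearMap.finrank_range_add_finrank_ker (π.restrict h1)
  have e1 : finrank F2 (LinearMap.range (π.restrict h1)) ≤ finrank F2 SB := Submodule.finrank_le _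
  have e2 : finrank F2 (LinearMap.ker (π.restrict h1)) ≤ finrank F2 SA := by
    rw [← Submodule.finrank_map_subtype_eq]
    refine le_trans (Submodule.finrank_mono ?_) (Submodule.finrank_map_le ι SA)
    rintro _ ⟨v, hv, rfl⟩
    exact h2 v v.2 (congrArg Subtype.val (LinearMap.mem_ker.1 hv))
  omega

/-- an exact triple of subspaces -/
theorem finrank_ge_of_exact [FiniteDimensional F2 A] [FiniteDimensional F2 V] [FiniteDimensional F2 B]
    (ι : A →ₗ[F2] V) (π : V →ₗ[F2] B) (SA : Submodule F2 A) (SV : Submodule F2 V) (SB : Submodule F2 B)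
    (hι : Function.Injective ι) (h0 : ∀ x, π (ι x) = 0) (h1 : ∀ v ∈ SV, π v ∈ SB) (h2 : ∀ x ∈ SA, ι x ∈ SV)
    (h3 : ∀ y ∈ SB, ∃ v ∈ SV, π v = y) : finrank F2 SA + finrank F2 SB ≤ finrank F2 SV := by
  have e := LinearMap.finrank_range_add_finrank_ker (π.restrict h1)
  have e1 : LinearMap.range (π.restrict h1) = ⊤ := by
    rw [eq_top_iff]
    rintro ⟨y, hy⟩ _
    obtain ⟨v, hv, rfl⟩ := h3 y hy
    exact ⟨⟨v, hv⟩, rfl⟩
  have e2 : finrank F2 SA ≤ finrank F2 (LinearMap.ker (π.restrict h1)) := by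
    rw [← Submodule.finrank_map_subtype_eq, ← LinearEquiv.finrank_eq (Submodule.equivMapOfInjective ι hι SA).symm]
    refine Submodule.finrank_mono ?_
    rintro _ ⟨x, hx, rfl⟩
    exact ⟨⟨ι x, h2 x hx⟩, LinearMap.mem_ker.2 (Subtype.ext (h0 x)), rfl⟩
  rw [e1, finrank_top] at e
  omega

theorem pow_hom {f : V →ₗ[F2] B} {g : End F2 V} {g' : End F2 B} (h : ∀ v, f (g v) = g' (f v)) (n : ℕ) (v : V) :
    f ((g ^ n) v) = (g' ^ n) (f v) := by
  induction n with
  | zero => rfl
  | succ n ih => rw [pow_succ', pow_succ', End.mul_apply, End.mul_apply, h, ih]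

theorem odd_smul {n : ℕ} (hn : Odd n) (v : V) : n • v = v := by
  obtain ⟨k, rfl⟩ := hn
  rw [add_smul, one_smul, mul_comm, mul_smul, two_smul, add_self', smul_zero, zero_add]

/-- fixed vectors of an operator of odd order can be lifted -/
theorem lift_fix {π : V →ₗ[F2] B} {g : End F2 V} {g' : End F2 B} (h : ∀ v, π (g v) = g' (π v)) {n : ℕ} (hn : Odd n)
    (hg : g ^ n = 1) (hπ : Function.Surjective π) {y : B} (hy : y ∈ Fx g') : ∃ v ∈ Fx g, π v = y := by
  obtain ⟨v, rfl⟩ := hπ y
  refine ⟨∑ i ∈ Finset.range n, (g ^ i) v, ?_, ?_⟩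
  · rw [mem_Fx, map_sum]
    have e1 := Finset.sum_range_succ (fun i => (g ^ i) v) n
    have e2 := Finset.sum_range_succ' (fun i => (g ^ i) v) n
    rw [hg] at e1
    rw [pow_zero, e1] at e2
    have e3 := add_right_cancel e2
    rw [e3]
    refine Finset.sum_congr rfl fun i _ => ?_
    rw [pow_succ', End.mul_apply]
  · rw [map_sum]
    have e : ∀ i, π ((g ^ i) v) = π v := fun i => by
      rw [pow_hom h]
      induction i with
      | zero => rfl
      | succ i ih => rw [pow_succ, End.mul_apply, mem_Fx.1 hy, ih]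
    rw [Finset.sum_congr rfl fun i _ => e i, Finset.sum_const, Finset.card_range, odd_smul hn]

theorem finrank_Fx_add [FiniteDimensional F2 V] {W : Submodule F2 V} {g : End F2 V} {gA : End F2 W} {gB : End F2 (V ⧸ W)}
    (hA : ∀ x, W.subtype (gA x) = g (W.subtype x)) (hB : ∀ v, W.mkQ (g v) = gB (W.mkQ v)) {n : ℕ} (hn : Odd n)
    (hg : g ^ n = 1) : finrank F2 (Fx g) = finrank F2 (Fx gA) + finrank F2 (Fx gB) := by
  have h1 : ∀ v ∈ Fx g, W.mkQ v ∈ Fx gB := fun v hv => by rw [mem_Fx, ← hB, mem_Fx.1 hv]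
  refine le_antisymm (finrank_le_of_exact W.subtype W.mkQ _ _ _ h1 fun v hv h0 => ?_)
    (finrank_ge_of_exact W.subtype W.mkQ _ _ _ W.injective_subtype (fun x => ?_) h1 (fun x hx => ?_)
      fun y hy => lift_fix hB hn hg W.mkQ_surjective hy)
  · have hvW : v ∈ W := (Submodule.Quotient.mk_eq_zero W).1 h0
    refine ⟨⟨v, hvW⟩, ?_, rfl⟩
    rw [mem_Fx]
    apply W.injective_subtype
    rw [hA]
    exact hv
  · exact (Submodule.Quotient.mk_eq_zero W).2 x.2
  · rw [mem_Fx, ← hA, mem_Fx.1 hx]

/-- the value of a word in two operators -/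
def ev2 (g h : End F2 V) : List Bool → End F2 V
  | [] => 1
  | false :: w => g * ev2 g h w
  | true :: w => h * ev2 g h w

/-- the Fox derivative with respect to the second operator -/
def fox (g h : End F2 V) : List Bool → End F2 V
  | [] => 0
  | false :: w => g * fox g h w
  | true :: w => 1 + h * fox g h w

theorem ev2_realised : True := by have := @ev2.eq_def.{0}; trivial

theorem fox_realised : True := by have := @fox.eq_def.{0}; trivial

theorem ev2_false (g h : End F2 V) (w : List Bool) : ev2 g h (false :: w) = g * ev2 g h w := rfl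
theorem ev2_true (g h : End F2 V) (w : List Bool) : ev2 g h (true :: w) = h * ev2 g h w := rfl
theorem fox_false (g h : End F2 V) (w : List Bool) : fox g h (false :: w) = g * fox g h w := rfl
theorem fox_true (g h : End F2 V) (w : List Bool) : fox g h (true :: w) = 1 + h * fox g h w := rfl

theorem fox_inner {g h : End F2 V} {v : V} (hv : g v = v) (w : List Bool) :
    fox g h w (h v - v) = ev2 g h w v - v := by
  induction w with
  | nil => exact (sub_self v).symm
  | cons b w ih =>
    cases b with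
    | false => rw [fox_false, ev2_false, End.mul_apply, End.mul_apply, ih, map_sub, hv]
    | true =>
      rw [fox_true, ev2_true, LinearMap.add_apply, End.one_apply, End.mul_apply, End.mul_apply, ih]
      rw [map_sub h]
      abel

theorem fox_hom {f : V →ₗ[F2] B} {g h : End F2 V} {g' h' : End F2 B} (hg : ∀ v, f (g v) = g' (f v))
    (hh : ∀ v, f (h v) = h' (f v)) (w : List Bool) (v : V) : f (fox g h w v) = fox g' h' w (f v) := by
  induction w with
  | nil => exact map_zero f
  | cons b w ih =>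
    cases b with
    | false => rw [fox_false, fox_false, End.mul_apply, End.mul_apply, hg, ih]
    | true =>
      rw [fox_true, fox_true, LinearMap.add_apply, LinearMap.add_apply, End.mul_apply, End.mul_apply, map_add, hh, ih]
      rfl

/-- the solutions of the Fox equations -/
def Z0 (g h : End F2 V) (R : List (List Bool)) : Submodule F2 V where
  carrier := {v | ∀ w ∈ R, fox g h w v = 0}
  zero_mem' := fun _ _ => map_zero _
  add_mem' := fun {x y} hx hy w hw => by rw [map_add, hx w hw, hy w hw, add_zero]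
  smul_mem' := fun c x hx w hw => by rw [map_smul, hx w hw, smul_zero]

theorem mem_Z0 {g h : End F2 V} {R : List (List Bool)} {v : V} : v ∈ Z0 g h R ↔ ∀ w ∈ R, fox g h w v = 0 := Iff.rfl

/-- the inner derivations -/
theorem finrank_Fx_le [FiniteDimensional F2 V] {g h : End F2 V} {R : List (List Bool)} (hR : ∀ w ∈ R, ev2 g h w = 1) :
    finrank F2 (Fx g) ≤ finrank F2 (Fx g ⊓ Fx h : Submodule F2 V) + finrank F2 (Z0 g h R) := by
  refine finrank_le_of_exact LinearMap.id (h - 1) _ _ _ (fun v hv w hw => ?_) fun v hv h0 => ⟨v, ⟨hv, ?_⟩, rfl⟩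
  · have := fox_inner (h := h) (mem_Fx.1 hv) w
    rw [hR w hw, End.one_apply, sub_self] at this
    exact this
  · exact sub_eq_zero.1 h0

theorem finrank_Z0_le [FiniteDimensional F2 V] {W : Submodule F2 V} {g h : End F2 V} {gA hA : End F2 W}
    {gB hB : End F2 (V ⧸ W)} (e1 : ∀ x, W.subtype (gA x) = g (W.subtype x)) (e2 : ∀ x, W.subtype (hA x) = h (W.subtype x))
    (e3 : ∀ v, W.mkQ (g v) = gB (W.mkQ v)) (e4 : ∀ v, W.mkQ (h v) = hB (W.mkQ v)) (R : List (List Bool)) :
    finrank F2 (Z0 g h R) ≤ finrank F2 (Z0 gA hA R) + finrank F2 (Z0 gB hB R) := by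
  refine finrank_le_of_exact W.subtype W.mkQ _ _ _ (fun v hv w hw => ?_) fun v hv h0 => ?_
  · rw [← fox_hom e3 e4, hv w hw, map_zero]
  · have hvW : v ∈ W := (Submodule.Quotient.mk_eq_zero W).1 h0
    refine ⟨⟨v, hvW⟩, fun w hw => W.injective_subtype ?_, rfl⟩
    rw [fox_hom e1 e2, map_zero]
    exact hv w hw

theorem finrank_Fx_equiv (e : V ≃ₗ[F2] B) {g : End F2 V} {g' : End F2 B} (h : ∀ v, e (g v) = g' (e v)) :
    finrank F2 (Fx g) = finrank F2 (Fx g') := by
  have : (Fx g).map (e : V →ₗ[F2] B) = Fx g' := by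
    ext y
    constructor
    · rintro ⟨v, hv, rfl⟩
      show g' (e v) = e v
      rw [← h, mem_Fx.1 hv]
    · intro hy
      refine ⟨e.symm y, e.injective ?_, e.apply_symm_apply y⟩
      show e (g (e.symm y)) = e (e.symm y)
      rw [h, e.apply_symm_apply]
      exact hy
  rw [← this, LinearEquiv.finrank_map_eq]

theorem finrank_Z0_equiv (e : V ≃ₗ[F2] B) {g h : End F2 V} {g' h' : End F2 B} (e1 : ∀ v, e (g v) = g' (e v))
    (e2 : ∀ v, e (h v) = h' (e v)) (R : List (List Bool)) : finrank F2 (Z0 g h R) = finrank F2 (Z0 g' h' R) := by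
  have : (Z0 g h R).map (e : V →ₗ[F2] B) = Z0 g' h' R := by
    ext y
    constructor
    · rintro ⟨v, hv, rfl⟩ w hw
      rw [← fox_hom (f := (e : V →ₗ[F2] B)) e1 e2, hv w hw, map_zero]
    · intro hy
      refine ⟨e.symm y, fun w hw => e.injective ?_, e.apply_symm_apply y⟩
      have := fox_hom (f := (e : V →ₗ[F2] B)) e1 e2 w (e.symm y)
      rw [LinearEquiv.coe_coe, e.apply_symm_apply, hy w hw] at this
      rw [this, map_zero]
  rw [← this, LinearEquiv.finrank_map_eq]

end Exact

section Sol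

/-- the elements of odd order, the two generators, the relators -/
structure Cls where
  /-- the words of the elements of odd order, with the orders -/
  cl : List (List ℕ × ℕ)
  /-- the first generator -/
  g : List ℕ
  /-- the second generator -/
  h : List ℕ
  /-- the relators -/
  R : List (List Bool)

variable {V : Type} [AddCommGroup V] [Module F2 V]

/-- the dimension of the fixed space of the `k`-th element -/
noncomputable def Cls.f (C : Cls) (a : ℕ → End F2 V) (k : ℕ) : ℕ := finrank F2 (Fx (wd a (C.cl.getD k ([], 1)).1))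

/-- the dimension of the space of solutions of the Fox equations -/
noncomputable def Cls.z (C : Cls) (a : ℕ → End F2 V) : ℕ := finrank F2 (Z0 (wd a C.g) (wd a C.h) C.R)

/-- the power of a word -/
def wpow (w : List ℕ) (n : ℕ) : List ℕ := (List.replicate n w).flatten

theorem wd_wpow (a : ℕ → End F2 V) (w : List ℕ) (n : ℕ) : wd a (wpow w n) = wd a w ^ n := by
  induction n with
  | zero => rfl
  | succ n ih =>
    rw [wpow, List.replicate_succ, List.flatten_cons, wd_append, pow_succ']
    exact congrArg _ ih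

/-- the orders are odd and accepted -/
def Cls.chk (C : Cls) (ok : List ℕ → List ℕ → Bool) : Bool :=
  C.cl.all fun p => (p.2 % 2 == 1) && ok (wpow p.1 p.2) []

theorem Cls.ord {C : Cls} {ok : List ℕ → List ℕ → Bool} (hC : C.chk ok = true) {k0 : ℕ} {a : ℕ → End F2 V}
    (ha : Good ok k0 a) (k : ℕ) : Odd (C.cl.getD k ([], 1)).2 ∧ wd a (C.cl.getD k ([], 1)).1 ^ (C.cl.getD k ([], 1)).2 = 1 := by
  by_cases hk : k < C.cl.length
  · rw [List.getD_eq_getElem _ _ hk]
    have h1 := List.all_eq_true.1 hC _ (List.getElem_mem hk)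
    rw [Bool.and_eq_true, beq_iff_eq] at h1
    refine ⟨Nat.odd_iff.2 h1.1, ?_⟩
    rw [← wd_wpow, ha.rel _ _ h1.2, wd_nil]
  · rw [List.getD_eq_default _ _ (not_lt.1 hk)]
    exact ⟨odd_one, by rw [wd_nil, one_pow]⟩

/-- the invariants are those of the multiplicities `n` -/
def Sol (C : Cls) (r : ℕ) (F : ℕ → ℕ → ℕ) (Z : ℕ → ℕ) (a : ℕ → End F2 V) (n : ℕ → ℕ) : Prop :=
  (∀ k, C.f a k = ∑ J ∈ Finset.range r, n J * F J k) ∧ C.z a ≤ ∑ J ∈ Finset.range r, n J * Z J

theorem Sol.add [FiniteDimensional F2 V] {C : Cls} {ok : List ℕ → List ℕ → Bool} (hC : C.chk ok = true) {k0 : ℕ}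
    {a : ℕ → End F2 V} (ha : Good ok k0 a) {r : ℕ} {F : ℕ → ℕ → ℕ} {Z : ℕ → ℕ} {W : Submodule F2 V} {hW : Inv a W}
    {n n' : ℕ → ℕ} (h1 : Sol C r F Z (subOp a W hW) n) (h2 : Sol C r F Z (quoOp a W hW) n') :
    Sol C r F Z a (n + n') := by
  refine ⟨fun k => ?_, ?_⟩
  · obtain ⟨ho, hp⟩ := C.ord hC ha k
    have e := finrank_Fx_add ((hom_sub a W hW).wd _) ((hom_quo a W hW).wd _) ho hp
    have e1 := h1.1 k
    have e2 := h2.1 k
    unfold Cls.f at e1 e2 ⊢
    rw [e, e1, e2, ← Finset.sum_add_distrib]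
    exact Finset.sum_congr rfl fun J _ => by rw [Pi.add_apply, add_mul]
  · have e := finrank_Z0_le ((hom_sub a W hW).wd C.g) ((hom_sub a W hW).wd C.h) ((hom_quo a W hW).wd C.g)
      ((hom_quo a W hW).wd C.h) C.R
    have e1 := h1.2
    have e2 := h2.2
    unfold Cls.z at e1 e2 ⊢
    refine e.trans ((add_le_add e1 e2).trans (le_of_eq ?_))
    rw [← Finset.sum_add_distrib]
    exact Finset.sum_congr rfl fun J _ => by rw [Pi.add_apply, add_mul]

/-- the invariants of the simple families of dimension at most `d` are in the table -/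
def Tab (ok : List ℕ → List ℕ → Bool) (k0 d : ℕ) (C : Cls) (r : ℕ) (F : ℕ → ℕ → ℕ) (Z : ℕ → ℕ) : Prop :=
  ∀ (M : Type) [AddCommGroup M] [Module F2 M] [FiniteDimensional F2 M] (a : ℕ → End F2 M), Good ok k0 a → Simple a →
    finrank F2 M ≤ d → ∃ J < r, (∀ k, C.f a k = F J k) ∧ C.z a ≤ Z J

theorem sol {C : Cls} {ok : List ℕ → List ℕ → Bool} (hC : C.chk ok = true) {k0 d r : ℕ} {F : ℕ → ℕ → ℕ} {Z : ℕ → ℕ}
    (hT : Tab ok k0 d C r F Z) (m : ℕ) : ∀ (V : Type) [AddCommGroup V] [Module F2 V] [FiniteDimensional F2 V]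
      (a : ℕ → End F2 V), finrank F2 V = m → m ≤ d → Good ok k0 a → ∃ n, Sol C r F Z a n := by
  induction m using Nat.strong_induction_on with
  | _ m ih =>
    intro V _ _ _ a hm hd ha
    by_cases h0 : (⊤ : Submodule F2 V) = ⊥
    · have hz : ∀ S : Submodule F2 V, finrank F2 S = 0 := fun S => by
        rw [Submodule.finrank_eq_zero, eq_bot_iff, ← h0]; exact le_top
      refine ⟨0, fun k => ?_, ?_⟩
      · rw [Cls.f, hz, Finset.sum_eq_zero fun J _ => by rw [Pi.zero_apply, zero_mul]]
      · rw [Cls.z, hz]; exact Nat.zero_le _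
    · obtain ⟨W, hW, -, hs⟩ := exists_simple a (inv_top a) h0
      have e := Submodule.finrank_quotient_add_finrank W
      have hpos : 0 < finrank F2 W := by
        obtain ⟨v, hv⟩ := hs.1
        exact finrank_pos_iff_exists_ne_zero.2 ⟨v, hv⟩
      obtain ⟨J, hJ, h1, h2⟩ := hT W (subOp a W hW) (ha.of_inj (hom_sub a W hW) W.injective_subtype) hs (by omega)
      obtain ⟨n', h3⟩ := ih (finrank F2 (V ⧸ W)) (by omega) (V ⧸ W) (quoOp a W hW) rfl (by omega)
        (ha.of_surj (hom_quo a W hW) W.mkQ_surjective)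
      refine ⟨Pi.single J 1 + n', Sol.add hC ha (hW := hW) ⟨fun k => ?_, ?_⟩ h3⟩
      · rw [h1, Finset.sum_eq_single J (fun b _ hb => by rw [Pi.single_eq_of_ne hb, zero_mul])
          (fun hb => absurd (Finset.mem_range.2 hJ) hb), Pi.single_eq_same, one_mul]
      · rw [Finset.sum_eq_single J (fun b _ hb => by rw [Pi.single_eq_of_ne hb, zero_mul])
          (fun hb => absurd (Finset.mem_range.2 hJ) hb), Pi.single_eq_same, one_mul]
        exact h2

end Sol

end Cfsg.Agent.E82.Mach
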