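import Cfsg.Agent.E82.Mach.Main

/-!
# The pressure machine: simple submodules (helper38)
-/

set_option autoImplicit false

namespace Cfsg.Agent.E82.Mach

open Module

variable {V : Type} [AddCommGroup V] [Module F2 V]

/-- every non-zero invariant subspace contains a simple one; it has a weight and counts as a composition factor -/
theorem soc [FiniteDimensional F2 V] {ok : List ℕ → List ℕ → Bool} {ty : Ty} {ex : Ex} (h : exOk ok ty ex = true) {C : Cls}
    (hC : C.chk ok = true) {d : ℕ} {rows : List (List ℕ)} {zs : List ℕ}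
    (hE : ∀ J < 2 ^ ty.r, Ent ty C d J (rows.getD J []) (zs.getD J 0)) {a : ℕ → End F2 V} (ha : Good ok (ty.nb + ty.r) a)
    (hd : finrank F2 V ≤ d) {U : Submodule F2 V} (hU : Inv a U) (h0 : U ≠ ⊥) :
    ∃ (W : Submodule F2 V) (hW : Inv a W), W ≤ U ∧ Simple (subOp a W hW) ∧ ∃ J < 2 ^ ty.r,
      (∃ x l, PM ty J (subOp a W hW) x l) ∧ ∃ n : ℕ → ℕ, 1 ≤ n J ∧
        Sol C (2 ^ ty.r) (fun J k => (rows.getD J []).getD (min k C.cl.length) 0) (fun J => zs.getD J 0) a n := by
  obtain ⟨W, hW, hle, hs⟩ := exists_simple a hU h0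
  obtain ⟨J, hJ, x, l, hM⟩ := exists_pm h (ha.of_inj (hom_sub a W hW) W.injective_subtype) hs
  have e := Submodule.finrank_quotient_add_finrank W
  obtain ⟨h1, h2⟩ := hE J hJ W _ x l hM hs (by omega)
  obtain ⟨n', h3⟩ := sol hC (tab_of h hE) _ (V ⧸ W) (quoOp a W hW) rfl (by omega)
    (ha.of_surj (hom_quo a W hW) W.mkQ_surjective)
  refine ⟨W, hW, hle, hs, J, hJ, ⟨x, l, hM⟩, Pi.single J 1 + n', ?_, Sol.add hC ha (hW := hW) ⟨fun k => ?_, ?_⟩ h3⟩
  · rw [Pi.add_apply, Pi.single_eq_same]; omega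
  · rw [h1, Finset.sum_eq_single J (fun b _ hb => by rw [Pi.single_eq_of_ne hb, zero_mul])
      (fun hb => absurd (Finset.mem_range.2 hJ) hb), Pi.single_eq_same, one_mul]
  · rw [Finset.sum_eq_single J (fun b _ hb => by rw [Pi.single_eq_of_ne hb, zero_mul])
      (fun hb => absurd (Finset.mem_range.2 hJ) hb), Pi.single_eq_same, one_mul]
    exact h2

/-- a simple subspace of weight `J` is the image of the table -/
theorem emb_of {ty : Ty} (hs : ty.syn = true) {J n : ℕ} {G : List (List (ℕ × ℕ))} (h1 : pmOk ty J n G = true)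
    {p1 p2 : List (ℕ × ℕ)} (h2 : spinOk n G p1 = true) (h3 : spinOk n (trG G) p2 = true) {a : ℕ → End F2 V}
    {W : Submodule F2 V} {hW : Inv a W} (hS : Simple (subOp a W hW)) {x : W} {l : W →ₗ[F2] F2}
    (hM : PM ty J (subOp a W hW) x l) :
    ∃ e : X n →ₗ[F2] V, Function.Injective e ∧ Hom (ops n G) a e ∧ ∀ y, e y ∈ W := by
  obtain ⟨hG, -, hX⟩ := pm_sound h1
  obtain ⟨e, he⟩ := hX.iso hs hM ⟨fun W hW hx => spin_sound hG h2 hW hx, fun W hW hx => dspin_sound hG h3 hW hx⟩
    (hS.irr hM.one)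
  exact ⟨W.subtype ∘ₗ (e : X n →ₗ[F2] W), W.injective_subtype.comp e.injective, fun j y => congrArg Subtype.val (he j y),
    fun y => (e y).2⟩

/-- a simple subspace of weight zero gives a fixed vector -/
theorem fix_of_zero {ty : Ty} {a : ℕ → End F2 V} {n : ℕ} {G : List (List (ℕ × ℕ))}
    (h1 : pmOk ty 0 n G = true) {k : ℕ} (h : ((List.range k).all fun j => Nat.beq (actJ G j 1) 1) = true) {e : X n →ₗ[F2] V}
    (he : Function.Injective e) (hh : Hom (ops n G) a e) : ∃ v : V, v ≠ 0 ∧ ∀ j < k, a j v = v := by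
  obtain ⟨hG, hn, hX⟩ := pm_sound h1
  refine ⟨e (bv n 1), fun h0 => ?_, fun j hj => ?_⟩
  · have h2 := hX.one
    rw [he (h0.trans (map_zero e).symm), map_zero] at h2
    exact zero_ne_one h2
  · rw [← hh, ← (actJ_spec hG j (sm_one hn)).2, Nat.eq_of_beq_eq_true (List.all_eq_true.1 h j (List.mem_range.2 hj))]

section Grp

variable {S : Type} [Group S]

theorem pw_wpow (σ : ℕ → S) (w : List ℕ) (n : ℕ) : pw σ (wpow w n) = pw σ w ^ n := by
  induction n with
  | zero => exact (pow_zero _).symm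
  | succ n ih =>
    rw [wpow, List.replicate_succ, List.flatten_cons, pw_append, pow_succ']
    exact congrArg _ ih

theorem map_pw {T : Type} [Group T] (f : S →* T) (σ : ℕ → S) (w : List ℕ) : f (pw σ w) = pw (fun j => f (σ j)) w := by
  induction w with
  | nil => exact map_one f
  | cons j w ih => rw [pw_cons, pw_cons, map_mul, ih]

end Grp

end Cfsg.Agent.E82.Mach
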