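import Cfsg.Agent.E82.Mach.Main
import Cfsg.Agent.S0765

/-!
# The pressure machine: the natural module of the symplectic group (helper38)

* `rho0 m` : matrices as operators on `X (m + m)`; `mt m T` : the matrix of a table;
* `spE m T` : the element of the symplectic group with table `T`; `sg m G` : the letters; `nat0_sp`, `gen_sp`.
-/

set_option autoImplicit false

namespace Cfsg.Agent.E82.Mach

open Module Matrix

/-- the symplectic group -/
abbrev Sp (m : ℕ) : Type := ↥(Matrix.symplecticGroup (Fin m) F2)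

/-- the index of a coordinate -/
def ix (m : ℕ) : Fin m ⊕ Fin m → ℕ := Sum.elim (fun i => i) fun i => m + i

theorem ix_eq {m : ℕ} (i : Fin m ⊕ Fin m) : ix m i = (finSumFinEquiv i : Fin (m + m)) := by
  cases i <;> rfl

/-- matrices as operators -/
noncomputable def rho0 (m : ℕ) : Matrix (Fin m ⊕ Fin m) (Fin m ⊕ Fin m) F2 ≃ₐ[F2] End F2 (X (m + m)) :=
  (Matrix.reindexAlgEquiv F2 F2 finSumFinEquiv).trans Matrix.toLinAlgEquiv'

/-- the matrix of a table -/
def mt (m T : ℕ) : Matrix (Fin m ⊕ Fin m) (Fin m ⊕ Fin m) F2 := Matrix.of fun i j => bt T ((m + m) * ix m j + ix m i)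

theorem rho0_single {m : ℕ} (A : Matrix (Fin m ⊕ Fin m) (Fin m ⊕ Fin m) F2) (i k : Fin (m + m)) :
    rho0 m A (Pi.single i 1) k = A (finSumFinEquiv.symm k) (finSumFinEquiv.symm i) := by
  show (Matrix.reindex finSumFinEquiv finSumFinEquiv A *ᵥ Pi.single i 1) k = _
  rw [Matrix.mulVec_single_one]; rfl

theorem rho0_mt (m T : ℕ) : rho0 m (mt m T) = lin (m + m) T :=
  x_ext fun i => funext fun k => by
    rw [rho0_single, lin_single, mt, Matrix.of_apply, ix_eq, ix_eq, Equiv.apply_symm_apply, Equiv.apply_symm_apply, bv, bt_row,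
      if_pos k.2]

/-- the natural representation -/
noncomputable def rhoSp (m : ℕ) : Sp m →* End F2 (X (m + m)) :=
  (rho0 m).toAlgHom.toMonoidHom.comp (Matrix.symplecticGroup (Fin m) F2).subtype

theorem rhoSp_apply {m : ℕ} (A : Sp m) : rhoSp m A = rho0 m A.1 := rfl

theorem rhoSp_inj (m : ℕ) : Function.Injective (rhoSp m) := fun _ _ h => Subtype.ext ((rho0 m).injective h)

/-- the form on two columns -/
def frm (m T a b : ℕ) : F2 :=
  ∑ k ∈ Finset.range m, (bt T ((m + m) * a + (m + k)) * bt T ((m + m) * b + k) + bt T ((m + m) * a + k) * bt T ((m + m) * b + (m + k)))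

/-- the table preserves the form -/
noncomputable def spOk (m T : ℕ) : Bool :=
  force T fun T => (List.range (m + m)).all fun a => (List.range (m + m)).all fun b =>
    decide (frm m T a b = if a + m = b ∨ b + m = a then 1 else 0)

theorem ix_lt {m : ℕ} (i : Fin m ⊕ Fin m) : ix m i < m + m := by rw [ix_eq]; exact Fin.is_lt _

theorem neg_f2 (c : F2) : -c = c := neg_self' c

theorem J_ix {m : ℕ} (i j : Fin m ⊕ Fin m) :
    Matrix.J (Fin m) F2 i j = if ix m i + m = ix m j ∨ ix m j + m = ix m i then 1 else 0 := by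
  rcases i with i | i <;> rcases j with j | j
  · have h1 := i.2
    have h2 := j.2
    rw [if_neg (by simp only [ix, Sum.elim_inl]; omega)]; rfl
  · show (-1 : Matrix (Fin m) (Fin m) F2) i j = _
    have h2 := j.2
    rw [Matrix.neg_apply, neg_f2, Matrix.one_apply]
    refine if_congr ?_ rfl rfl
    simp only [ix, Sum.elim_inl, Sum.elim_inr, Fin.ext_iff]; omega
  · show (1 : Matrix (Fin m) (Fin m) F2) i j = _
    have h2 := j.2
    rw [Matrix.one_apply]
    refine if_congr ?_ rfl rfl
    simp only [ix, Sum.elim_inl, Sum.elim_inr, Fin.ext_iff]; omega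
  · have h1 := i.2
    have h2 := j.2
    rw [if_neg (by simp only [ix, Sum.elim_inr]; omega)]; rfl

theorem J_mulVec {m : ℕ} (v : Fin m ⊕ Fin m → F2) : Matrix.J (Fin m) F2 *ᵥ v = Sum.elim (fun i => v (Sum.inr i)) fun i => v (Sum.inl i) := by
  rw [Matrix.J, Matrix.fromBlocks_mulVec, Matrix.zero_mulVec, Matrix.zero_mulVec, Matrix.neg_mulVec, Matrix.one_mulVec,
    Matrix.one_mulVec, zero_add, add_zero, neg_self']
  rfl

theorem mem_of_spOk {m T : ℕ} (h : spOk m T = true) : mt m T ∈ Matrix.symplecticGroup (Fin m) F2 := by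
  rw [spOk, force_eq, List.all_eq_true] at h
  rw [SymplecticGroup.mem_iff']
  ext i j
  have e := of_decide_eq_true (List.all_eq_true.1 (h _ (List.mem_range.2 (ix_lt i))) _ (List.mem_range.2 (ix_lt j)))
  rw [J_ix, ← e, Matrix.mul_assoc, Matrix.mul_apply, Fintype.sum_sum_type, frm, Finset.sum_range, ← Finset.sum_add_distrib]
  refine Finset.sum_congr rfl fun k _ => ?_
  have e1 : ∀ l, (Matrix.J (Fin m) F2 * mt m T) l j = (Matrix.J (Fin m) F2 *ᵥ fun t => mt m T t j) l := fun _ => rfl
  rw [e1, e1, J_mulVec, add_comm]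
  rfl

open Classical in
/-- the element with a given table -/
noncomputable def spE (m T : ℕ) : Sp m := if h : mt m T ∈ Matrix.symplecticGroup (Fin m) F2 then ⟨_, h⟩ else 1

theorem rhoSp_spE {m T : ℕ} (h : spOk m T = true) : rhoSp m (spE m T) = lin (m + m) T := by
  rw [spE, dif_pos (mem_of_spOk h), rhoSp_apply, rho0_mt]

/-- the letters -/
noncomputable def sg (m : ℕ) (G : List (List (ℕ × ℕ))) (j : ℕ) : Sp m := spE m (evW (m + m) G [j])

theorem nat0_sp {m : ℕ} {G : List (List (ℕ × ℕ))} (h : wfG (m + m) G = true)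
    (h1 : ((List.range G.length).all fun j => spOk m (evW (m + m) G [j])) = true) : Nat0 (m + m) G (sg m G) (rhoSp m) :=
  ⟨h, rhoSp_inj m, fun j hj => by
    rw [sg, rhoSp_spE (List.all_eq_true.1 h1 j (List.mem_range.2 hj)), lin_evW h, wd_single]⟩

/-- the table is the transvection of `v` -/
noncomputable def tvOk (m T v : ℕ) : Bool :=
  force T fun T => (List.range (m + m)).all fun l =>
    Nat.beq (row (m + m) T l) (Nat.xor (2 ^ l) (cond (tb v (if l < m then m + l else l - m)) v 0))

theorem mt_of_tvOk {m T v : ℕ} (h : tvOk m T v = true) : mt m T = Cfsg.sympTransvection m (fun i => bt v (ix m i)) 1 := by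
  rw [tvOk, force_eq, List.all_eq_true] at h
  ext k l
  have e := congrArg (bt · (ix m k)) (Nat.eq_of_beq_eq_true (h _ (List.mem_range.2 (ix_lt l))))
  simp only [bt_row, if_pos (ix_lt k)] at e
  have e1 : ∀ a b : ℕ, Nat.xor a b = a ^^^ b := fun _ _ => rfl
  rw [e1, bt_xor, bt_two_pow, tb_eq] at e
  rw [mt, Matrix.of_apply, e, Cfsg.sympTransvection, one_smul, Matrix.add_apply, Matrix.vecMulVec_apply, J_mulVec,
    Matrix.one_apply]
  have e2 : (ix m l = ix m k) ↔ k = l := by
    rw [ix_eq, ix_eq, ← Fin.ext_iff, Equiv.apply_eq_iff_eq, eq_comm]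
  have e3 : Sum.elim (fun i => bt v (ix m (Sum.inr i))) (fun i => bt v (ix m (Sum.inl i))) l =
      bt v (if ix m l < m then m + ix m l else ix m l - m) := by
    rcases l with l | l
    · rw [if_pos (show ix m (Sum.inl l) < m from l.2)]; rfl
    · rw [if_neg (show ¬ (ix m (Sum.inr l) < m) from fun h : m + l < m => by omega)]
      exact congrArg (bt v) (Nat.add_sub_cancel_left ..).symm
  rw [if_congr e2 rfl rfl, e3]
  cases e4 : v.testBit (if ix m l < m then m + ix m l else ix m l - m) with
  | false => rw [bt_false e4, mul_zero, cond_false, bt_zero]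
  | true => rw [bt_true e4, mul_one, cond_true]

theorem exists_bits {m : ℕ} (w : Fin m ⊕ Fin m → F2) : ∃ v < 2 ^ (m + m), w = fun i => bt v (ix m i) := by
  refine ⟨Nat.ofBits fun k : Fin (m + m) => decide (w (finSumFinEquiv.symm k) = 1), Nat.ofBits_lt_two_pow _, funext fun i => ?_⟩
  rw [bt, ix_eq, Nat.testBit_ofBits_lt _ _ (Fin.is_lt _), Fin.eta, Equiv.symm_apply_apply]
  rcases f2_cases (w i) with h | h <;> rw [h] <;> rfl

/-- the letters generate the symplectic group -/
theorem gen_sp {m : ℕ} {G : List (List (ℕ × ℕ))} (h : Nat0 (m + m) G (sg m G) (rhoSp m)) {tw : List (List ℕ)}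
    (h1 : ((List.range (2 ^ (m + m))).all fun v => inR G.length (tw.getD v []) && tvOk m (evW (m + m) G (tw.getD v [])) v) = true)
    {K : Subgroup (Sp m)} (hK : ∀ j < G.length, sg m G j ∈ K) : K = ⊤ := by
  rw [eq_top_iff, ← S0765.result m, Subgroup.closure_le]
  rintro A ⟨w, c, hA⟩
  rcases f2_cases c with rfl | rfl
  · have : A = 1 := Subtype.ext (by rw [hA, Cfsg.sympTransvection, zero_smul, add_zero]; rfl)
    rw [this]; exact K.one_mem
  · obtain ⟨v, hv, rfl⟩ := exists_bits w
    have e := List.all_eq_true.1 h1 v (List.mem_range.2 hv)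
    rw [Bool.and_eq_true] at e
    have : A = pw (sg m G) (tw.getD v []) := by
      apply h.inj
      rw [h.wd (inR_lt e.1), ← lin_evW h.wf, ← rho0_mt, mt_of_tvOk e.2, rhoSp_apply, hA]
    rw [this]
    exact pw_mem hK (inR_lt e.1)

end Cfsg.Agent.E82.Mach
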