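import Cfsg.Agent.E82.Mach.C3Chk
import Cfsg.Agent.E82.Mach.Soc
import Cfsg.Agent.E82.Mach.Sp
import Cfsg.Agent.E82.Mach.E2
import Cfsg.Agent.E82.Fr.A8
import Cfsg.Agent.E82.Small

/-!
# S3369 : the row `Sp₆(2)` (helper38)

* `c3_fix` : twelve elements of `E₈(2)` with the relations of the root elements of `Sp₆(2)` fix a vector;
* `rowSp6`.
-/

set_option autoImplicit false
set_option maxRecDepth 100000
set_option maxHeartbeats 400000

namespace Cfsg.Agent.E82.Mach.C3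

open Module
open Cfsg.Agent.H939.L64 (E2 L2 LK rE up)
open Cfsg.Agent.E8A (act)
open Cfsg.Agent.E82.Fr (Trip lemmaA8)

theorem sum8 (f : ℕ → ℕ) : ∑ J ∈ Finset.range 8, f J = f 0 + f 1 + f 2 + f 3 + f 4 + f 5 + f 6 + f 7 := by
  simp only [Finset.sum_range_succ, Finset.sum_range_zero, zero_add]

theorem arith {n : ℕ → ℕ} {c d z t g : ℕ} (hc : c = 248 ∨ c = 134 ∨ c = 92 ∨ c = 86 ∨ c = 80)
    (hd : d = 248 ∨ d = 134 ∨ d = 92 ∨ d = 86 ∨ d = 80) (hq : qe d + qe d = 2 * (qe c + qe c))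
    (hz : z = 248 ∨ z = 86 ∧ (t = 28 ∨ t = 48 ∨ t = 34 ∨ t = 30))
    (e0 : c = n 0 * 1 + n 1 * 4 + n 2 * 6 + n 3 * 24 + n 4 * 0 + n 5 * 8 + n 6 * 32 + n 7 * 0)
    (e3 : d = n 0 * 1 + n 1 * 2 + n 2 * 4 + n 3 * 20 + n 4 * 4 + n 5 * 16 + n 6 * 36 + n 7 * 0)
    (e9 : z = n 0 * 1 + n 1 * 0 + n 2 * 8 + n 3 * 16 + n 4 * 2 + n 5 * 18 + n 6 * 34 + n 7 * 0)
    (e10 : t = n 0 * 1 + n 1 * 0 + n 2 * 2 + n 3 * 6 + n 4 * 0 + n 5 * 6 + n 6 * 12 + n 7 * 0)
    (e11 : g = n 0 * 1 + n 1 * 0 + n 2 * 2 + n 3 * 10 + n 4 * 2 + n 5 * 6 + n 6 * 16 + n 7 * 0)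
    (e13 : 248 = n 0 * 1 + n 1 * 6 + n 2 * 14 + n 3 * 64 + n 4 * 8 + n 5 * 48 + n 6 * 112 + n 7 * 0)
    (hp : g ≤ n 0 * 0 + n 1 * 1 + n 2 * 2 + n 3 * 10 + n 4 * 2 + n 5 * 7 + n 6 * 16 + n 7 * 0) : c = 80 ∧ d = 92 := by
  rcases hz with rfl | ⟨rfl, ht⟩
  · omega
  · rcases hc with rfl | rfl | rfl | rfl | rfl <;> rcases hd with rfl | rfl | rfl | rfl | rfl <;>
      first
      | exact absurd hq (by decide)
      | exact ⟨rfl, rfl⟩
      | (rcases ht with rfl | rfl | rfl | rfl <;> omega)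

theorem cf3 {x : E2} (h : x ^ 3 = 1) : cf x = 248 ∨ cf x = 134 ∨ cf x = 92 ∨ cf x = 86 ∨ cf x = 80 := by
  by_cases e : x = 1
  · rw [e]; exact Or.inl fd_one
  · exact Or.inr (fd3 h e)

/-- the word of a class -/
def cw (k : ℕ) : List ℕ := (C.cl.getD k ([], 1)).1

/-- the index of the product -/
def ip (i j : Fin 3) : ℕ := 2 * (i + j) + 1

/-- a plane which is fixed by the letter -/
def pl (j : ℕ) : Fin 3 := ([2, 0, 0, 1, 0, 1, 0, 2, 1, 2, 0, 0] : List (Fin 3)).getD j 0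

/-- the relations of the elements of order three and the transvections -/
def relOk (ok : List ℕ → List ℕ → Bool) : Bool :=
  ((List.finRange 3).all fun i => ok (rw.getD i [] ++ rw.getD i []) [] &&
    ok (rw.getD i [] ++ (cw i ++ (rw.getD i [] ++ cw i))) [] &&
    (List.finRange 3).all fun j => ok (cw i ++ cw j) (cw j ++ cw i) &&
      (j == i || ok (rw.getD i [] ++ cw j) (cw j ++ rw.getD i [])) &&
      (!(decide (i < j)) || (ok (cw (ip i j)) (cw i ++ cw j) && ok (cw (ip i j + 1) ++ cw j) (cw i)))) &&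
  (List.range 12).all fun j => ok ([j] ++ rw.getD (pl j) []) (rw.getD (pl j) [] ++ [j]) && ok ([j] ++ cw (pl j)) (cw (pl j) ++ [j])

/-- all checks that depend on the oracle -/
noncomputable def allOk (ok : List ℕ → List ℕ → Bool) : Bool :=
  exOk ok ty ex && genOk ok 12 C ws && C.chk ok && relOk ok

theorem all_ok : allOk (okG 6 G1) = true := by
  rw [allOk, ex_ok, gen_ok, chk_ok]
  decide +kernel

theorem inv_of {G : Type} [Group G] {r c : G} (h : r * r = 1) (e : r * (c * (r * c)) = 1) : r * c * r⁻¹ = c⁻¹ := by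
  rw [inv_eq_of_mul_eq_one_right h, eq_inv_iff_mul_eq_one, mul_assoc, mul_assoc]
  exact e

theorem opE_id (x : ℕ → E2) {j : ℕ} (h : j < 12) (v : L2) : opE (MonoidHom.id E2) x 12 j v = act (x j) v := by
  rw [opE_apply _ _ h, MonoidHom.id_apply]

theorem cf_id (x : ℕ → E2) {w : List ℕ} (hw : ∀ j ∈ w, j < 12) :
    finrank F2 (Fx (wd (opE (MonoidHom.id E2) x 12) w)) = cf (pw x w) := by
  rw [cf_wd _ _ hw, MonoidHom.id_apply]

/-- **the root elements fix a vector** -/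
theorem c3_fix {ok : List ℕ → List ℕ → Bool} {x : ℕ → E2}
    (hok : ∀ w w', ok w w' = true → inR 12 w = true ∧ inR 12 w' = true ∧ pw x w = pw x w') (h : allOk ok = true) :
    ∃ y : LK, y ≠ 0 ∧ ∀ j < 12, rE (x j) y = y := by
  simp only [allOk, relOk, Bool.and_eq_true, List.all_eq_true, List.mem_finRange, List.mem_range, forall_const, Bool.or_eq_true,
    beq_iff_eq, Bool.not_eq_true', decide_eq_false_iff_not] at h
  obtain ⟨⟨⟨h1, h2⟩, h3⟩, h4, h5⟩ := h
  have ha : Good ok 12 (opE (MonoidHom.id E2) x 12) := by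
    refine ⟨fun w w' e => ?_, fun j hj => if_neg (not_lt.2 hj)⟩
    obtain ⟨e1, e2, e3⟩ := hok w w' e
    rw [opE, wd_opR _ _ (inR_lt e1), wd_opR _ _ (inR_lt e2), e3]
  have hT := tab_of h1 (C := C) (d := 248) (rows := rows) (zs := zs) fun J hJ => by
    have h : J < 8 := hJ
    interval_cases J
    exacts [ent0, ent1, ent2, ent3, ent4, ent5, ent6, ent7]
  obtain ⟨n, hn, hz⟩ := sol h3 hT 248 L2 _ finrank_L2 le_rfl ha
  rcases press h2 ha with ⟨v, hv, hx⟩ | hp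
  · refine ⟨up v, up_ne_zero hv, fun j hj => ?_⟩
    rw [← up_act]
    exact congrArg up ((opE_id x hj v).symm.trans (hx j hj))
  have hR : C.inR 12 = true := by decide +kernel
  have e : ∀ k, cf (pw x (cw k)) = _ := fun k =>
    ((cf_id x (C.cl_lt hR k)).symm.trans (hn k)).trans (sum8 _)
  have hm : ∀ a b c : List ℕ, ok c (a ++ b) = true → pw x c = pw x a * pw x b := fun a b c e => by
    rw [(hok _ _ e).2.2, pw_append]
  have hc : ∀ a b : List ℕ, ok (a ++ b) (b ++ a) = true → Commute (pw x a) (pw x b) := fun a b e => by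
    have := hm _ _ _ e
    rwa [pw_append] at this
  have ho : ∀ k < 13, pw x (cw k) ^ (C.cl.getD k ([], 1)).2 = 1 := fun k hk => by
    have := List.all_eq_true.1 h3 _ (List.getElem_mem (show k < C.cl.length from hk))
    rw [Bool.and_eq_true, ← List.getD_eq_getElem _ ([], 1)] at this
    rw [← pw_wpow, cw, (hok _ _ this.2).2.2, pw_nil]
  have hmul : ∀ i j : Fin 3, i < j → pw x (cw (ip i j)) = pw x (cw i) * pw x (cw j) := fun i j hij =>
    hm _ _ _ (((h4 i).2 j).2.resolve_left (not_not.2 hij)).1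
  have hdiv : ∀ i j : Fin 3, i < j → pw x (cw (ip i j + 1)) = pw x (cw i) * (pw x (cw j))⁻¹ := fun i j hij => by
    rw [eq_mul_inv_iff_mul_eq, ← pw_append, (hok _ _ (((h4 i).2 j).2.resolve_left (not_not.2 hij)).2).2.2]
  have c1 : ∀ i : Fin 3, cf (pw x (cw i)) = cf (pw x (cw 0)) := fun i => by
    fin_cases i
    · rfl
    · exact (e 1).trans (e 0).symm
    · exact (e 2).trans (e 0).symm
  have c2 : ∀ k, 3 ≤ k → k < 9 → cf (pw x (cw k)) = cf (pw x (cw 3)) := fun k k1 k2 => by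
    interval_cases k
    · rfl
    · exact (e 4).trans (e 3).symm
    · exact (e 5).trans (e 3).symm
    · exact (e 6).trans (e 3).symm
    · exact (e 7).trans (e 3).symm
    · exact (e 8).trans (e 3).symm
  have hq := par (ho 0 (by decide)) (ho 1 (by decide)) (hc _ _ ((h4 0).2 1).1.1)
  have m01 : pw x (cw 3) = pw x (cw 0) * pw x (cw 1) := hmul 0 1 (by decide)
  have d01 : pw x (cw 4) = pw x (cw 0) * (pw x (cw 1))⁻¹ := hdiv 0 1 (by decide)
  rw [← m01, ← d01, c2 4 (by decide) (by decide), show cf (pw x (cw 1)) = cf (pw x (cw 0)) from c1 1] at hq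
  have h9 : cf (pw x (cw 9)) = 248 ∨ cf (pw x (cw 9)) = 86 ∧ (cf (pw x (cw 10)) = 28 ∨ cf (pw x (cw 10)) = 48 ∨
      cf (pw x (cw 10)) = 34 ∨ cf (pw x (cw 10)) = 30) := by
    rw [show cw 9 = wpow (cw 10) 3 from rfl, pw_wpow]
    by_cases e9 : pw x (cw 10) ^ 3 = 1
    · rw [e9]; exact Or.inl fd_one
    · exact Or.inr (fd9 (ho 10 (by decide)) e9)
  have e13 := e 13
  rw [show cw 13 = [] from rfl, pw_nil, fd_one] at e13
  rw [cf_id x (inR_lt (by decide : inR 12 C.g = true))] at hp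
  obtain ⟨a1, a2⟩ := arith (cf3 (ho 0 (by decide))) (cf3 (ho 3 (by decide))) hq h9 (e 0) (e 3) (e 9) (e 10) (e 11) e13
    (hp.trans (hz.trans (sum8 _).le))
  have hi : ∀ i j : Fin 3, i < j → 3 ≤ ip i j ∧ ip i j + 1 < 9 := by decide
  have hr2 : ∀ i : Fin 3, pw x (rw.getD i []) * pw x (rw.getD i []) = 1 := fun i => by
    rw [← pw_append, (hok _ _ (h4 i).1.1).2.2, pw_nil]
  have t1 : ∀ i : Fin 3, pw x (cw i) ^ 3 = 1 := fun i => by
    have e1 : (C.cl.getD i ([], 1)).2 = 3 := by revert i; decide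
    have e2 := ho i (lt_trans i.2 (by decide))
    rwa [e1] at e2
  have t2 : ∀ i j : Fin 3, Commute (pw x (cw i)) (pw x (cw j)) := fun i j => hc _ _ ((h4 i).2 j).1.1
  have t3 : ∀ i : Fin 3, cf (pw x (cw i)) = 80 := fun i => (c1 i).trans a1
  have t4 : ∀ i j : Fin 3, i < j → cf (pw x (cw i) * pw x (cw j)) = 92 := fun i j hij => by
    rw [← hmul i j hij, c2 _ (hi i j hij).1 (by have := (hi i j hij).2; omega), a2]
  have t5 : ∀ i j : Fin 3, i < j → cf (pw x (cw i) * (pw x (cw j))⁻¹) = 92 := fun i j hij => by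
    rw [← hdiv i j hij, c2 _ (by have := (hi i j hij).1; omega) (hi i j hij).2, a2]
  have t6 : ∀ i : Fin 3, pw x (rw.getD i []) * pw x (cw i) * (pw x (rw.getD i []))⁻¹ = (pw x (cw i))⁻¹ := fun i => by
    have e1 := (hok _ _ (h4 i).1.2).2.2
    rw [pw_append, pw_append, pw_append, pw_nil] at e1
    exact inv_of (G := E2) (hr2 i) e1
  have t7 : ∀ i j : Fin 3, j ≠ i → Commute (pw x (rw.getD i [])) (pw x (cw j)) := fun i j hij =>
    hc _ _ (((h4 i).2 j).1.2.resolve_left hij)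
  have t8 : Trip (fun i : Fin 3 => pw x (cw i)) 80 92 := ⟨t1, t2, t3, t4, t5⟩
  obtain ⟨y, hy, -, hf⟩ := lemmaA8 (r := fun i : Fin 3 => pw x (rw.getD i [])) t8 hr2 t6 t7
  refine ⟨y, hy, fun j hj => hf (pl j) _ ?_ (Or.inl ?_)⟩
  · have := hc _ _ (h5 j hj).1
    rwa [pw_single] at this
  · have := hc _ _ (h5 j hj).2
    rw [pw_single] at this
    rw [this.eq, mul_inv_cancel_right]

theorem nat0 : Nat0 6 G1 (sg 3 G1) (rhoSp 3) := nat0_sp (m := 3) (by decide +kernel) (by decide +kernel)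

theorem gen {K : Subgroup (Sp 3)} (hK : ∀ j < 12, sg 3 G1 j ∈ K) : K = ⊤ :=
  gen_sp (m := 3) nat0 (tw := tw) (by decide +kernel) hK

/-- `Sp₆(2)` fixes a vector -/
theorem fixd (f : Sp6 →* E2) : Fixd f := by
  obtain ⟨y, hy, h⟩ := c3_fix (x := fun j => f (sg 3 G1 j)) (fun w w' e => by
    have e1 := nat0.pw_eq e
    rw [okG, Bool.and_eq_true, Bool.and_eq_true] at e
    exact ⟨e.1.1, e.1.2, by rw [← map_pw, ← map_pw, e1]⟩) all_ok
  have h1 : (stabV y).comap f = ⊤ := gen h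
  exact ⟨y, hy, fun s => (h1 ▸ Subgroup.mem_top s : s ∈ (stabV y).comap f)⟩

/-- **the row `Sp₆(2)`** -/
theorem rowSp6 : ROW Sp6 := fun f _ hS => hS.end_fix small_Sp6 out2_Sp6 (fixd f)

end Cfsg.Agent.E82.Mach.C3
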