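import Cfsg.Agent.E82.Mach.Bits

/-!
# The pressure machine: ranks computed by the kernel (helper38)

* `rkF m f` : the rank of the numbers `f 0, …, f (m-1)`;
* `fxRk`, `zRk` : the fixed space of a word, the solutions of the Fox equations;
* `spinOk` : a vector generates the space; `bigRk` : the rank of a product of matrix coefficients.
-/

set_option autoImplicit false

namespace Cfsg.Agent.E82.Mach

open Module

/-- the span of a list of numbers -/
def spL (l : List ℕ) : Submodule F2 (ℕ → F2) := Submodule.span F2 (bw '' {x | x ∈ l})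

theorem spL_nil : spL [] = ⊥ := by
  rw [spL, Submodule.span_eq_bot]
  rintro _ ⟨x, hx, -⟩
  exact absurd hx List.not_mem_nil

theorem spL_cons (v : ℕ) (l : List ℕ) : spL (v :: l) = Submodule.span F2 {bw v} ⊔ spL l := by
  have e : {x | x ∈ v :: l} = insert v {x | x ∈ l} := Set.ext fun _ => List.mem_cons
  rw [spL, e, Set.image_insert_eq, Submodule.span_insert]; rfl

theorem spL_fin (l : List ℕ) : Module.Finite F2 (spL l) := Module.Finite.span_of_finite F2 ((List.finite_toSet l).image bw)

theorem spL_le {l : List ℕ} {W : Submodule F2 (ℕ → F2)} (h : ∀ x ∈ l, bw x ∈ W) : spL l ≤ W := by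
  rw [spL, Submodule.span_le]
  rintro _ ⟨x, hx, rfl⟩
  exact h x hx

theorem mem_spL {l : List ℕ} {x : ℕ} (h : x ∈ l) : bw x ∈ spL l := Submodule.subset_span ⟨x, h, rfl⟩

/-- clear the bit `p` with the number `v` -/
noncomputable def elim (p v : ℕ) (k : List ℕ → ℕ) (l : List ℕ) : List ℕ → ℕ :=
  List.rec (motive := fun _ => List ℕ → ℕ) k
    (fun w _ ih acc => Bool.rec (ih (w :: acc))
      (Nat.rec (motive := fun _ => ℕ) (ih acc) (fun t _ => ih (Nat.succ t :: acc)) (Nat.xor w v)) (tb w p)) l

theorem elim_spec {p v : ℕ} (hv : bt v p = 1) (k : List ℕ → ℕ) (l acc : List ℕ) (ha : ∀ x ∈ acc, bt x p = 0) :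
    ∃ l', elim p v k l acc = k l' ∧ l'.length ≤ l.length + acc.length ∧ (∀ x ∈ l', bt x p = 0) ∧
      Submodule.span F2 {bw v} ⊔ spL l' = Submodule.span F2 {bw v} ⊔ spL l ⊔ spL acc := by
  induction l generalizing acc with
  | nil => exact ⟨acc, rfl, by rw [List.length_nil, zero_add], ha, by rw [spL_nil, sup_bot_eq]⟩
  | cons w l ih =>
    have e0 : elim p v k (w :: l) acc = Bool.rec (motive := fun _ => ℕ) (elim p v k l (w :: acc))
      (Nat.rec (motive := fun _ => ℕ) (elim p v k l acc) (fun t _ => elim p v k l (Nat.succ t :: acc)) (w ^^^ v))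
        (tb w p) := rfl
    rw [e0, tb_eq]
    cases e : w.testBit p with
    | false =>
      obtain ⟨l', h1, h2, h3, h4⟩ := ih (w :: acc) fun x hx => by
        rcases List.mem_cons.1 hx with rfl | hx
        · exact bt_false e
        · exact ha x hx
      refine ⟨l', h1, by rw [List.length_cons] at h2 ⊢; omega, h3, ?_⟩
      rw [h4, spL_cons, spL_cons]
      ac_rfl
    | true =>
      have hw : Submodule.span F2 {bw v} ⊔ Submodule.span F2 {bw (w ^^^ v)} =
          Submodule.span F2 {bw v} ⊔ Submodule.span F2 {bw w} := by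
        have hv1 : ∀ S : Submodule F2 (ℕ → F2), bw v ∈ Submodule.span F2 {bw v} ⊔ S := fun S =>
          Submodule.mem_sup_left (Submodule.mem_span_singleton_self _)
        refine le_antisymm (sup_le le_sup_left ?_) (sup_le le_sup_left ?_)
        · rw [Submodule.span_singleton_le_iff_mem, bw_xor]
          exact add_mem (Submodule.mem_sup_right (Submodule.mem_span_singleton_self _)) (hv1 _)
        · rw [Submodule.span_singleton_le_iff_mem]
          have : bw w = bw (w ^^^ v) + bw v := by rw [bw_xor, add_assoc, add_self', add_zero]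
          rw [this]
          exact add_mem (Submodule.mem_sup_right (Submodule.mem_span_singleton_self _)) (hv1 _)
      cases e1 : w ^^^ v with
      | zero =>
        obtain ⟨l', h1, h2, h3, h4⟩ := ih acc ha
        refine ⟨l', h1, by rw [List.length_cons]; omega, h3, ?_⟩
        rw [e1, bw_zero, Submodule.span_zero_singleton, sup_bot_eq] at hw
        rw [h4, spL_cons, ← sup_assoc, ← hw]
      | succ t =>
        obtain ⟨l', h1, h2, h3, h4⟩ := ih ((t + 1) :: acc) fun x hx => by
          rcases List.mem_cons.1 hx with rfl | hx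
          · rw [← e1, bt_xor, bt_true e, hv]; decide
          · exact ha x hx
        refine ⟨l', h1, by rw [List.length_cons] at h2 ⊢; omega, h3, ?_⟩
        rw [h4, spL_cons, spL_cons, ← sup_assoc _ (Submodule.span F2 {bw w}), ← hw, e1]
        ac_rfl

/-- the highest bit, by bisection -/
noncomputable def hib (k : ℕ) : ℕ → ℕ → ℕ :=
  Nat.rec (motive := fun _ => ℕ → ℕ → ℕ) (fun _ p => p)
    (fun i ih x p => Nat.rec (motive := fun _ => ℕ) (ih x p) (fun t _ => ih (Nat.succ t) (Nat.add p (Nat.pow 2 i)))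
      (Nat.shiftRight x (Nat.pow 2 i))) k

/-- the position of a bit that is set -/
noncomputable def piv (v : ℕ) : ℕ := force (hib 18 v 0) fun p => Bool.rec (Nat.log2 v) p (tb v p)

theorem bt_piv {v : ℕ} (h : v ≠ 0) : bt v (piv v) = 1 := by
  rw [piv, force_eq, tb_eq]
  cases e : v.testBit (hib 18 v 0) with
  | false => exact bt_true (Nat.testBit_log2 h)
  | true => exact bt_true e

/-- the rank, by elimination -/
noncomputable def rk (f : ℕ) : List ℕ → ℕ → ℕ :=
  Nat.rec (motive := fun _ => List ℕ → ℕ → ℕ) (fun _ c => c)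
    (fun _ ih l c => List.rec (motive := fun _ => ℕ) c
      (fun v l' _ => Nat.rec (motive := fun _ => ℕ) (ih l' c)
        (fun _ _ => force (piv v) fun p => elim p v (fun l'' => ih l'' (Nat.succ c)) l' []) v) l) f

theorem rk_eq (f : ℕ) (l : List ℕ) (c : ℕ) (h : l.length ≤ f) : rk f l c = c + finrank F2 (spL l) := by
  induction f generalizing l c with
  | zero =>
    rw [List.length_eq_zero_iff.1 (Nat.le_zero.1 h), spL_nil, finrank_bot]; rfl
  | succ f ih =>
    cases l with
    | nil => rw [spL_nil, finrank_bot]; rfl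
    | cons v l =>
      rw [List.length_cons] at h
      cases v with
      | zero =>
        rw [spL_cons, bw_zero, Submodule.span_zero_singleton, bot_sup_eq, ← ih l c (by omega)]; rfl
      | succ t =>
        have e0 : rk (f + 1) ((t + 1) :: l) c =
          force (piv (t + 1)) fun p => elim p (t + 1) (fun l'' => rk f l'' (c + 1)) l [] := rfl
        have hv : bt (t + 1) (piv (t + 1)) = 1 := bt_piv (Nat.succ_ne_zero t)
        obtain ⟨l', h1, h2, h3, h4⟩ := elim_spec hv (fun l'' => rk f l'' (c + 1)) l [] fun _ hx => absurd hx List.not_mem_nil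
        rw [List.length_nil] at h2
        rw [spL_nil, sup_bot_eq] at h4
        rw [e0, force_eq, h1, ih l' _ (by omega), spL_cons, ← h4]
        have hn : bw (t + 1) ∉ spL l' := fun hm => by
          have : spL l' ≤ LinearMap.ker (LinearMap.proj (piv (t + 1)) : (ℕ → F2) →ₗ[F2] F2) := spL_le fun x hx => h3 x hx
          exact one_ne_zero (hv.symm.trans (this hm))
        have h0 : bw (t + 1) ≠ 0 := fun e => hn (e ▸ zero_mem _)
        have := spL_fin l'
        have e := Submodule.finrank_sup_add_finrank_inf_eq (Submodule.span F2 {bw (t + 1)}) (spL l')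
        rw [finrank_span_singleton h0, ((Submodule.disjoint_span_singleton' h0).2 hn).symm.eq_bot, finrank_bot] at e
        omega

/-- evaluate the numbers `f i` first -/
noncomputable def mapK (f : ℕ → ℕ) (k : List ℕ → ℕ) (m : ℕ) : List ℕ → ℕ :=
  Nat.rec (motive := fun _ => List ℕ → ℕ) k (fun i ih acc => force (f i) fun x => ih (x :: acc)) m

theorem mapK_eq (f : ℕ → ℕ) (k : List ℕ → ℕ) (m : ℕ) (acc : List ℕ) : mapK f k m acc = k ((List.range m).map f ++ acc) := by
  induction m generalizing acc with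
  | zero => rfl
  | succ m ih =>
    rw [List.range_succ, List.map_append, List.append_assoc, ← ih]
    exact force_eq (f m) fun x => mapK f k m (x :: acc)

/-- the shift of a sequence -/
def sh (n : ℕ) : (ℕ → F2) →ₗ[F2] (ℕ → F2) := LinearMap.pi fun t => if n ≤ t then LinearMap.proj (t - n) else 0

theorem sh_bw (n b : ℕ) : sh n (bw b) = bw (b <<< n) := by
  funext t
  rw [sh, LinearMap.pi_apply, bw, bt_shiftLeft]
  split_ifs <;> rfl

/-- the sum of the blocks of 64 bits -/
noncomputable def fold (j : ℕ) : ℕ → ℕ :=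
  Nat.rec (motive := fun _ => ℕ → ℕ) (fun x => x)
    (fun i ih x => force (Nat.xor x (Nat.shiftRight x (Nat.shiftLeft 64 i))) ih) j

theorem fold_lin (j : ℕ) : ∃ A : (ℕ → F2) →ₗ[F2] (ℕ → F2), ∀ x, A (bw x) = bw (fold j x) := by
  induction j with
  | zero => exact ⟨LinearMap.id, fun _ => rfl⟩
  | succ j ih =>
    obtain ⟨A, hA⟩ := ih
    let B : (ℕ → F2) →ₗ[F2] (ℕ → F2) := LinearMap.pi fun t => LinearMap.proj (64 <<< j + t)
    refine ⟨A ∘ₗ (LinearMap.id + B), fun x => ?_⟩
    have e : fold (j + 1) x = fold j (x ^^^ (x >>> (64 <<< j))) := force_eq _ (fold j)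
    rw [e, ← hA, bw_xor]
    exact congrArg (fun y => A (bw x + y)) (funext fun t => (bt_shiftRight x _ t).symm)

/-- the low bits depend on all bits (this is good for the hash tables of the kernel) -/
noncomputable def salt (x : ℕ) : ℕ :=
  force x fun y => Nat.xor (Nat.shiftLeft y 64) (Nat.land (fold 8 y) (Nat.sub (Nat.pow 2 64) 1))

theorem salt_lin : ∃ A : (ℕ → F2) →ₗ[F2] (ℕ → F2), Function.Injective A ∧ ∀ x, A (bw x) = bw (salt x) := by
  obtain ⟨A, hA⟩ := fold_lin 8
  let B : (ℕ → F2) →ₗ[F2] (ℕ → F2) := LinearMap.pi fun t => if t < 64 then LinearMap.proj t else 0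
  refine ⟨sh 64 + B ∘ₗ A, (injective_iff_map_eq_zero _).2 fun f hf => funext fun t => ?_, fun x => ?_⟩
  · have := congrFun hf (64 + t)
    rw [LinearMap.add_apply, Pi.add_apply, sh, LinearMap.pi_apply, if_pos (Nat.le_add_right _ _), LinearMap.comp_apply,
      LinearMap.pi_apply, if_neg (by omega), LinearMap.zero_apply, add_zero, Nat.add_sub_cancel_left] at this
    exact this
  · have e : salt x = (x <<< 64) ^^^ (fold 8 x &&& (2 ^ 64 - 1)) := force_eq _ _
    rw [e, bw_xor, LinearMap.add_apply, sh_bw, LinearMap.comp_apply, hA]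
    refine congrArg _ (funext fun t => ?_)
    rw [LinearMap.pi_apply, bw, bt_and, bt_mask]
    split_ifs
    · exact (mul_one _).symm
    · exact (mul_zero _).symm

/-- the rank of `f 0, …, f (m-1)` -/
noncomputable def rkF (m : ℕ) (f : ℕ → ℕ) : ℕ := mapK (fun i => salt (f i)) (fun l => rk m l 0) m []

theorem rkF_eq (m : ℕ) (f : ℕ → ℕ) : rkF m f = finrank F2 (spL ((List.range m).map f)) := by
  obtain ⟨A, h1, h2⟩ := salt_lin
  have e : spL ((List.range m).map fun i => salt (f i)) = (spL ((List.range m).map f)).map A := by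
    refine le_antisymm (spL_le fun x hx => ?_) (Submodule.map_le_iff_le_comap.2 (spL_le fun x hx => ?_))
    · obtain ⟨i, hi, rfl⟩ := List.mem_map.1 hx
      exact ⟨_, mem_spL (List.mem_map.2 ⟨i, hi, rfl⟩), h2 _⟩
    · obtain ⟨i, hi, rfl⟩ := List.mem_map.1 hx
      rw [Submodule.mem_comap, h2]
      exact mem_spL (List.mem_map.2 ⟨i, hi, rfl⟩)
  rw [rkF, mapK_eq, List.append_nil, rk_eq _ _ _ (by rw [List.length_map, List.length_range]), zero_add, e]
  exact (LinearEquiv.finrank_eq (Submodule.equivMapOfInjective A h1 _)).symm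

theorem rkF_le {N : Type*} [AddCommGroup N] [Module F2 N] [FiniteDimensional F2 N] (Θ : N →ₗ[F2] (ℕ → F2)) {m : ℕ}
    {f : ℕ → ℕ} (h : ∀ a < m, ∃ y, Θ y = bw (f a)) : rkF m f ≤ finrank F2 N := by
  rw [rkF_eq]
  refine le_trans (Submodule.finrank_mono (spL_le fun x hx => ?_)) (LinearMap.finrank_range_le Θ)
  obtain ⟨a, ha, rfl⟩ := List.mem_map.1 hx
  exact h a (List.mem_range.1 ha)

theorem rkF_ker {n : ℕ} (A : X n →ₗ[F2] (ℕ → F2)) {f : ℕ → ℕ} (h : ∀ i : Fin n, A (Pi.single i 1) = bw (f i)) :
    rkF n f + finrank F2 (LinearMap.ker A) = n := by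
  have e : LinearMap.range A = spL ((List.range n).map f) := by
    refine le_antisymm ?_ (spL_le fun x hx => ?_)
    · rw [LinearMap.range_eq_map, ← (Pi.basisFun F2 (Fin n)).span_eq, Submodule.map_span_le]
      rintro _ ⟨i, rfl⟩
      rw [Pi.basisFun_apply, h]
      exact mem_spL (List.mem_map.2 ⟨i, List.mem_range.2 i.2, rfl⟩)
    · obtain ⟨a, ha, rfl⟩ := List.mem_map.1 hx
      exact ⟨_, h ⟨a, List.mem_range.1 ha⟩⟩
  rw [rkF_eq, ← e, LinearMap.finrank_range_add_finrank_ker, Module.finrank_fin_fun]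

/-- extension by zero -/
def ext0 (n : ℕ) : X n →ₗ[F2] (ℕ → F2) := LinearMap.pi (co n)

theorem ext0_bv {n a : ℕ} (h : Sm n a) : ext0 n (bv n a) = bw a := by
  funext t
  rw [ext0, LinearMap.pi_apply]
  by_cases ht : t < n
  · exact co_bv ht a
  · rw [co, dif_neg ht, bw, h t (not_lt.1 ht)]; rfl

theorem ext0_inj (n : ℕ) : Function.Injective (ext0 n) := by
  intro v w e
  funext i
  have := congrFun e i
  rw [ext0, LinearMap.pi_apply, LinearMap.pi_apply, co, dif_pos i.2] at this
  exact this

/-- the rank of `g - 1` -/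
noncomputable def fxRk (n : ℕ) (G : List (List (ℕ × ℕ))) (w : List ℕ) : ℕ :=
  force (Nat.xor (evW n G w) (idK n n)) fun T => rkF n (row n T)

theorem fxRk_eq {n : ℕ} {G : List (List (ℕ × ℕ))} (h : wfG n G = true) (w : List ℕ) :
    fxRk n G w + finrank F2 (Fx (wd (ops n G) w)) = n := by
  have e := rkF_ker (ext0 n ∘ₗ lin n (evW n G w ^^^ idK n n)) (f := row n (evW n G w ^^^ idK n n)) fun i => by
    rw [LinearMap.comp_apply, lin_single, ext0_bv (sm_row _ _ _)]
  have e1 : LinearMap.ker (ext0 n ∘ₗ lin n (evW n G w ^^^ idK n n)) = Fx (wd (ops n G) w) := by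
    ext v
    rw [LinearMap.ker_comp_of_ker_eq_bot _ (LinearMap.ker_eq_bot.2 (ext0_inj n)), lin_xor, lin_evW h, lin_idK,
      LinearMap.mem_ker, mem_Fx, LinearMap.add_apply, End.one_apply]
    exact ⟨eq_of_add_eq_zero', fun e => by rw [e, add_self']⟩
  rw [e1] at e
  rw [fxRk, force_eq]
  exact e

/-- the table of a Fox derivative -/
noncomputable def foxT (n : ℕ) (G : List (List (ℕ × ℕ))) (g h : List ℕ) (w : List Bool) : ℕ → ℕ → ℕ :=
  List.rec (motive := fun _ => ℕ → ℕ → ℕ) (fun _ F => F)
    (fun b _ ih P F => Bool.rec (force (mulW n G g P) fun P' => ih P' F)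
      (force (mulW n G h P) fun P' => force (Nat.xor F P) fun F' => ih P' F') b) w

theorem lin_foxT {n : ℕ} {G : List (List (ℕ × ℕ))} (hG : wfG n G = true) (g h : List ℕ) (w : List Bool) (P F : ℕ) :
    lin n (foxT n G g h w P F) = lin n F + lin n P * fox (wd (ops n G) g) (wd (ops n G) h) w := by
  induction w generalizing P F with
  | nil => exact ((congrArg _ (mul_zero _)).trans (add_zero _)).symm
  | cons b w ih =>
    cases b with
    | false =>
      rw [fox_false, ← mul_assoc, ← lin_mulW hG, ← ih]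
      exact congrArg _ (force_eq (mulW n G g P) fun P' => foxT n G g h w P' F)
    | true =>
      rw [fox_true, mul_add, mul_one, ← mul_assoc, ← lin_mulW hG, ← add_assoc, ← lin_xor, ← ih]
      exact congrArg _ ((force_eq (mulW n G h P) fun P' => force (F ^^^ P) fun F' => foxT n G g h w P' F').trans
        (force_eq (F ^^^ P) fun F' => foxT n G g h w (mulW n G h P) F'))

/-- evaluate the numbers `f x` first -/
noncomputable def lmapK {α : Type} (f : α → ℕ) (k : List ℕ → ℕ) (l : List α) : List ℕ → ℕ :=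
  List.rec (motive := fun _ => List ℕ → ℕ) k (fun x _ ih acc => force (f x) fun y => ih (y :: acc)) l

theorem lmapK_eq {α : Type} (f : α → ℕ) (k : List ℕ → ℕ) (l : List α) (acc : List ℕ) :
    lmapK f k l acc = k ((l.map f).reverse ++ acc) := by
  induction l generalizing acc with
  | nil => rfl
  | cons x l ih =>
    rw [List.map_cons, List.reverse_cons, List.append_assoc, ← ih]
    exact force_eq (f x) fun y => lmapK f k l (y :: acc)

/-- the rows of several tables, one after the other -/
noncomputable def cat (n : ℕ) (Ts : List ℕ) (i : ℕ) : ℕ :=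
  List.rec (motive := fun _ => ℕ) 0 (fun T _ ih => Nat.xor (row n T i) (Nat.shiftLeft ih n)) Ts

theorem cat_spec (n : ℕ) (Ts : List ℕ) : ∃ A : X n →ₗ[F2] (ℕ → F2), (∀ i : Fin n, A (Pi.single i 1) = bw (cat n Ts i)) ∧
    ∀ v, (∀ T ∈ Ts, lin n T v = 0) → A v = 0 := by
  induction Ts with
  | nil => exact ⟨0, fun _ => bw_zero.symm, fun _ _ => rfl⟩
  | cons T Ts ih =>
    obtain ⟨A, h1, h2⟩ := ih
    refine ⟨ext0 n ∘ₗ lin n T + sh n ∘ₗ A, fun i => ?_, fun v hv => ?_⟩
    · rw [LinearMap.add_apply, LinearMap.comp_apply, LinearMap.comp_apply, lin_single, ext0_bv (sm_row _ _ _), h1, sh_bw,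
        ← bw_xor]
      rfl
    · rw [LinearMap.add_apply, LinearMap.comp_apply, LinearMap.comp_apply, hv T List.mem_cons_self,
        h2 v fun T' hT => hv T' (List.mem_cons_of_mem _ hT), map_zero, map_zero, add_zero]

/-- the rank of the Fox equations -/
noncomputable def zRk (n : ℕ) (G : List (List (ℕ × ℕ))) (g h : List ℕ) (R : List (List Bool)) : ℕ :=
  force (idK n n) fun I => lmapK (fun w => foxT n G g h w I 0) (fun Ts => rkF n (cat n Ts)) R []

theorem zRk_le {n : ℕ} {G : List (List (ℕ × ℕ))} (hG : wfG n G = true) (g h : List ℕ) (R : List (List Bool)) :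
    zRk n G g h R + finrank F2 (Z0 (wd (ops n G) g) (wd (ops n G) h) R) ≤ n := by
  obtain ⟨A, h1, h2⟩ := cat_spec n ((R.map fun w => foxT n G g h w (idK n n) 0).reverse ++ [])
  have e := rkF_ker A h1
  have e1 : Z0 (wd (ops n G) g) (wd (ops n G) h) R ≤ LinearMap.ker A := fun v hv => h2 v fun T hT => by
    rw [List.append_nil, List.mem_reverse] at hT
    obtain ⟨w, hw, rfl⟩ := List.mem_map.1 hT
    rw [lin_foxT hG, lin_zero, lin_idK, zero_add, one_mul]
    exact hv w hw
  have e2 := Submodule.finrank_mono e1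
  rw [zRk, force_eq, lmapK_eq]
  omega

/-- the table of the vectors of a tree of words -/
noncomputable def build (s : ℕ) (G : List (List (ℕ × ℕ))) (prog : List (ℕ × ℕ)) : ℕ → ℕ → ℕ :=
  List.rec (motive := fun _ => ℕ → ℕ → ℕ) (fun _ V => V)
    (fun p _ ih k V => force (row s V (Nat.mod p.1 k)) fun x =>
      force (Nat.xor V (Nat.shiftLeft (actJ G p.2 x) (Nat.mul s k))) fun V' => force (Nat.succ k) fun k' => ih k' V') prog

/-- the words of a tree -/
noncomputable def wrds (prog : List (ℕ × ℕ)) : ℕ → (ℕ → List ℕ) → ℕ → List ℕ :=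
  List.rec (motive := fun _ => ℕ → (ℕ → List ℕ) → ℕ → List ℕ) (fun _ W => W)
    (fun p _ ih k W => ih (k + 1) (Function.update W k (p.2 :: W (p.1 % k)))) prog

theorem build_aux {s : ℕ} {G : List (List (ℕ × ℕ))} (hG : wfG s G = true) (x : X s) (prog : List (ℕ × ℕ)) (k V : ℕ)
    (W : ℕ → List ℕ) (hk : 0 < k) (h1 : ∀ b < k, bv s (row s V b) = wd (ops s G) (W b) x)
    (h2 : ∀ b, k ≤ b → bv s (row s V b) = 0) :
    ∀ b < k + prog.length, bv s (row s (build s G prog k V) b) = wd (ops s G) (wrds prog k W b) x := by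
  induction prog generalizing k V W with
  | nil => exact h1
  | cons p prog ih =>
    have e0 : build s G (p :: prog) k V = build s G prog (k + 1) (V ^^^ (actJ G p.2 (row s V (p.1 % k)) <<< (s * k))) := by
      show force (row s V (p.1 % k)) (fun x => force (V ^^^ (actJ G p.2 x <<< (s * k))) fun V' =>
        force (k + 1) fun k' => build s G prog k' V') = _
      rw [force_eq, force_eq, force_eq]
    have e1 : wrds (p :: prog) k W = wrds prog (k + 1) (Function.update W k (p.2 :: W (p.1 % k))) := rfl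
    obtain ⟨a1, a2⟩ := actJ_spec hG p.2 (sm_row s V (p.1 % k))
    intro b hb
    rw [e0, e1]
    refine ih (k + 1) _ _ (Nat.succ_pos k) (fun b hb => ?_) (fun b hb => ?_) b (by rw [List.length_cons] at hb; omega)
    · rw [bv_row_xor, bv_row_shift a1]
      by_cases e : b = k
      · rw [if_pos e, e, h2 k le_rfl, zero_add, Function.update_self, wd_cons_apply, a2, h1 _ (Nat.mod_lt _ hk)]
      · rw [if_neg e, add_zero, Function.update_of_ne e, h1 b (by omega)]
    · rw [bv_row_xor, bv_row_shift a1, if_neg (by omega), add_zero, h2 b (by omega)]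

theorem build_spec {s : ℕ} {G : List (List (ℕ × ℕ))} (hG : wfG s G = true) {x : ℕ} (hx : Sm s x) (prog : List (ℕ × ℕ))
    {b : ℕ} (hb : b ≤ prog.length) :
    bv s (row s (build s G prog 1 x) b) = wd (ops s G) (wrds prog 1 (fun _ => []) b) (bv s x) := by
  have e : ∀ b, bv s (row s x b) = if b = 0 then bv s x else 0 := fun b => bv_row_shift hx 0 b
  refine build_aux hG _ prog 1 x _ one_pos (fun b hb => ?_) (fun b hb => ?_) b (by omega)
  · rw [e, if_pos (by omega)]; rfl
  · rw [e, if_neg (by omega)]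

theorem sm_one {n : ℕ} (h : 0 < n) : Sm n 1 := sm_two_pow h

/-- the first basis vector generates the space -/
noncomputable def spinOk (n : ℕ) (G : List (List (ℕ × ℕ))) (prog : List (ℕ × ℕ)) : Bool :=
  Nat.beq n (Nat.succ prog.length) && Nat.beq (force (build n G prog 1 1) fun V => rkF n (row n V)) n

theorem spin_sound {n : ℕ} {G : List (List (ℕ × ℕ))} (hG : wfG n G = true) {prog : List (ℕ × ℕ)}
    (h : spinOk n G prog = true) {W : Submodule F2 (X n)} (hW : Inv (ops n G) W) (hx : bv n 1 ∈ W) : W = ⊤ := by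
  rw [spinOk, Bool.and_eq_true, force_eq] at h
  have h1 : n = prog.length + 1 := Nat.eq_of_beq_eq_true h.1
  have h2 := Nat.eq_of_beq_eq_true h.2
  have h3 := rkF_le (ext0 n ∘ₗ W.subtype) (m := n) (f := row n (build n G prog 1 1)) fun a ha => by
    have e := build_spec hG (sm_one (by omega)) prog (b := a) (by omega)
    refine ⟨⟨_, e ▸ hW.wd _ hx⟩, ?_⟩
    rw [LinearMap.comp_apply, Submodule.subtype_apply, ext0_bv (sm_row _ _ _)]
  apply Submodule.eq_top_of_finrank_eq
  have h4 := Submodule.finrank_le W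
  rw [Module.finrank_fin_fun] at h4 ⊢
  omega

theorem dspin_sound {n : ℕ} {G : List (List (ℕ × ℕ))} (hG : wfG n G = true) {prog : List (ℕ × ℕ)}
    (h : spinOk n (trG G) prog = true) {W : Submodule F2 (X n)} (hW : Inv (ops n G) W) (hx : ∀ v ∈ W, co n 0 v = 0) :
    W = ⊥ := by
  let W' : Submodule F2 (X n) :=
    { carrier := {c | ∀ v ∈ W, c ⬝ᵥ v = 0}
      zero_mem' := fun v _ => zero_dotProduct v
      add_mem' := fun {a b} ha hb v hv => by rw [add_dotProduct, ha v hv, hb v hv, add_zero]
      smul_mem' := fun c a ha v hv => by rw [smul_dotProduct, ha v hv, smul_zero] }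
  have h1 : W' = ⊤ := spin_sound (wfG_tr hG) h (fun j c hc v hv => by rw [ops_tr]; exact hc _ (hW j v hv))
    fun v hv => (co_eq_dot v).symm.trans (hx v hv)
  rw [eq_bot_iff]
  intro v hv
  rw [Submodule.mem_bot]
  funext i
  have : Pi.single i 1 ∈ W' := h1 ▸ Submodule.mem_top
  have := this v hv
  rw [single_one_dotProduct] at this
  exact this

/-- the products of a vector with all rows of a table -/
noncomputable def dotRow (V c s : ℕ) : ℕ :=
  Nat.rec (motive := fun _ => ℕ) 0 (fun i ih => Bool.rec ih (Nat.xor (Nat.shiftRight V i) ih) (tb c i)) s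

theorem bt_dotRow (V c s t : ℕ) : bt (dotRow V c s) t = ∑ i ∈ Finset.range s, bt c i * bt V (i + t) := by
  induction s with
  | zero => exact bt_zero t
  | succ s ih =>
    have e0 : dotRow V c (s + 1) = Bool.rec (motive := fun _ => ℕ) (dotRow V c s) ((V >>> s) ^^^ dotRow V c s) (tb c s) := rfl
    rw [e0, tb_eq, Finset.sum_range_succ]
    cases e : c.testBit s with
    | false => rw [bt_false e, zero_mul, add_zero]; exact ih
    | true => rw [bt_true e, one_mul, add_comm _ (bt V _), ← bt_shiftRight, ← ih, ← bt_xor]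

theorem bt_dotRow_slot (V c s b : ℕ) : bt (dotRow V c s) (s * b) = bv s c ⬝ᵥ bv s (row s V b) := by
  rw [bt_dotRow, dotProduct, Finset.sum_range]
  refine Finset.sum_congr rfl fun i _ => ?_
  rw [bv, bv, bt_row, if_pos i.2, add_comm]

/-- the first bits of the slots -/
noncomputable def rep (s B : ℕ) : ℕ → ℕ :=
  Nat.rec (motive := fun _ => ℕ → ℕ) (fun acc => acc) (fun b ih acc => force (Nat.xor acc (Nat.pow 2 (Nat.mul s b))) ih) B

theorem bt_rep (s B acc t : ℕ) (h : bt (rep s B acc) t ≠ bt acc t) : ∃ b < B, t = s * b := by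
  induction B generalizing acc with
  | zero => exact absurd rfl h
  | succ B ih =>
    have e0 : rep s (B + 1) acc = rep s B (acc ^^^ 2 ^ (s * B)) := force_eq _ _
    by_cases e : s * B = t
    · exact ⟨B, Nat.lt_succ_self B, e.symm⟩
    · rw [e0] at h
      obtain ⟨b, hb, e'⟩ := ih (acc ^^^ 2 ^ (s * B)) (by rw [bt_xor, bt_two_pow, if_neg e, add_zero]; exact h)
      exact ⟨b, by omega, e'⟩

/-- evaluate the tables of covectors and vectors first -/
noncomputable def prepK (s : ℕ) (pc pv : List (ℕ × ℕ)) (k : List (ℕ × ℕ) → ℕ) (Gs : List (List (List (ℕ × ℕ)))) :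
    List (ℕ × ℕ) → ℕ :=
  List.rec (motive := fun _ => List (ℕ × ℕ) → ℕ) k
    (fun G _ ih acc => force (build s (trG G) pc 1 1) fun C => force (build s G pv 1 1) fun V => ih ((C, V) :: acc)) Gs

theorem prepK_eq (s : ℕ) (pc pv : List (ℕ × ℕ)) (k : List (ℕ × ℕ) → ℕ) (Gs : List (List (List (ℕ × ℕ))))
    (acc : List (ℕ × ℕ)) :
    prepK s pc pv k Gs acc = k ((Gs.map fun G => (build s (trG G) pc 1 1, build s G pv 1 1)).reverse ++ acc) := by
  induction Gs generalizing acc with
  | nil => rfl
  | cons x l ih =>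
    rw [List.map_cons, List.reverse_cons, List.append_assoc, ← ih]
    show force (build s (trG x) pc 1 1) (fun C => force (build s x pv 1 1) fun V => prepK s pc pv k l ((C, V) :: acc)) = _
    rw [force_eq, force_eq]; rfl

/-- a row of the matrix of products -/
noncomputable def rowA (s R : ℕ) (CV : List (ℕ × ℕ)) (a : ℕ) : ℕ :=
  List.rec (motive := fun _ => ℕ) R (fun p _ ih => Nat.land (force (row s p.1 a) fun c => dotRow p.2 c s) ih) CV

theorem bt_rowA (s R : ℕ) (CV : List (ℕ × ℕ)) (a t : ℕ) :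
    bt (rowA s R CV a) t = (CV.map fun p => bt (dotRow p.2 (row s p.1 a) s) t).prod * bt R t := by
  induction CV with
  | nil => exact (one_mul _).symm
  | cons p CV ih =>
    rw [List.map_cons, List.prod_cons, mul_assoc, ← ih, ← bt_and, ← force_eq (row s p.1 a) fun c => dotRow p.2 c s]
    rfl

/-- the rank of the matrix of products of matrix coefficients -/
noncomputable def bigRk (s : ℕ) (Gs : List (List (List (ℕ × ℕ)))) (pc pv : List (ℕ × ℕ)) : ℕ :=
  force (rep s (Nat.succ pv.length) 0) fun R => prepK s pc pv (fun CV => rkF (Nat.succ pc.length) (rowA s R CV)) Gs []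

theorem bigRk_le {s : ℕ} (hs : 0 < s) {Gs : List (List (List (ℕ × ℕ)))} (hG : ∀ G ∈ Gs, wfG s G = true)
    (pc pv : List (ℕ × ℕ)) {M : Type*} [AddCommGroup M] [Module F2 M] [FiniteDimensional F2 M] (a : ℕ → End F2 M) (m : M)
    (l : M →ₗ[F2] F2) (h : ∀ w, l (wd a w m) = (Gs.map fun G => co s 0 (wd (ops s G) w (bv s 1))).prod) :
    bigRk s Gs pc pv ≤ finrank F2 M := by
  rw [bigRk, force_eq, prepK_eq, List.append_nil, ← Subspace.dual_finrank_eq]
  let Θ : Dual F2 M →ₗ[F2] (ℕ → F2) := LinearMap.pi fun t => bt (rep s (pv.length + 1) 0) t •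
    Dual.eval F2 M (wd a (wrds pv 1 (fun _ => []) (t / s)) m)
  refine rkF_le Θ fun i hi => ⟨l ∘ₗ wd a (wrds pc 1 (fun _ => []) i).reverse, funext fun t => ?_⟩
  show bt (rep s (pv.length + 1) 0) t * l (wd a _ (wd a _ m)) = bt _ t
  rw [bt_rowA, mul_comm]
  by_cases e : bt (rep s (pv.length + 1) 0) t = bt 0 t
  · rw [e, bt_zero, mul_zero, mul_zero]
  · obtain ⟨b, hb, rfl⟩ := bt_rep _ _ _ _ e
    refine congrArg (· * _) ?_
    rw [Nat.mul_div_cancel_left b hs, ← wd_append_apply, h, List.map_reverse, List.prod_reverse, List.map_map]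
    refine congrArg List.prod (List.map_congr_left fun G hG' => ?_)
    rw [Function.comp_apply, bt_dotRow_slot, build_spec (wfG_tr (hG G hG')) (sm_one hs) pc (by omega),
      build_spec (hG G hG') (sm_one hs) pv (by omega), wd_tr, ← wd_append_apply, co_eq_dot]
    rfl

end Cfsg.Agent.E82.Mach
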