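import Cfsg.Agent.E82.Mach.Hecke
import Cfsg.Agent.E82.Mach.Rank

/-!
# The pressure machine: weight vectors (helper38)

The letters `0, …, nb - 1` are the negative root elements (the first `r` are the simple ones), the letters
`nb, …, nb + r - 1` are the simple positive root elements.

* `WV`, `PM` : weight vectors; `gen` : a weight vector generates under the negative root elements;
* `PM.coef`, `PM.iso` : uniqueness; `PM.ten` : tensor products; `exists_pm` : existence.
-/

set_option autoImplicit false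

namespace Cfsg.Agent.E82.Mach

open Module

section Gen

variable {V V' : Type*} [AddCommGroup V] [Module F2 V] [AddCommGroup V'] [Module F2 V']

/-- the subspace generated by `S` under the letters in `A` -/
def sp (a : ℕ → End F2 V) (A : ℕ → Prop) (S : Set V) : Submodule F2 V :=
  sInf {W | S ⊆ W ∧ ∀ j, A j → ∀ v ∈ W, a j v ∈ W}

theorem sp_le {a : ℕ → End F2 V} {A : ℕ → Prop} {S : Set V} {W : Submodule F2 V} (h1 : S ⊆ W)
    (h2 : ∀ j, A j → ∀ v ∈ W, a j v ∈ W) : sp a A S ≤ W := sInf_le ⟨h1, h2⟩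

theorem mem_sp {a : ℕ → End F2 V} {A : ℕ → Prop} {S : Set V} {v : V} (h : v ∈ S) : v ∈ sp a A S :=
  Submodule.mem_sInf.2 fun _ hW => hW.1 h

theorem sp_inv {a : ℕ → End F2 V} {A : ℕ → Prop} {S : Set V} {j : ℕ} (hj : A j) {v : V} (h : v ∈ sp a A S) :
    a j v ∈ sp a A S :=
  Submodule.mem_sInf.2 fun W hW => hW.2 j hj v (Submodule.mem_sInf.1 h W hW)

theorem sp_wd {a : ℕ → End F2 V} {A : ℕ → Prop} {S : Set V} {w : List ℕ} (hw : ∀ j ∈ w, A j) {v : V} (h : v ∈ sp a A S) :
    wd a w v ∈ sp a A S := by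
  induction w with
  | nil => exact h
  | cons j w ih =>
    rw [wd_cons_apply]
    exact sp_inv (hw j List.mem_cons_self) (ih fun i hi => hw i (List.mem_cons_of_mem _ hi))

theorem sp_norm {a : ℕ → End F2 V} {A : ℕ → Prop} {S : Set V} {g : End F2 V}
    (h1 : ∀ j, A j → ∃ y : List ℕ, (∀ t ∈ y, A t) ∧ ∀ v, g (a j v) = wd a y (g v)) (h2 : ∀ s ∈ S, g s ∈ sp a A S) {v : V}
    (h : v ∈ sp a A S) : g v ∈ sp a A S := by
  refine sp_le (W := (sp a A S).comap g) h2 (fun j hj v hv => ?_) h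
  obtain ⟨y, hy, e⟩ := h1 j hj
  rw [Submodule.mem_comap, e]
  exact sp_wd hy hv

/-- the operators on the direct sum -/
def prodOp (a : ℕ → End F2 V) (b : ℕ → End F2 V') : ℕ → End F2 (V × V') := fun j => (a j).prodMap (b j)

theorem wd_prodOp (a : ℕ → End F2 V) (b : ℕ → End F2 V') (w : List ℕ) (p : V × V') :
    wd (prodOp a b) w p = (wd a w p.1, wd b w p.2) := by
  induction w with
  | nil => rfl
  | cons j w ih => rw [wd_cons_apply, ih]; rfl

/-- an invariant subspace of the direct sum that is a graph -/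
theorem iso_of_graph {a : ℕ → End F2 V} {b : ℕ → End F2 V'} {N : Submodule F2 (V × V')} (hN : Inv (prodOp a b) N)
    (h1 : N.map (LinearMap.fst F2 V V') = ⊤) (h2 : N.map (LinearMap.snd F2 V V') = ⊤)
    (h3 : N.comap (LinearMap.inl F2 V V') = ⊥) (h4 : N.comap (LinearMap.inr F2 V V') = ⊥) :
    ∃ e : V ≃ₗ[F2] V', Hom a b e ∧ ∀ p ∈ N, e p.1 = p.2 := by
  have b1 : Function.Bijective (Prod.fst ∘ N.subtype) := by
    refine ⟨fun p q h => ?_, fun v => ?_⟩
    · have h' : (p : V × V').1 = (q : V × V').1 := h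
      have e : (p : V × V').2 - (q : V × V').2 ∈ N.comap (LinearMap.inr F2 V V') := by
        have := N.sub_mem p.2 q.2
        rw [show (p : V × V') - (q : V × V') = (0, (p : V × V').2 - (q : V × V').2) from Prod.ext (sub_eq_zero.2 h') rfl] at this
        exact this
      rw [h4, Submodule.mem_bot] at e
      exact Subtype.ext (Prod.ext h' (sub_eq_zero.1 e))
    · obtain ⟨p, hp, e⟩ : v ∈ N.map (LinearMap.fst F2 V V') := h1 ▸ Submodule.mem_top
      exact ⟨⟨p, hp⟩, e⟩
  have b2 : Function.Bijective (Prod.snd ∘ N.subtype) := by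
    refine ⟨fun p q h => ?_, fun v => ?_⟩
    · have h' : (p : V × V').2 = (q : V × V').2 := h
      have e : (p : V × V').1 - (q : V × V').1 ∈ N.comap (LinearMap.inl F2 V V') := by
        have := N.sub_mem p.2 q.2
        rw [show (p : V × V') - (q : V × V') = ((p : V × V').1 - (q : V × V').1, 0) from Prod.ext rfl (sub_eq_zero.2 h')] at this
        exact this
      rw [h3, Submodule.mem_bot] at e
      exact Subtype.ext (Prod.ext (sub_eq_zero.1 e) h')
    · obtain ⟨p, hp, e⟩ : v ∈ N.map (LinearMap.snd F2 V V') := h2 ▸ Submodule.mem_top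
      exact ⟨⟨p, hp⟩, e⟩
  obtain ⟨e, he⟩ := Submodule.exists_equiv_eq_graph b1 b2
  have h5 : ∀ p ∈ N, e p.1 = p.2 := fun p hp => by
    rw [he, LinearMap.mem_graph_iff] at hp
    exact hp.symm
  refine ⟨e, fun j v => ?_, h5⟩
  have h6 : (v, e v) ∈ N := by rw [he, LinearMap.mem_graph_iff]; rfl
  exact h5 _ (hN j _ h6)

/-- the operators on the tensor product -/
noncomputable def tenOp (a : ℕ → End F2 V) (b : ℕ → End F2 V') : ℕ → End F2 (TensorProduct F2 V V') :=
  fun j => TensorProduct.map (a j) (b j)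

theorem wd_tenOp (a : ℕ → End F2 V) (b : ℕ → End F2 V') (w : List ℕ) :
    wd (tenOp a b) w = TensorProduct.map (wd a w) (wd b w) := by
  induction w with
  | nil => exact TensorProduct.map_one.symm
  | cons j w ih => rw [wd_cons, wd_cons, wd_cons, TensorProduct.map_mul, ih]; rfl

/-- the product of two functionals -/
noncomputable def tenL (l : V →ₗ[F2] F2) (l' : V' →ₗ[F2] F2) : TensorProduct F2 V V' →ₗ[F2] F2 :=
  (TensorProduct.lid F2 F2).toLinearMap ∘ₗ TensorProduct.map l l'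

theorem tenL_tmul (l : V →ₗ[F2] F2) (l' : V' →ₗ[F2] F2) (x : V) (y : V') : tenL l l' (x ⊗ₜ y) = l x * l' y := rfl

end Gen

/-- the data of a type -/
structure Ty where
  /-- the rank -/
  r : ℕ
  /-- the number of negative roots -/
  nb : ℕ
  /-- the conjugates of the negative root elements under the simple positive and negative root elements -/
  nrm : List (List (List ℕ × List ℕ))

/-- the conjugates of the letter `t` -/
def Ty.y (ty : Ty) (i t : ℕ) : List ℕ × List ℕ := (ty.nrm.getD i []).getD t ([], [])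

/-- the relations that are used -/
def Ty.rels (ty : Ty) : List (List ℕ × List ℕ) :=
  (List.range ty.r).flatMap fun i => ([i, i], []) :: ((List.range ty.nb).filter (· != i)).flatMap fun t =>
    [([ty.nb + i, t], (ty.y i t).1 ++ [ty.nb + i]), ([i, t], (ty.y i t).2 ++ [i])]

/-- the conjugates are words in the other negative root elements -/
def Ty.syn (ty : Ty) : Bool :=
  Nat.ble ty.r ty.nb && (List.range ty.r).all fun i => (List.range ty.nb).all fun t =>
    ((ty.y i t).1 ++ (ty.y i t).2).all fun j => Nat.blt j ty.nb && j != i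

section PM

variable {V V' : Type*} [AddCommGroup V] [Module F2 V] [AddCommGroup V'] [Module F2 V']

/-- a vector of weight `J` -/
structure WV (ty : Ty) (J : ℕ) (a : ℕ → End F2 V) (x : V) : Prop where
  rel : ∀ p ∈ ty.rels, wd a p.1 = wd a p.2
  out : ∀ j, ty.nb + ty.r ≤ j → a j = 0
  fix : ∀ i < ty.r, a (ty.nb + i) x = x
  wt1 : ∀ i < ty.r, J.testBit i = true → a (ty.nb + i) (a i x) = x + a i x
  wt0 : ∀ i < ty.r, J.testBit i = false → a i x = x

theorem Ty.mem_sq (ty : Ty) {i : ℕ} (hi : i < ty.r) : ([i, i], []) ∈ ty.rels :=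
  List.mem_flatMap.2 ⟨i, List.mem_range.2 hi, List.mem_cons_self⟩

theorem Ty.mem_u (ty : Ty) {i t : ℕ} (hi : i < ty.r) (ht : t < ty.nb) (h : t ≠ i) :
    ([ty.nb + i, t], (ty.y i t).1 ++ [ty.nb + i]) ∈ ty.rels :=
  List.mem_flatMap.2 ⟨i, List.mem_range.2 hi, List.mem_cons_of_mem _ (List.mem_flatMap.2
    ⟨t, List.mem_filter.2 ⟨List.mem_range.2 ht, bne_iff_ne.2 h⟩, List.mem_cons_self⟩)⟩

theorem Ty.mem_v (ty : Ty) {i t : ℕ} (hi : i < ty.r) (ht : t < ty.nb) (h : t ≠ i) :
    ([i, t], (ty.y i t).2 ++ [i]) ∈ ty.rels :=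
  List.mem_flatMap.2 ⟨i, List.mem_range.2 hi, List.mem_cons_of_mem _ (List.mem_flatMap.2
    ⟨t, List.mem_filter.2 ⟨List.mem_range.2 ht, bne_iff_ne.2 h⟩, List.mem_cons_of_mem _ List.mem_cons_self⟩)⟩

theorem Ty.syn_le {ty : Ty} (h : ty.syn = true) : ty.r ≤ ty.nb := by
  rw [Ty.syn, Bool.and_eq_true, Nat.ble_eq] at h; exact h.1

theorem Ty.syn_y {ty : Ty} (h : ty.syn = true) {i t : ℕ} (hi : i < ty.r) (ht : t < ty.nb) :
    ∀ j ∈ (ty.y i t).1 ++ (ty.y i t).2, j < ty.nb ∧ j ≠ i := fun j hj => by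
  rw [Ty.syn, Bool.and_eq_true] at h
  have := List.all_eq_true.1 (List.all_eq_true.1 (List.all_eq_true.1 h.2 i (List.mem_range.2 hi)) t (List.mem_range.2 ht)) j hj
  rwa [Bool.and_eq_true, Nat.blt_eq, bne_iff_ne] at this

/-- a weight vector generates an invariant subspace under the negative root elements -/
theorem gen {ty : Ty} (hs : ty.syn = true) {J : ℕ} {a : ℕ → End F2 V} {x : V} (h : WV ty J a x) :
    Inv a (sp a (· < ty.nb) {x}) := by
  intro j v hv
  by_cases h1 : j < ty.nb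
  · exact sp_inv (A := (· < ty.nb)) h1 hv
  by_cases h2 : ty.nb + ty.r ≤ j
  · rw [h.out j h2]; exact zero_mem _
  obtain ⟨i, rfl⟩ : ∃ i, j = ty.nb + i := ⟨j - ty.nb, by omega⟩
  have hi : i < ty.r := by omega
  have hi' : i < ty.nb := lt_of_lt_of_le hi (Ty.syn_le hs)
  have m1 : x ∈ sp a (fun t => t < ty.nb ∧ t ≠ i) {x, a i x} := mem_sp (Set.mem_insert _ _)
  have m2 : a i x ∈ sp a (fun t => t < ty.nb ∧ t ≠ i) {x, a i x} := mem_sp (Set.mem_insert_of_mem _ rfl)
  have n1 : ∀ v ∈ sp a (fun t => t < ty.nb ∧ t ≠ i) {x, a i x}, a i v ∈ sp a (fun t => t < ty.nb ∧ t ≠ i) {x, a i x} := by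
    intro v hv
    refine sp_norm (fun t ht => ⟨(ty.y i t).2, fun j hj => Ty.syn_y hs hi ht.1 j (List.mem_append_right _ hj), fun v => ?_⟩)
      ?_ hv
    · have := LinearMap.congr_fun (h.rel _ (ty.mem_v hi ht.1 ht.2)) v
      rwa [wd_append_apply, wd_cons_apply, wd_single, wd_single] at this
    · rintro s (rfl | rfl)
      · exact m2
      · have := LinearMap.congr_fun (h.rel _ (ty.mem_sq hi)) x
        rw [wd_cons_apply, wd_single, wd_nil_apply] at this
        rw [this]; exact m1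
  have n2 : ∀ v ∈ sp a (fun t => t < ty.nb ∧ t ≠ i) {x, a i x},
      a (ty.nb + i) v ∈ sp a (fun t => t < ty.nb ∧ t ≠ i) {x, a i x} := by
    intro v hv
    refine sp_norm (fun t ht => ⟨(ty.y i t).1, fun j hj => Ty.syn_y hs hi ht.1 j (List.mem_append_left _ hj), fun v => ?_⟩)
      ?_ hv
    · have := LinearMap.congr_fun (h.rel _ (ty.mem_u hi ht.1 ht.2)) v
      rwa [wd_append_apply, wd_cons_apply, wd_single, wd_single] at this
    · rintro s (rfl | rfl)
      · rw [h.fix i hi]; exact m1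
      · cases e : J.testBit i with
        | false => rw [(congrArg (a (ty.nb + i)) (h.wt0 i hi e)).trans (h.fix i hi)]; exact m1
        | true => rw [h.wt1 i hi e]; exact add_mem m1 m2
  have l1 : sp a (· < ty.nb) {x} ≤ sp a (fun t => t < ty.nb ∧ t ≠ i) {x, a i x} := by
    refine sp_le (Set.singleton_subset_iff.2 m1) fun t ht v hv => ?_
    by_cases e : t = i
    · rw [e]; exact n1 v hv
    · exact sp_inv (A := fun t => t < ty.nb ∧ t ≠ i) ⟨ht, e⟩ hv
  have l2 : sp a (fun t => t < ty.nb ∧ t ≠ i) {x, a i x} ≤ sp a (· < ty.nb) {x} := by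
    refine sp_le ?_ fun t ht v hv => sp_inv (A := (· < ty.nb)) ht.1 hv
    rintro s (rfl | rfl)
    · exact mem_sp rfl
    · exact sp_inv (A := (· < ty.nb)) hi' (mem_sp rfl)
  exact l2 (n2 v (l1 hv))

theorem WV.prod {ty : Ty} {J : ℕ} {a : ℕ → End F2 V} {b : ℕ → End F2 V'} {x : V} {y : V'} (h : WV ty J a x)
    (h' : WV ty J b y) : WV ty J (prodOp a b) (x, y) where
  rel p hp := LinearMap.ext fun q => by rw [wd_prodOp, wd_prodOp, h.rel p hp, h'.rel p hp]
  out j hj := by rw [prodOp, h.out j hj, h'.out j hj, LinearMap.prodMap_zero]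
  fix i hi := Prod.ext (h.fix i hi) (h'.fix i hi)
  wt1 i hi e := Prod.ext (h.wt1 i hi e) (h'.wt1 i hi e)
  wt0 i hi e := Prod.ext (h.wt0 i hi e) (h'.wt0 i hi e)

/-- a vector of weight `J` with an invariant functional -/
structure PM (ty : Ty) (J : ℕ) (a : ℕ → End F2 V) (x : V) (l : V →ₗ[F2] F2) : Prop extends WV ty J a x where
  inv : ∀ j < ty.nb, ∀ v, l (a j v) = l v
  one : l x = 1

theorem PM.ker {ty : Ty} {J : ℕ} {a : ℕ → End F2 V} {b : ℕ → End F2 V'} {x : V} {y : V'} {l : V →ₗ[F2] F2}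
    {l' : V' →ₗ[F2] F2} (h : PM ty J a x l) (h' : PM ty J b y l') {p : V × V'}
    (hp : p ∈ sp (prodOp a b) (· < ty.nb) {(x, y)}) : l p.1 = l' p.2 := by
  have : sp (prodOp a b) (· < ty.nb) {(x, y)} ≤
      LinearMap.eqLocus (l ∘ₗ LinearMap.fst F2 V V') (l' ∘ₗ LinearMap.snd F2 V V') :=
    sp_le (Set.singleton_subset_iff.2 (h.one.trans h'.one.symm)) fun j hj q hq =>
      (h.inv j hj q.1).trans (Eq.trans hq (h'.inv j hj q.2).symm)
  exact this hp

/-- the matrix coefficient depends on the weight only -/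
theorem PM.coef {ty : Ty} (hs : ty.syn = true) {J : ℕ} {a : ℕ → End F2 V} {b : ℕ → End F2 V'} {x : V} {y : V'}
    {l : V →ₗ[F2] F2} {l' : V' →ₗ[F2] F2} (h : PM ty J a x l) (h' : PM ty J b y l') (w : List ℕ) :
    l (wd a w x) = l' (wd b w y) := by
  have := h.ker h' ((gen hs (h.toWV.prod h'.toWV)).wd w (mem_sp rfl))
  rwa [wd_prodOp] at this

/-- the vector generates, the functional cogenerates -/
def Irr (a : ℕ → End F2 V) (x : V) (l : V →ₗ[F2] F2) : Prop :=
  (∀ W, Inv a W → x ∈ W → W = ⊤) ∧ ∀ W, Inv a W → (∀ v ∈ W, l v = 0) → W = ⊥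

theorem Simple.irr {a : ℕ → End F2 V} (h : Simple a) {x : V} {l : V →ₗ[F2] F2} (e : l x = 1) : Irr a x l := by
  refine ⟨fun W hW hx => (h.2 W hW).resolve_left fun e' => ?_, fun W hW hl => (h.2 W hW).resolve_right fun e' => ?_⟩
  · rw [e', Submodule.mem_bot] at hx
    rw [hx, map_zero] at e
    exact zero_ne_one e
  · exact zero_ne_one ((hl x (e' ▸ Submodule.mem_top)).symm.trans e)

theorem PM.iso {ty : Ty} (hs : ty.syn = true) {J : ℕ} {a : ℕ → End F2 V} {b : ℕ → End F2 V'} {x : V} {y : V'}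
    {l : V →ₗ[F2] F2} {l' : V' →ₗ[F2] F2} (h : PM ty J a x l) (h' : PM ty J b y l') (hi : Irr a x l) (hi' : Irr b y l') :
    ∃ e : V ≃ₗ[F2] V', Hom a b e := by
  have hN := gen hs (h.toWV.prod h'.toWV)
  have hm : (x, y) ∈ sp (prodOp a b) (· < ty.nb) {(x, y)} := mem_sp rfl
  obtain ⟨e, he, -⟩ := iso_of_graph hN (hi.1 _ (hN.map (b := a) fun _ _ => rfl) ⟨_, hm, rfl⟩)
    (hi'.1 _ (hN.map (b := b) fun _ _ => rfl) ⟨_, hm, rfl⟩)
    (hi.2 _ (hN.comap (a := a) fun j v => Prod.ext rfl (map_zero (b j)).symm) fun v hv => (h.ker h' hv).trans (map_zero l'))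
    (hi'.2 _ (hN.comap (a := b) fun j v => Prod.ext (map_zero (a j)).symm rfl) fun v hv =>
      (h.ker h' hv).symm.trans (map_zero l))
  exact ⟨e, he⟩

theorem PM.ten {ty : Ty} {J J' : ℕ} (hJ : J &&& J' = 0) {a : ℕ → End F2 V} {b : ℕ → End F2 V'} {x : V} {y : V'}
    {l : V →ₗ[F2] F2} {l' : V' →ₗ[F2] F2} (h : PM ty J a x l) (h' : PM ty J' b y l') :
    PM ty (J ||| J') (tenOp a b) (x ⊗ₜ y) (tenL l l') where
  rel p hp := by rw [wd_tenOp, wd_tenOp, h.rel p hp, h'.rel p hp]
  out j hj := by rw [tenOp, h.out j hj, TensorProduct.map_zero_left]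
  fix i hi := by rw [tenOp, TensorProduct.map_tmul, h.fix i hi, h'.fix i hi]
  wt1 i hi e := by
    have e0 : (J &&& J').testBit i = false := by rw [hJ, Nat.zero_testBit]
    rw [Nat.testBit_and] at e0
    rw [Nat.testBit_or] at e
    rw [tenOp, tenOp, TensorProduct.map_tmul, TensorProduct.map_tmul]
    cases e1 : J.testBit i with
    | false =>
      rw [e1, Bool.false_or] at e
      rw [h.wt0 i hi e1, h.fix i hi, h'.wt1 i hi e, TensorProduct.tmul_add]
    | true =>
      rw [e1, Bool.true_and] at e0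
      rw [h'.wt0 i hi e0, h'.fix i hi, h.wt1 i hi e1, TensorProduct.add_tmul]
  wt0 i hi e := by
    rw [Nat.testBit_or, Bool.or_eq_false_iff] at e
    rw [tenOp, TensorProduct.map_tmul, h.wt0 i hi e.1, h'.wt0 i hi e.2]
  inv j hj v := by
    induction v using TensorProduct.induction_on with
    | zero => rw [map_zero]
    | tmul p q => rw [tenOp, TensorProduct.map_tmul, tenL_tmul, tenL_tmul, h.inv j hj, h'.inv j hj]
    | add p q hp hq => rw [map_add, map_add, map_add, hp, hq]
  one := by rw [tenL_tmul, h.one, h'.one, mul_one]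

end PM

/-- the certificates for the existence of a weight vector -/
structure Ex where
  /-- the chain of the positive root elements -/
  cpos : List (List ℕ × List ℕ × List (List ℕ))
  /-- the chain of the negative root elements -/
  cneg : List (List ℕ × List ℕ × List (List ℕ))
  /-- the operators preserve the fixed space -/
  stab : List (List (List (List ℕ × List ℕ × List ℕ)))
  /-- the relations of the operators -/
  rules : List ((List ℕ × List ℕ) × List (List ℕ × List ℕ × List ℕ))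
  /-- the normal forms -/
  tab : List (List ℕ × List (ℕ × ℕ))

section Ex

variable {V : Type*} [AddCommGroup V] [Module F2 V]

/-- the operators `(1 + u) v` -/
def Ty.T (ty : Ty) (a : ℕ → End F2 V) : ℕ → End F2 V := fun i => if i < ty.r then a i + a (ty.nb + i) * a i else 1

/-- the expansion of a word in the operators -/
noncomputable def Ty.exp (ty : Ty) (w : List ℕ) : List (List ℕ) :=
  List.rec (motive := fun _ => List (List ℕ)) [[]]
    (fun i _ ih => cond (Nat.blt i ty.r) (ih.map ([i] ++ ·) ++ ih.map ([ty.nb + i, i] ++ ·)) ih) w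

theorem Ty.wd_T (ty : Ty) (a : ℕ → End F2 V) (w : List ℕ) (v : V) : wd (ty.T a) w v = sumW a (ty.exp w) v := by
  induction w with
  | nil => exact (add_zero v).symm
  | cons i w ih =>
    have e : ty.exp (i :: w) = cond (Nat.blt i ty.r) ((ty.exp w).map ([i] ++ ·) ++ (ty.exp w).map ([ty.nb + i, i] ++ ·))
      (ty.exp w) := rfl
    rw [wd_cons_apply, ih, e, Ty.T]
    by_cases hi : i < ty.r
    · rw [if_pos hi, Nat.blt_eq.mpr hi, cond_true, sumW_append, sumW_map, sumW_map, wd_single, wd_cons_apply, wd_single]; rfl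
    · rw [if_neg hi, Bool.eq_false_iff.2 fun h => hi (Nat.blt_eq.mp h), cond_false]; rfl

/-- the check of the certificates -/
noncomputable def exOk (ok : List ℕ → List ℕ → Bool) (ty : Ty) (ex : Ex) : Bool :=
  ty.syn && (ty.rels.all fun p => ok p.1 p.2) && chainOk ok ex.cpos &&
    chainOk (fun w w' => ok w.reverse w'.reverse) ex.cneg &&
    ((List.range ty.nb).all fun j => (ex.cneg.map Prod.fst).contains [j]) &&
    ((List.range ty.r).all fun i => (ex.cpos.map Prod.fst).contains [ty.nb + i] &&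
      ok [ty.nb + i, i, ty.nb + i] [i, ty.nb + i, i] &&
      (List.range ex.cpos.length).all fun t => zeroOk ok (ex.cpos.map Prod.fst)
        ((ty.exp [i]).map ((ex.cpos.map Prod.fst).getD t [] ++ ·) ++ ty.exp [i]) ((ex.stab.getD i []).getD t [])) &&
    (ex.rules.all fun p => zeroOk ok (ex.cpos.map Prod.fst) (ty.exp p.1.1 ++ ty.exp p.1.2) p.2) &&
    tabOk ty.r (ex.rules.map Prod.fst) ex.tab

theorem exists_pm {ok : List ℕ → List ℕ → Bool} {ty : Ty} {ex : Ex} (h : exOk ok ty ex = true) {a : ℕ → End F2 V}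
    (ha : Good ok (ty.nb + ty.r) a) (hs : Simple a) : ∃ J < 2 ^ ty.r, ∃ x l, PM ty J a x l := by
  classical
  simp only [exOk, Bool.and_eq_true, List.all_eq_true, List.mem_range, List.contains_iff_mem] at h
  obtain ⟨⟨⟨⟨⟨⟨⟨h1, h2⟩, h3⟩, h4⟩, h5⟩, h6⟩, h7⟩, h8⟩ := h
  have hQ : ∀ i v, v ∈ FixL a (ex.cpos.map Prod.fst) → ty.T a i v ∈ FixL a (ex.cpos.map Prod.fst) := by
    intro i v hv y hy
    by_cases hi : i < ty.r
    · obtain ⟨t, ht, rfl⟩ := List.getElem_of_mem hy
      have e := zero_sound ha.rel ((h6 i hi).2 t (by rwa [List.length_map] at ht)) hv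
      rw [sumW_append, sumW_map, ← ty.wd_T, wd_single, List.getD_eq_getElem _ _ ht] at e
      exact eq_of_add_eq_zero' e
    · rw [Ty.T, if_neg hi]; exact hv y hy
  obtain ⟨v, hv, hv0⟩ := chain ha.rel hs.1 h3
  obtain ⟨m, hm, hm0, hT⟩ := eigen hQ (fun p hp v hv => by
    obtain ⟨q, hq, rfl⟩ := List.mem_map.1 hp
    have e := zero_sound ha.rel (h7 q hq) hv
    rw [sumW_append, ← ty.wd_T, ← ty.wd_T] at e
    exact Or.inl (eq_of_add_eq_zero' e)) h8 hv hv0
  have hfix : ∀ i < ty.r, a (ty.nb + i) m = m := fun i hi => by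
    have := hm _ (h6 i hi).1.1
    rwa [wd_single] at this
  have hW : WV ty (Nat.ofBits fun i : Fin ty.r => decide (ty.T a i m = m)) a m := by
    refine ⟨fun p hp => ha.rel _ _ (h2 p hp), ha.out, hfix, fun i hi e => ?_, fun i hi e => ?_⟩
    · rw [Nat.testBit_ofBits_lt _ _ hi, decide_eq_true_iff, Ty.T, if_pos hi, LinearMap.add_apply, End.mul_apply] at e
      rw [← sub_eq_add', eq_sub_iff_add_eq', e]
    · rw [Nat.testBit_ofBits_lt _ _ hi, decide_eq_false_iff_not] at e
      have e1 := (hT i hi).resolve_right e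
      rw [Ty.T, if_pos hi, LinearMap.add_apply, End.mul_apply] at e1
      have e2 := LinearMap.congr_fun (ha.rel _ _ (h6 i hi).1.2) m
      have e3 := LinearMap.congr_fun (ha.rel _ _ (h2 _ (ty.mem_sq hi))) m
      simp only [wd_cons_apply, wd_nil_apply] at e2 e3
      rw [hfix i hi, ← eq_of_add_eq_zero' e1, e3] at e2
      exact e2
  obtain ⟨l, hl0, hl⟩ := dchain ha.rel hs.1 h4
  have hinv : ∀ j < ty.nb, ∀ v, l (a j v) = l v := fun j hj v => by
    have := hl _ (h5 j hj) v
    rwa [List.reverse_singleton, wd_single] at this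
  refine ⟨_, Nat.ofBits_lt_two_pow _, m, l, hW, hinv, (f2_cases _).resolve_left fun e => hl0 ?_⟩
  have e1 : sp a (· < ty.nb) {m} = ⊤ := (hs.2 _ (gen h1 hW)).resolve_left fun e' =>
    hm0 ((Submodule.mem_bot F2).1 (e' ▸ mem_sp (a := a) (A := (· < ty.nb)) rfl))
  have e2 : sp a (· < ty.nb) {m} ≤ LinearMap.ker l :=
    sp_le (Set.singleton_subset_iff.2 e) fun j hj v hv => (hinv j hj v).trans hv
  rw [e1] at e2
  exact LinearMap.ext fun v => e2 Submodule.mem_top

end Ex

end Cfsg.Agent.E82.Mach
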